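import Cfsg.Agent.H330.ClassBits

/-!
# The combinatorial hypothesis of `notA_sys` for `E₆`, `E₇`, `E₈` (helper330)
-/

set_option autoImplicit false

namespace Cfsg.Agent.H330.ClassBitsE

open Cfsg.Agent.H330.ClassLaced Cfsg.Agent.H330.ClassBits

/-- eight bits -/
def rd8 (A a : ℕ) : ℕ := Nat.land (Nat.shiftRight A (Nat.mul 8 a)) 255

/-- three bits -/
def rd3 (T : List ℕ) (i K : ℕ) : ℕ := Nat.land (Nat.shiftRight (T.getD i 0) (Nat.mul 3 K)) 7

/-- neighbours -/
def adj6 : ℕ := 17764354426884

/-- pointers -/
def tbl6 : List ℕ := [
  748288905215830689367136819394767127495538456395968,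
  3367300374579533316521545041694874078631780602195984,
  748312097990847795121567585072483775394068708721872,
  602120120369228584248917124211273926317291216,
  182863794231994476507044123752559392464,
  884242885203644513104541392]

theorem check6 : check (rd8 adj6) 6 (rd3 tbl6) 4 [7, 30, 43, 50, 53] = true := by
  decide +kernel

theorem adj6_three (i j : Fin 6) : (rd8 adj6 i).testBit j = true → CoxeterMatrix.E₆ i j = 3 := by
  fin_cases i <;> fin_cases j <;> decide +kernel

theorem adj6_two (i j : Fin 6) : i ≠ j → (rd8 adj6 i).testBit j = false → CoxeterMatrix.E₆ j i = 2 := by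
  fin_cases i <;> fin_cases j <;> decide +kernel

theorem comb6 (K L : Finset (Fin 6)) (hK : K.Nonempty) (hL : L.Nonempty) :
    ∃ i, Hit CoxeterMatrix.E₆ K i ∧ Hit CoxeterMatrix.E₆ L i :=
  comb adj6_three adj6_two check6 K L hK hL

theorem conn6 (i j : Fin 6) : Relation.ReflTransGen (fun a b => CoxeterMatrix.E₆ a b = 3) i j := by
  have h : ∀ i : Fin 6, Relation.ReflTransGen (fun a b => CoxeterMatrix.E₆ a b = 3) i 3 := by
    have h1 : ∀ a b : Fin 6, (rd8 adj6 a).testBit b = true →
        Relation.ReflTransGen (fun a b => CoxeterMatrix.E₆ a b = 3) a b :=
      fun a b h => Relation.ReflTransGen.single (adj6_three a b h)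
    intro i
    fin_cases i
    · exact (h1 0 2 (by decide +kernel)).trans (h1 2 3 (by decide +kernel))
    · exact h1 1 3 (by decide +kernel)
    · exact h1 2 3 (by decide +kernel)
    · exact Relation.ReflTransGen.refl
    · exact h1 4 3 (by decide +kernel)
    · exact (h1 5 4 (by decide +kernel)).trans (h1 4 3 (by decide +kernel))
  refine (h i).trans ?_
  have h2 := Relation.reflTransGen_swap.2 (h j)
  have hle : Function.swap (fun a b => CoxeterMatrix.E₆ a b = 3) ≤ fun a b => CoxeterMatrix.E₆ a b = 3 := by
    intro a b hab
    change CoxeterMatrix.E₆ b a = 3 at hab
    rw [CoxeterMatrix.symmetric]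
    exact hab
  exact Relation.ReflTransGen.mono hle _ _ h2

/-- neighbours -/
def adj7 : ℕ := 9095332353345540

/-- pointers -/
def tbl7 : List ℕ := [
  4697085585500890295131404614645921620147347168936318878156220751031976740325050376659017961200448222466670784,
  21136887024841408757534648330956510700978293090354777991829027678469296633149055702953398948232741674029264912,
  4697231168909198602517179542700413358816288624494478439506442751838006161096492652335195001262892700842067152,
  3779569252480921854865741836472964717952782531678602053508645691883274007645273347982173941632126269136,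
  1147854640113045432624321657223073248132166098503264088751763966066221908621021128309517479687888,
  266785022569680880971125914267308112654273029181744425508009925017073611022907088,
  84068326813214474515657893993791350231490758421281617616]

theorem check7 : check (rd8 adj7) 7 (rd3 tbl7) 5 [7, 30, 82, 85, 107] = true := by
  decide +kernel

theorem adj7_three (i j : Fin 7) : (rd8 adj7 i).testBit j = true → CoxeterMatrix.E₇ i j = 3 := by
  fin_cases i <;> fin_cases j <;> decide +kernel

theorem adj7_two (i j : Fin 7) : i ≠ j → (rd8 adj7 i).testBit j = false → CoxeterMatrix.E₇ j i = 2 := by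
  fin_cases i <;> fin_cases j <;> decide +kernel

theorem comb7 (K L : Finset (Fin 7)) (hK : K.Nonempty) (hL : L.Nonempty) :
    ∃ i, Hit CoxeterMatrix.E₇ K i ∧ Hit CoxeterMatrix.E₇ L i :=
  comb adj7_three adj7_two check7 K L hK hL

theorem conn7 (i j : Fin 7) : Relation.ReflTransGen (fun a b => CoxeterMatrix.E₇ a b = 3) i j := by
  have h : ∀ i : Fin 7, Relation.ReflTransGen (fun a b => CoxeterMatrix.E₇ a b = 3) i 3 := by
    have h1 : ∀ a b : Fin 7, (rd8 adj7 a).testBit b = true →
        Relation.ReflTransGen (fun a b => CoxeterMatrix.E₇ a b = 3) a b :=
      fun a b h => Relation.ReflTransGen.single (adj7_three a b h)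
    intro i
    fin_cases i
    · exact (h1 0 2 (by decide +kernel)).trans (h1 2 3 (by decide +kernel))
    · exact h1 1 3 (by decide +kernel)
    · exact h1 2 3 (by decide +kernel)
    · exact Relation.ReflTransGen.refl
    · exact h1 4 3 (by decide +kernel)
    · exact (h1 5 4 (by decide +kernel)).trans (h1 4 3 (by decide +kernel))
    · exact (h1 6 5 (by decide +kernel)).trans ((h1 5 4 (by decide +kernel)).trans (h1 4 3 (by decide +kernel)))
  refine (h i).trans ?_
  have h2 := Relation.reflTransGen_swap.2 (h j)
  have hle : Function.swap (fun a b => CoxeterMatrix.E₇ a b = 3) ≤ fun a b => CoxeterMatrix.E₇ a b = 3 := by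
    intro a b hab
    change CoxeterMatrix.E₇ b a = 3 at hab
    rw [CoxeterMatrix.symmetric]
    exact hab
  exact Relation.ReflTransGen.mono hle _ _ h2

/-- neighbours -/
def adj8 : ℕ := 4656810147799697412

/-- pointers -/
def tbl8 : List ℕ := [
  185074595344901269794059498321544773263776292924005643832479813314402700970385268144439803388495129581088520572325128407996560681505941476814608187902083130530034458656592805450326525898508819563492921564943466281361794400448,
  832835753525291256325339377644807658339801235363490665141746405153589704080150676098307958767977376412989652675888354039984618813799565030147066310841348794700452935611145839259284363033143077853230371315885956579460162629648,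
  185080331623257525949180304957968738848780010550653508758890045620713812641350675036566105310584360206432267970175904338882332613804586205452227438863542004027709729741161015437180552078003566121836050975664258227040983975120,
  148922611105955332798684527069897190813097310790857649107433558373902666416626223015723894025234610315258462638807249040961693610041963036017339267770898944549205164820450585115329039432037523256536933073725804861568720,
  45227775642294371070935657705109817757810449237251949423148219502324034486075489417108311327331822372379183754538902347266252954626136481525315179750801911776213987408430789625383447250404986325847691655578236624,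
  10511865112395807059318175419488254622681466227588418164502589265615021648635007486105653221348059233330322363790568872957037112193072923372423979520980933972708621010821171033247190067875810490064,
  132678390222380231776485429251179960566066039515890553096967319091945427235973473857990983601962278195815659626109566542548723483301139675879731802045503170336006452944,
  615656346818663737691860001564743965704370926101022604180499051032765936390323784274134035166705942201560809453264]

theorem check8 : check (rd8 adj8) 8 (rd3 tbl8) 6 [7, 30, 171, 178, 181, 210, 213] = true := by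
  decide +kernel

theorem adj8_three (i j : Fin 8) : (rd8 adj8 i).testBit j = true → CoxeterMatrix.E₈ i j = 3 := by
  fin_cases i <;> fin_cases j <;> decide +kernel

theorem adj8_two (i j : Fin 8) : i ≠ j → (rd8 adj8 i).testBit j = false → CoxeterMatrix.E₈ j i = 2 := by
  fin_cases i <;> fin_cases j <;> decide +kernel

theorem comb8 (K L : Finset (Fin 8)) (hK : K.Nonempty) (hL : L.Nonempty) :
    ∃ i, Hit CoxeterMatrix.E₈ K i ∧ Hit CoxeterMatrix.E₈ L i :=
  comb adj8_three adj8_two check8 K L hK hL

theorem conn8 (i j : Fin 8) : Relation.ReflTransGen (fun a b => CoxeterMatrix.E₈ a b = 3) i j := by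
  have h : ∀ i : Fin 8, Relation.ReflTransGen (fun a b => CoxeterMatrix.E₈ a b = 3) i 3 := by
    have h1 : ∀ a b : Fin 8, (rd8 adj8 a).testBit b = true →
        Relation.ReflTransGen (fun a b => CoxeterMatrix.E₈ a b = 3) a b :=
      fun a b h => Relation.ReflTransGen.single (adj8_three a b h)
    intro i
    fin_cases i
    · exact (h1 0 2 (by decide +kernel)).trans (h1 2 3 (by decide +kernel))
    · exact h1 1 3 (by decide +kernel)
    · exact h1 2 3 (by decide +kernel)
    · exact Relation.ReflTransGen.refl
    · exact h1 4 3 (by decide +kernel)
    · exact (h1 5 4 (by decide +kernel)).trans (h1 4 3 (by decide +kernel))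
    · exact (h1 6 5 (by decide +kernel)).trans ((h1 5 4 (by decide +kernel)).trans (h1 4 3 (by decide +kernel)))
    · exact (h1 7 6 (by decide +kernel)).trans ((h1 6 5 (by decide +kernel)).trans ((h1 5 4 (by decide +kernel)).trans (h1 4 3 (by decide +kernel))))
  refine (h i).trans ?_
  have h2 := Relation.reflTransGen_swap.2 (h j)
  have hle : Function.swap (fun a b => CoxeterMatrix.E₈ a b = 3) ≤ fun a b => CoxeterMatrix.E₈ a b = 3 := by
    intro a b hab
    change CoxeterMatrix.E₈ b a = 3 at hab
    rw [CoxeterMatrix.symmetric]
    exact hab
  exact Relation.ReflTransGen.mono hle _ _ h2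

end Cfsg.Agent.H330.ClassBitsE
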