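import Cfsg.Agent.H330.ClassLaced
import Cfsg.Agent.H330.ClassRGD
import Cfsg.Agent.H330.GowCover

/-!
# Products of two `p`-regular classes: root group data with simply laced diagrams (helper330)
-/

set_option autoImplicit false
set_option linter.unusedSectionVars false

namespace Cfsg.Agent.H330.ClassLacedRGD

open CoxeterSystem Cfsg.Agent.ChevalleyStructure.CoxeterGeom Cfsg.Agent.Tits.Roots Cfsg.Agent.Tits.Core
  Cfsg.Agent.Tits.RootComb Cfsg.Agent.Nodes.Comb Cfsg.Agent.Nodes.Reps Cfsg.Agent.Nodes.BNOf Cfsg.Agent.Nodes.BNOf.RGD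
  Cfsg.Agent.FixBN Cfsg.Agent.Tits.OfBN Cfsg.Agent.Tits.OppRes Cfsg.Agent.LieExceptional.BNPairCore
  Cfsg.Agent.OddHalf.Table.AutBldg Cfsg.Agent.OddHalf.Table.AutRGD Cfsg.Agent.H330.ClassTorus
  Cfsg.Agent.H330.ClassLaced Cfsg.Agent.H330.ClassRGD

variable {I W Y : Type*} [Fintype I] [DecidableEq I] [Group W] [Group Y] {M : CoxeterMatrix I}
  {cs : CoxeterSystem M W} {A : I → I → ℤ} {h : IsCartan M A} {p : ℕ} {T : Subgroup Y} {n : I → Y}
  {X : (I → ℤ) → Subgroup Y} [Finite W]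

theorem core_eq_bot [IsSimpleGroup Y] [Nonempty I] (R : RGD cs h p T n X) (hgen : B cs h T X ⊔ NN cs R.nsys = ⊤) :
    (B cs h T X).normalCore = ⊥ := by
  obtain ⟨i⟩ := ‹Nonempty I›
  exact Cfsg.Agent.Tits.OfBN.normalCore_eq_bot (R.bnPair hgen) ⟨n i, i, rfl⟩

/-- **No two `p`-regular classes whose product is a `p`-regular class: root group data, simply laced diagrams.** -/
theorem notA_of_rgd [Finite Y] [IsSimpleGroup Y] [Nonempty I] [Fact p.Prime] (R : RGD cs h p T n X)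
    (hgen : B cs h T X ⊔ NN cs R.nsys = ⊤)
    (hT : ∀ i, ∀ t ∈ T, ∀ u ∈ X (sr i), u ≠ 1 → t * u * t⁻¹ = u → ∀ v ∈ X (sr i), t * v * t⁻¹ = v)
    (hconn : ∀ i j : I, Relation.ReflTransGen (fun a b => M a b = 3) i j)
    (hcomb : ∀ K L : Finset I, K.Nonempty → L.Nonempty → ∃ i, Hit M K i ∧ Hit M L i) : H27.AH.NotA p Y := by
  classical
  have hcore := core_eq_bot R hgen
  obtain ⟨hN, cs', hcs, hW, S⟩ := exists_setup R hgen hcore
  have hC : Cox cs' := inferInstance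
  have : Fintype (Y ⧸ (R.bnPair hgen).B) := Fintype.ofFinite _
  have hne : (R.bnPair hgen).S.Nonempty := by
    obtain ⟨i⟩ := ‹Nonempty I›
    exact ⟨n i, i, rfl⟩
  refine notA_sys (FixBN.OfBN.sys (eS R hgen) cs' hcs S) ⟨_, _, hne, S⟩
    (Tits.OfBN.thick (R.bnPair hgen) (eS R hgen) cs' hcs) (fun x y => MulAction.exists_smul_eq Y x y) ?_ hconn ?_ hcomb
  · intro x hx
    have h1 : x ∈ (B cs h T X).normalCore := by
      intro g
      have h2 := hx (QuotientGroup.mk g⁻¹)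
      rw [FixBN.OfBN.smul_mk, FixBN.OfBN.mk_eq] at h2
      have h3 : g * x * g⁻¹ = ((x * g⁻¹)⁻¹ * g⁻¹)⁻¹ := by group
      rw [h3]
      exact inv_mem h2
    rw [hcore, Subgroup.mem_bot] at h1
    exact h1
  · intro i x c y z _ hc hy hz hyc hzc hyz hxy hxz
    exact free_of_rgd R hgen cs' hcs i (hT i) hc hy hz hyc hzc hyz hxy hxz

end Cfsg.Agent.H330.ClassLacedRGD
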