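import Cfsg.Agent.H330.ClassLevi
import Cfsg.Agent.H330.ClassLacedRGD
import Cfsg.Agent.H330.ClassInt
import Cfsg.Agent.H330.ClassRowsE
import Cfsg.Agent.S1054

/-!
# Products of two `p`-regular classes: `F₄` (helper330)

`notA_F4`.
-/

set_option autoImplicit false
set_option linter.unusedSectionVars false

namespace Cfsg.Agent.H330.ClassF4

open CoxeterSystem Cfsg.Agent.ChevalleyStructure.CoxeterGeom Cfsg.Agent.Tits.Roots Cfsg.Agent.Tits.Core
  Cfsg.Agent.Tits.RootComb Cfsg.Agent.Nodes.Comb Cfsg.Agent.Nodes.Reps Cfsg.Agent.Nodes.BNOf Cfsg.Agent.Nodes.BNOf.RGD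
  Cfsg.Agent.FixBN Cfsg.Agent.Tits.OfBN Cfsg.Agent.Tits.OppRes Cfsg.Agent.LieExceptional.BNPairCore
  Cfsg.Agent.OddHalf.Table.AutBldg Cfsg.Agent.OddHalf.Table.AutRGD Cfsg.Agent.H330.ClassTorus
  Cfsg.Agent.H330.ClassLaced Cfsg.Agent.H330.ClassRGD Cfsg.Agent.H330.ClassRes Cfsg.Agent.H330.ClassLevi
  Cfsg.Agent.H330.ClassModule Cfsg.Agent.H330.ClassLacedRGD

section Comb

theorem st01 : Step CoxeterMatrix.F₄ {0} {1} :=
  ⟨1, [0], by decide, .cons (by decide) (by decide) (by decide) (.nil (by decide)), by decide, by decide⟩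

theorem st10 : Step CoxeterMatrix.F₄ {1} {0} :=
  ⟨0, [1], by decide, .cons (by decide) (by decide) (by decide) (.nil (by decide)), by decide, by decide⟩

theorem st32 : Step CoxeterMatrix.F₄ {3} {2} :=
  ⟨2, [3], by decide, .cons (by decide) (by decide) (by decide) (.nil (by decide)), by decide, by decide⟩

theorem st03 : Step CoxeterMatrix.F₄ {0, 3} {0, 2} :=
  ⟨2, [3], by decide, .cons (by decide) (by decide) (by decide) (.nil (by decide)), by decide, by decide⟩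

theorem st13 : Step CoxeterMatrix.F₄ {1, 3} {0, 3} :=
  ⟨0, [1], by decide, .cons (by decide) (by decide) (by decide) (.nil (by decide)), by decide, by decide⟩

theorem cases16 : ∀ K : Finset (Fin 4), K = ∅ ∨ K = {0} ∨ K = {1} ∨ K = {2} ∨ K = {3} ∨ K = {2, 3} ∨ K = {0, 3} ∨
    K = {1, 3} ∨ (0 ∈ K ∧ 1 ∈ K) ∨ (0 ∈ K ∧ 2 ∈ K) ∨ (1 ∈ K ∧ 2 ∈ K) := by
  decide

end Comb

variable {W Y : Type*} [Group W] [Group Y] {cs : CoxeterSystem CoxeterMatrix.F₄ W} {A : Fin 4 → Fin 4 → ℤ}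
  {h : IsCartan CoxeterMatrix.F₄ A} {p : ℕ} {T : Subgroup Y} {n : Fin 4 → Y} {X : (Fin 4 → ℤ) → Subgroup Y} [Finite W]

omit [Finite W] in
theorem rep_sr (i j : Fin 4) : rep cs h (cs.simple j) (sr i) = sr i - A j i • sr j := by
  rw [rep_simple_eq]
  congr 2
  unfold sr
  rw [pairing_single, mul_one]

/-- **Root group data of type `F₄` with integral commutator relations and root groups of the same order.** -/
theorem notA_rgd [Finite Y] [IsSimpleGroup Y] [Fact p.Prime] (R : RGD cs h p T n X)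
    (hgen : B cs h T X ⊔ NN cs R.nsys = ⊤) (hI : IntC cs h X)
    (hT : ∀ i, ∀ t ∈ T, ∀ u ∈ X (sr i), u ≠ 1 → t * u * t⁻¹ = u → ∀ v ∈ X (sr i), t * v * t⁻¹ = v)
    {q : ℕ} (hq : ∀ x, IsRoot cs h x → Nat.card (X x) = q) (h21 : A 2 1 = -1) (h31 : A 3 1 = 0) (h32 : A 3 2 = -1)
    (h23 : A 2 3 = -1) : H27.AH.NotA p Y := by
  classical
  have a1 : rep cs h (cs.simple 2) (sr 1) = sr 1 + sr 2 := by
    rw [rep_sr, h21, neg_smul, one_smul, sub_neg_eq_add]
  have a2 : rep cs h (cs.simple 3) (sr 1) = sr 1 := by rw [rep_sr, h31, zero_smul, sub_zero]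
  have a3 : rep cs h (cs.simple 3) (sr 2) = sr 2 + sr 3 := by
    rw [rep_sr, h32, neg_smul, one_smul, sub_neg_eq_add]
  have a4 : rep cs h (cs.simple 2) (sr 3) = sr 3 + sr 2 := by
    rw [rep_sr, h23, neg_smul, one_smul, sub_neg_eq_add]
  have r12 : IsRoot cs h (sr 1 + sr 2) := by rw [← a1]; exact (isRoot_sr cs h 1).act _
  have r123 : IsRoot cs h (sr 1 + sr 2 + sr 3) := by
    have h1 := r12.act (cs.simple 3)
    rwa [map_add, a2, a3, ← add_assoc] at h1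
  have hc1 : Nat.card (X (sr 2)) = Nat.card (X (sr 1 + sr 2)) := by rw [hq _ (isRoot_sr cs h 2), hq _ r12]
  have hc2 : Nat.card (X (sr 3)) = Nat.card (X (sr 1 + sr 2 + sr 3)) := by rw [hq _ (isRoot_sr cs h 3), hq _ r123]
  have hcore := core_eq_bot R hgen
  obtain ⟨hN, cs', hcs, hW, S⟩ := exists_setup R hgen hcore
  have hC : Cox cs' := inferInstance
  have : Fintype (Y ⧸ (R.bnPair hgen).B) := Fintype.ofFinite _
  have hne : (R.bnPair hgen).S.Nonempty := ⟨n 0, 0, rfl⟩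
  have hS : FixBN.HasSplit p Y := ⟨_, _, hne, S⟩
  have hth := Tits.OfBN.thick (R.bnPair hgen) (eS R hgen) cs' hcs
  have ht : ∀ x y : Y ⧸ (R.bnPair hgen).B, ∃ g : Y, g • x = y := fun x y => MulAction.exists_smul_eq Y x y
  set Δ := bldg (R.bnPair hgen) (eS R hgen) cs' hcs with hΔ
  set SS := FixBN.OfBN.sys (eS R hgen) cs' hcs S with hSS
  have hfaith : ∀ x : Y, (∀ y : Y ⧸ (R.bnPair hgen).B, x • y = y) → x = 1 := by
    intro x hx
    have h1 : x ∈ (B cs h T X).normalCore := by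
      intro g
      have h2 := hx (QuotientGroup.mk g⁻¹)
      rw [FixBN.OfBN.smul_mk, FixBN.OfBN.mk_eq] at h2
      have h3 : g * x * g⁻¹ = ((x * g⁻¹)⁻¹ * g⁻¹)⁻¹ := by group
      rw [h3]
      exact inv_mem h2
    rw [hcore, Subgroup.mem_bot] at h1
    exact h1
  have hF : ∀ i, Free Δ Y p i := fun i x c y z _ hc hy hz hyc hzc hyz hxy hxz =>
    free_of_rgd R hgen cs' hcs i (hT i) hc hy hz hyc hzc hyz hxy hxz
  have hm01 : CoxeterMatrix.F₄ 0 1 = 3 := by decide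
  have hm10 : CoxeterMatrix.F₄ 1 0 = 3 := by decide
  have hm32 : CoxeterMatrix.F₄ 3 2 = 3 := by decide
  have hd : ∀ x : Y, x ≠ 1 → ¬ p ∣ orderOf x →
      (DT SS x 0 ∧ DT SS x 1) ∨ (DT SS x 0 ∧ DT SS x 2) ∨ (DT SS x 1 ∧ DT SS x 2) := by
    intro x hx hp
    obtain ⟨K, c, hK⟩ := exists_minRes Δ x
    have hmem : ∀ i ∈ K, DT SS x i := fun i hi => hK.dt SS hth ht hp hi
    have hhit : ∀ i, Hit CoxeterMatrix.F₄ K i → DT SS x i := fun i hi => dt_of_hit SS hth ht hK hp hi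
    have htwo : ∀ d, MinRes Δ x {2} d → DT SS x 1 := fun d hd =>
      dt_one R hgen cs' hcs S hI (i := 1) (j := 2) (by decide) a1 hc1 hp hd
    rcases cases16 K with rfl | rfl | rfl | rfl | rfl | rfl | rfl | rfl | ⟨h0, h1⟩ | ⟨h0, h1⟩ | ⟨h0, h1⟩
    · -- `K = ∅`
      have hfix : x • c = c := by
        have := hK.mem
        rw [Finset.coe_empty, mem_WJ_empty] at this
        exact (Δ.eq_of_δ_eq_one this).symm
      have hne' : ∃ y : Y ⧸ (R.bnPair hgen).B, x • y ≠ y := by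
        by_contra hcon
        push Not at hcon
        exact hx (hfaith x hcon)
      obtain ⟨d, i, hd, hi⟩ := exists_nt (Δ := Δ) hfix hne'
      have key : ∃ d, x • d = d ∧ NT Δ x d 1 := by
        have h2 : ∀ d, x • d = d → NT Δ x d 2 → ∃ d, x • d = d ∧ NT Δ x d 1 := fun d hd hi =>
          nt_pair R hgen cs' hcs S hI (i := 1) (j := 2) (by decide) a1 hd hp hi
        fin_cases i
        · exact nt_three SS hth ht hd hp hm01 hi
        · exact ⟨d, hd, hi⟩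
        · exact h2 d hd hi
        · obtain ⟨d', hd', hi'⟩ := nt_three SS hth ht hd hp hm32 hi
          exact h2 d' hd' hi'
      obtain ⟨d1, hd1, hn1⟩ := key
      obtain ⟨d0, hd0, hn0⟩ := nt_three SS hth ht hd1 hp hm10 hn1
      exact Or.inl ⟨dt_of_nt SS hth ht hd0 hp (hF 0) hn0, dt_of_nt SS hth ht hd1 hp (hF 1) hn1⟩
    · exact Or.inl ⟨hmem 0 (by decide), hhit 1 (.head st01 (.of_mem (by decide)))⟩
    · exact Or.inl ⟨hhit 0 (.head st10 (.of_mem (by decide))), hmem 1 (by decide)⟩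
    · exact Or.inr (Or.inr ⟨htwo c hK, hmem 2 (by decide)⟩)
    · obtain ⟨d, hd⟩ := reach_minRes SS hth ht hK hp (Relation.ReflTransGen.single st32)
      exact Or.inr (Or.inr ⟨htwo d hd, hd.dt SS hth ht hp (by decide)⟩)
    · exact Or.inr (Or.inr ⟨dt_two R hgen cs' hcs S hI (i := 1) (j := 2) (k := 3) (by decide) (by decide) (by decide)
        a1 a2 a3 a4 hc1 hc2 hp hK, hmem 2 (by decide)⟩)
    · exact Or.inr (Or.inl ⟨hmem 0 (by decide), hhit 2 (.head st03 (.of_mem (by decide)))⟩)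
    · exact Or.inl ⟨hhit 0 (.head st13 (.of_mem (by decide))), hmem 1 (by decide)⟩
    · exact Or.inl ⟨hmem 0 h0, hmem 1 h1⟩
    · exact Or.inr (Or.inl ⟨hmem 0 h0, hmem 2 h1⟩)
    · exact Or.inr (Or.inr ⟨hmem 1 h0, hmem 2 h1⟩)
  intro a b c ha hb hc hab hpa hpb hpc
  have key : ∃ i, DT SS a i ∧ DT SS b i := by
    rcases hd a ha hpa with ⟨h1, h2⟩ | ⟨h1, h2⟩ | ⟨h1, h2⟩ <;> rcases hd b hb hpb with ⟨h3, h4⟩ | ⟨h3, h4⟩ | ⟨h3, h4⟩
    · exact ⟨0, h1, h3⟩
    · exact ⟨0, h1, h3⟩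
    · exact ⟨1, h2, h3⟩
    · exact ⟨0, h1, h3⟩
    · exact ⟨0, h1, h3⟩
    · exact ⟨2, h2, h4⟩
    · exact ⟨1, h1, h4⟩
    · exact ⟨2, h2, h4⟩
    · exact ⟨1, h1, h3⟩
  obtain ⟨i, h1, h2⟩ := key
  exact clash ht hS hab hpa hpb h1 (h2.dp hth)

section Row

open Cfsg.Lie Cfsg.Agent.Nodes.RGDChev

universe u

/-- **`F₄(q)`.** -/
theorem notA_F4 (F : Type u) [Field F] [Finite F] (p : ℕ) [CharP F p] : H27.AH.NotA p ↥(chevF4.group F) := by
  have : Fact p.Prime := ⟨CharP.char_is_prime F p⟩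
  have := (Cfsg.Agent.S1054.result (F := F) chevF4 (by simp)).1
  have hp : IsType chevF4 4 CoxeterMatrix.F₄ := by simp [IsType, typeList]
  have hW := finite_W hp CoxeterMatrix.F₄.toCoxeterSystem
  exact notA_rgd (rgd (K := F) hp CoxeterMatrix.F₄.toCoxeterSystem p) (gen hp CoxeterMatrix.F₄.toCoxeterSystem p)
    (ClassInt.intC hp _) (fun i t ht u hu hu1 htu v hv => ClassRowsE.torus_root hp i ht hu hu1 htu hv)
    (ClassInt.card_X hp _) (by decide +kernel) (by decide +kernel) (by decide +kernel) (by decide +kernel)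

end Row

end Cfsg.Agent.H330.ClassF4
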