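import Cfsg.Agent.H330.ClassTorus
import Cfsg.Agent.H27.AH.Defs

/-!
# Products of two `p`-regular classes: simply laced diagrams (helper330)

* `Walk M a K l` : `a :: l` is the component of `a` in `K ∪ {a}`, a path with end `a`;
* `Step`, `Reach` : moving minimal stable residues along paths;
* `notA_sys` : a group with a strongly transitive action on a building with a simply laced connected diagram in which any two
  nonempty sets of nodes reach two sets which are not disjoint.
-/

set_option autoImplicit false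
set_option linter.unusedSectionVars false

open scoped Pointwise

namespace Cfsg.Agent.H330.ClassLaced

open Cfsg Subgroup Cfsg.Agent.Tits.Core Cfsg.Agent.Tits.Core.Bldg Cfsg.Agent.Tits.Exchange Cfsg.Agent.FixBN
  Cfsg.Agent.Tits Cfsg.Agent.H330.ClassProd Cfsg.Agent.H330.ClassRes Cfsg.Agent.H330.GowSt
  Cfsg.Agent.H330.ClassTorus Cfsg.Agent.H330.ClassPath

section Comb

variable {I : Type*} [DecidableEq I] (M : CoxeterMatrix I)

/-- `a :: l` is the component of `a` in `K ∪ {a}`, a path with end `a` -/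
inductive Walk : I → Finset I → List I → Prop
  | nil {a : I} {K : Finset I} (h : ∀ j ∈ K, M j a = 2) : Walk a K []
  | cons {a b : I} {K : Finset I} {l : List I} (hb : b ∈ K) (hab : M a b = 3) (h : ∀ j ∈ K, j ≠ b → M j a = 2)
      (hw : Walk b (K.erase b) l) : Walk a K (b :: l)

variable {M}

/-- the path of a walk -/
def pv (a : I) (l : List I) (t : ℕ) : I := (a :: l).getD t a

@[simp] theorem pv_zero (a : I) (l : List I) : pv a l 0 = a := rfl

theorem pv_succ (a b : I) (l : List I) {t : ℕ} (ht : t < l.length + 1) : pv a (b :: l) (t + 1) = pv b l t := by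
  unfold pv
  rw [List.getD_cons_succ]
  rw [List.getD_eq_getElem _ _ (by simpa using ht), List.getD_eq_getElem _ _ (by simpa using ht)]

theorem Walk.mem {a : I} {K : Finset I} {l : List I} (h : Walk M a K l) : ∀ t < l.length, pv a l (t + 1) ∈ K := by
  induction h with
  | nil h => intro t ht; simp at ht
  | @cons a b K l hb hab h hw ih =>
    intro t ht
    rw [List.length_cons] at ht
    rw [pv_succ a b l ht]
    rcases Nat.eq_zero_or_pos t with rfl | h1
    · rw [pv_zero]; exact hb
    · obtain ⟨s, rfl⟩ : ∃ s, t = s + 1 := ⟨t - 1, by omega⟩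
      exact Finset.mem_of_mem_erase (ih s (by omega))

theorem Walk.isPath {a : I} {K : Finset I} {l : List I} (h : Walk M a K l) : IsPath M (pv a l) (l.length + 1) := by
  induction h with
  | nil h => exact ⟨fun t ht => by simp at ht, fun s t hs ht => by simp at ht; omega⟩
  | @cons a b K l hb hab h hw ih =>
    refine ⟨fun t ht => ?_, fun s t hs ht => ?_⟩
    · rw [List.length_cons] at ht
      rw [pv_succ a b l (by omega)]
      rcases Nat.eq_zero_or_pos t with rfl | h1
      · rw [pv_zero, pv_zero]; exact hab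
      · obtain ⟨s, rfl⟩ : ∃ s, t = s + 1 := ⟨t - 1, by omega⟩
        rw [pv_succ a b l (by omega)]
        exact ih.three s (by omega)
    · rw [List.length_cons] at ht
      obtain ⟨t', rfl⟩ : ∃ t', t = t' + 1 := ⟨t - 1, by omega⟩
      rw [pv_succ a b l (by omega)]
      rcases Nat.eq_zero_or_pos s with rfl | h1
      · rw [pv_zero, M.symmetric]
        obtain ⟨t'', rfl⟩ : ∃ t'', t' = t'' + 1 := ⟨t' - 1, by omega⟩
        have h2 := hw.mem t'' (by omega)
        rw [Finset.mem_erase] at h2
        exact h _ h2.2 h2.1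
      · obtain ⟨s', rfl⟩ : ∃ s', s = s' + 1 := ⟨s - 1, by omega⟩
        rw [pv_succ a b l (by omega)]
        exact ih.two s' t' (by omega) (by omega)

theorem Walk.comm {a : I} {K : Finset I} {l : List I} (h : Walk M a K l) :
    ∀ j ∈ K, (∀ t < l.length, j ≠ pv a l (t + 1)) → ∀ t < l.length + 1, M j (pv a l t) = 2 := by
  induction h with
  | nil h =>
    intro j hj _ t ht
    simp only [List.length_nil, zero_add, Nat.lt_one_iff] at ht
    subst ht
    rw [pv_zero]; exact h j hj
  | @cons a b K l hb hab h hw ih =>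
    intro j hj hne t ht
    rw [List.length_cons] at ht hne
    have hjb : j ≠ b := by
      have := hne 0 (by omega)
      rwa [pv_succ a b l (by omega), pv_zero] at this
    rcases Nat.eq_zero_or_pos t with rfl | h1
    · rw [pv_zero]; exact h j hj hjb
    · obtain ⟨s, rfl⟩ : ∃ s, t = s + 1 := ⟨t - 1, by omega⟩
      rw [pv_succ a b l (by omega)]
      refine ih j (Finset.mem_erase.2 ⟨hjb, hj⟩) (fun r hr => ?_) s (by omega)
      have := hne (r + 1) (by omega)
      rwa [pv_succ a b l (by omega)] at this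

theorem pv_last (a : I) (l : List I) : pv a l l.length = l.getLastD a := by
  induction l generalizing a with
  | nil => rfl
  | cons b l ih =>
    rw [List.length_cons, pv_succ a b l (by omega), ih, List.getLastD_cons]

variable (M)

/-- a move along a path -/
def Step (K K' : Finset I) : Prop :=
  ∃ (a : I) (l : List I), a ∉ K ∧ Walk M a K l ∧ l ≠ [] ∧ K' = insert a (K.erase (l.getLastD a))

/-- moves -/
def Reach : Finset I → Finset I → Prop := Relation.ReflTransGen (Step M)

/-- `i` lies in a set reached from `K` -/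
def Hit (K : Finset I) (i : I) : Prop := ∃ K', Reach M K K' ∧ i ∈ K'

variable {M}

theorem Hit.of_mem {K : Finset I} {i : I} (h : i ∈ K) : Hit M K i := ⟨K, Relation.ReflTransGen.refl, h⟩

theorem Hit.head {K K' : Finset I} {i : I} (h : Step M K K') (h' : Hit M K' i) : Hit M K i := by
  obtain ⟨L, h1, h2⟩ := h'
  exact ⟨L, Relation.ReflTransGen.head h h1, h2⟩

end Comb

section Main

variable {I : Type*} [Fintype I] [DecidableEq I] {M : CoxeterMatrix I} {W : Type*} [Group W] [Finite W]
  {cs : CoxeterSystem M W} {C : Type*} [Fintype C] {Δ : Bldg cs C} {G : Type*} [Group G] [Finite G] [MulAction G C]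
  {p : ℕ} [Fact p.Prime] (S : Sys Δ G p)

theorem Step.par {K K' : Finset I} (h : Step M K K') :
    ∃ w, FixBN.Cox.Par cs (K : Set I) (K' : Set I) w := by
  obtain ⟨a, l, ha, hw, hl, rfl⟩ := h
  have F : OppRes.Cox cs := inferInstance
  refine ⟨ClassPath.e cs (pv a l) (l.length + 1), par_path hw.isPath (List.length_pos_iff.2 hl) ?_ ?_ ?_ ?_⟩
  · rw [pv_zero]; exact_mod_cast ha
  · intro t ht; exact_mod_cast hw.mem t ht
  · intro j hj hne t ht
    exact hw.comm j (by exact_mod_cast hj) hne t ht
  · intro j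
    rw [pv_zero, pv_last]
    simp only [Finset.coe_insert, Finset.coe_erase, Set.mem_insert_iff, Set.mem_sdiff, Finset.mem_coe,
      Set.mem_singleton_iff]

include S in
theorem reach_minRes (hth : Δ.Thick) (ht : ∀ x y : C, ∃ g : G, g • x = y) {g : G} {K K' : Finset I} {c : C}
    (h : MinRes Δ g K c) (hp : ¬ p ∣ orderOf g) (hr : Reach M K K') : ∃ d, MinRes Δ g K' d := by
  induction hr with
  | refl => exact ⟨c, h⟩
  | tail _ h2 ih =>
    obtain ⟨d, hd⟩ := ih
    obtain ⟨w, hw⟩ := Step.par (cs := cs) h2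
    obtain ⟨d', -, h3⟩ := hd.par S hth ht hp hw
    exact ⟨d', h3⟩

include S in
theorem dt_of_hit (hth : Δ.Thick) (ht : ∀ x y : C, ∃ g : G, g • x = y) {g : G} {K : Finset I} {c : C}
    (h : MinRes Δ g K c) (hp : ¬ p ∣ orderOf g) {i : I} (hi : Hit M K i) : DT S g i := by
  obtain ⟨K', hK', hi'⟩ := hi
  obtain ⟨d, hd⟩ := reach_minRes S hth ht h hp hK'
  exact hd.dt S hth ht hp hi'

include S in
/-- **No two `p`-regular classes whose product is a `p`-regular class: simply laced diagrams.** -/
theorem notA_sys (hS : FixBN.HasSplit p G) (hth : Δ.Thick) (ht : ∀ x y : C, ∃ g : G, g • x = y)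
    (hfaith : ∀ x : G, (∀ y : C, x • y = y) → x = 1)
    (hconn : ∀ i j : I, Relation.ReflTransGen (fun a b => M a b = 3) i j) (hF : ∀ i, Free Δ G p i)
    (hcomb : ∀ K L : Finset I, K.Nonempty → L.Nonempty → ∃ i, Hit M K i ∧ Hit M L i) : H27.AH.NotA p G := by
  intro a b c ha hb hc h hpa hpb hpc
  have F : OppRes.Cox cs := inferInstance
  have hne : ∀ x : G, x ≠ 1 → ∃ y : C, x • y ≠ y := by
    intro x hx
    by_contra hcon
    push Not at hcon
    exact hx (hfaith x hcon)
  have hC : Nonempty C := by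
    obtain ⟨y, -⟩ := hne a ha
    exact ⟨y⟩
  obtain ⟨K, x, hK⟩ := exists_minRes Δ a
  obtain ⟨L, y, hL⟩ := exists_minRes Δ b
  -- the elements with `K = ∅`
  have hfix : ∀ (g : G) (c : C), MinRes Δ g ∅ c → g • c = c := by
    intro g c h
    have := h.mem
    rw [Finset.coe_empty, mem_WJ_empty] at this
    exact (Δ.eq_of_δ_eq_one this).symm
  have hemp : ∀ (g : G) (c : C), MinRes Δ g ∅ c → g ≠ 1 → ¬ p ∣ orderOf g → ∀ i, DT S g i := by
    intro g c h hg hp i
    exact dt_of_fix S hth ht hconn hF (hfix g c h) (hne g hg) hp i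
  have hnon : ∀ (g : G) (c : C) (K : Finset I), MinRes Δ g K c → ¬ p ∣ orderOf g → K.Nonempty → ∃ i, DT S g i := by
    intro g c K h hp hK
    obtain ⟨i, hi⟩ := hK
    exact ⟨i, h.dt S hth ht hp hi⟩
  have key : ∃ i, DT S a i ∧ DT S b i := by
    rcases K.eq_empty_or_nonempty with rfl | hK'
    · rcases L.eq_empty_or_nonempty with rfl | hL'
      · obtain ⟨d, i, -, -⟩ := exists_nt (Δ := Δ) (hfix a x hK) (hne a ha)
        exact ⟨i, hemp a x hK ha hpa i, hemp b y hL hb hpb i⟩
      · obtain ⟨i, hi⟩ := hnon b y L hL hpb hL'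
        exact ⟨i, hemp a x hK ha hpa i, hi⟩
    · rcases L.eq_empty_or_nonempty with rfl | hL'
      · obtain ⟨i, hi⟩ := hnon a x K hK hpa hK'
        exact ⟨i, hi, hemp b y hL hb hpb i⟩
      · obtain ⟨i, h1, h2⟩ := hcomb K L hK' hL'
        exact ⟨i, dt_of_hit S hth ht hK hpa h1, dt_of_hit S hth ht hL hpb h2⟩
  obtain ⟨i, h1, h2⟩ := key
  exact clash ht hS h hpa hpb h1 (h2.dp hth)

end Main

end Cfsg.Agent.H330.ClassLaced
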