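import Cfsg.Agent.Nodes.LeviDec

/-!
# The level one part of the unipotent radical of a parabolic subgroup (helper330)

`J : Set I`, `i ∉ J`. For a root group datum with integral commutator relations (`IntC`):
* `NS J i` : the roots in `V_J` of level at least two, or containing another node; `N = Sup X (NS J i)` is normal in `P_J`;
* `Lam J i` : the roots of level one; the commutators of their root groups are in `N`;
* `Pair j z` : `z, z + α_j` of level one, in particular `[X α_j, X z] ≤ X (z + α_j) N`;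
* `Pair.inj`, `Pair.surj` : for `1 ≠ y ∈ X z` the map `x ↦ [x, y]` from `X α_j` to `X (z + α_j) N / N` is injective, and
  surjective if the orders agree.
-/

set_option autoImplicit false
set_option linter.unusedSectionVars false

namespace Cfsg.Agent.H330.ClassModule

open CoxeterSystem Cfsg.Agent.ChevalleyStructure.CoxeterGeom Cfsg.Agent.Tits.Roots Cfsg.Agent.Tits.Core
  Cfsg.Agent.Tits.Exchange Cfsg.Agent.Nodes.Comb Cfsg.Agent.Nodes.Reps Cfsg.Agent.Nodes.BNOf Cfsg.Agent.Nodes.StabComb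
  Cfsg.Agent.Nodes.Bruhat Cfsg.Agent.Nodes.OppDec Cfsg.Agent.Nodes.LeviDec Cfsg.Agent.Tits.RootComb
open scoped commutatorElement

variable {I W Y : Type*} [Fintype I] [DecidableEq I] [Group W] [Group Y] {M : CoxeterMatrix I}
  {cs : CoxeterSystem M W} {A : I → I → ℤ} {h : IsCartan M A} {p : ℕ} {T : Subgroup Y} {n : I → Y}
  {X : (I → ℤ) → Subgroup Y}

/-- integral commutator relations -/
def IntC (cs : CoxeterSystem M W) (h : IsCartan M A) (X : (I → ℤ) → Subgroup Y) : Prop :=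
  ∀ x y, IsRoot cs h x → IsRoot cs h y → x ≠ y → x ≠ -y → ∀ a ∈ X x, ∀ b ∈ X y,
    ⁅a, b⁆ ∈ RGD.Sup X {z | IsRoot cs h z ∧ ∃ c d : ℤ, 0 < c ∧ 0 < d ∧ z = c • x + d • y}

/-- the roots of `V_J` of level at least two in `α_i` or containing another node -/
def NS (cs : CoxeterSystem M W) (h : IsCartan M A) (J : Set I) (i : I) : Set (I → ℤ) :=
  {z | z ∈ NotJ cs h J ∧ (2 ≤ z i ∨ ∃ k, k ∉ J ∧ k ≠ i ∧ 0 < z k)}

/-- the roots of level one -/
def Lam (cs : CoxeterSystem M W) (h : IsCartan M A) (J : Set I) (i : I) : Set (I → ℤ) :=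
  {z | z ∈ NotJ cs h J ∧ z i = 1 ∧ ∀ k, k ∉ J → k ≠ i → z k = 0}

/-- the normal subgroup -/
def NN' (cs : CoxeterSystem M W) (h : IsCartan M A) (X : (I → ℤ) → Subgroup Y) (J : Set I) (i : I) : Subgroup Y :=
  RGD.Sup X (NS cs h J i)

section Int

variable (hI : IntC cs h X)

include hI in
/-- `X x` normalises `Sup X S` when `S` absorbs the integral combinations. -/
theorem int_normalizer {x : I → ℤ} {S : Set (I → ℤ)} (hx : IsRoot cs h x)
    (hS : ∀ y ∈ S, IsRoot cs h y ∧ (x = y ∨ (x ≠ -y ∧ ∀ c d : ℤ, 0 < c → 0 < d → IsRoot cs h (c • x + d • y) →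
      c • x + d • y ∈ S))) : X x ≤ Subgroup.normalizer (RGD.Sup X S : Set Y) := by
  have key : ∀ a ∈ X x, cj a (RGD.Sup X S) ≤ RGD.Sup X S := by
    intro a ha
    rw [RGD.cj_Sup]
    refine iSup_le ?_
    rintro ⟨y, hy⟩
    obtain ⟨hyr, hxy | ⟨hxy', hz⟩⟩ := hS y hy
    · subst hxy
      rw [cj_eq_of_mem ha]
      exact RGD.le_Sup hy
    · by_cases hxy : x = y
      · subst hxy
        rw [cj_eq_of_mem ha]
        exact RGD.le_Sup hy
      intro b hb
      rw [mem_cj] at hb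
      have h1 := hI x y hx hyr hxy hxy' a ha _ hb
      have h2 : b = ⁅a, a⁻¹ * b * a⁆ * (a⁻¹ * b * a) := by
        rw [commutatorElement_def]; group
      rw [h2]
      refine mul_mem ?_ (RGD.le_Sup hy hb)
      refine RGD.Sup_le ?_ h1
      rintro z ⟨hzr, c, d, hc, hd, rfl⟩
      exact RGD.le_Sup (hz c d hc hd hzr)
  intro a ha
  rw [mem_normalizer_iff_cj]
  apply le_antisymm (key a ha)
  have h1 := key a⁻¹ (inv_mem ha)
  have h2 := cj_mono a h1
  rwa [cj_cj_inv] at h2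

/-- `x ∈ RootsJ`, `y ∈ NS` -/
theorem NS_add_J {J : Set I} {i : I} (hi : i ∉ J) {x y : I → ℤ} (hx : x ∈ RootsJ cs h J) (hy : y ∈ NS cs h J i)
    {c d : ℤ} (hc : 0 < c) (hd : 0 < d) (hz : IsRoot cs h (c • x + d • y)) : c • x + d • y ∈ NS cs h J i := by
  obtain ⟨⟨-, hy0, k, hk, hk0⟩, h2⟩ := hy
  have key : ∀ k, k ∉ J → (c • x + d • y) k = d * y k := by
    intro k hk
    rw [Pi.add_apply, Pi.smul_apply, Pi.smul_apply, hx.2 k hk, smul_eq_mul, smul_eq_mul]
    ring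
  have hpos : 0 < (c • x + d • y) k := by
    rw [key k hk]
    exact mul_pos hd hk0
  refine ⟨⟨hz, nonneg_of_pos_apply hz hpos, k, hk, hpos⟩, ?_⟩
  rcases h2 with h2 | ⟨k', hk', hki, hk'0⟩
  · left
    rw [key i hi]
    nlinarith
  · right
    exact ⟨k', hk', hki, by rw [key k' hk']; exact mul_pos hd hk'0⟩

/-- `x ∈ NotJ`, `y ∈ NS` -/
theorem NS_add_V {J : Set I} {i : I} (hi : i ∉ J) {x y : I → ℤ} (hx : x ∈ NotJ cs h J) (hy : y ∈ NS cs h J i)
    {c d : ℤ} (hc : 0 < c) (hd : 0 < d) (hz : IsRoot cs h (c • x + d • y)) : c • x + d • y ∈ NS cs h J i := by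
  obtain ⟨⟨-, hy0, k, hk, hk0⟩, h2⟩ := hy
  obtain ⟨-, hx0, -⟩ := hx
  have key : ∀ k, d * y k ≤ (c • x + d • y) k := by
    intro k
    rw [Pi.add_apply, Pi.smul_apply, Pi.smul_apply, smul_eq_mul, smul_eq_mul]
    have := mul_nonneg hc.le (hx0 k)
    linarith
  have hpos : ∀ k, 0 < y k → 0 < (c • x + d • y) k := fun k hk0 => lt_of_lt_of_le (mul_pos hd hk0) (key k)
  refine ⟨⟨hz, nonneg_of_pos_apply hz (hpos k hk0), k, hk, hpos k hk0⟩, ?_⟩
  rcases h2 with h2 | ⟨k', hk', hki, hk'0⟩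
  · left
    refine le_trans ?_ (key i)
    nlinarith
  · right
    exact ⟨k', hk', hki, hpos k' hk'0⟩

/-- `x, y ∈ Lam` -/
theorem Lam_add {J : Set I} {i : I} (hi : i ∉ J) {x y : I → ℤ} (hx : x ∈ Lam cs h J i) (hy : y ∈ Lam cs h J i)
    {c d : ℤ} (hc : 0 < c) (hd : 0 < d) (hz : IsRoot cs h (c • x + d • y)) : c • x + d • y ∈ NS cs h J i := by
  have e : (c • x + d • y) i = c + d := by
    rw [Pi.add_apply, Pi.smul_apply, Pi.smul_apply, hx.2.1, hy.2.1, smul_eq_mul, smul_eq_mul, mul_one, mul_one]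
  have hpos : 0 < (c • x + d • y) i := by rw [e]; omega
  exact ⟨⟨hz, nonneg_of_pos_apply hz hpos, i, hi, hpos⟩, Or.inl (by rw [e]; omega)⟩

theorem mem_Lam_or_NS {J : Set I} {i : I} {z : I → ℤ} (hz : z ∈ NotJ cs h J) :
    z ∈ Lam cs h J i ∨ z ∈ NS cs h J i := by
  by_cases h1 : ∃ k, k ∉ J ∧ k ≠ i ∧ 0 < z k
  · exact Or.inr ⟨hz, Or.inr h1⟩
  push Not at h1
  have h2 : ∀ k, k ∉ J → k ≠ i → z k = 0 := fun k hk hki => le_antisymm (h1 k hk hki) (hz.2.1 k)
  have h3 : 0 < z i := by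
    obtain ⟨-, -, k, hk, hk0⟩ := hz
    by_cases hki : k = i
    · rwa [hki] at hk0
    · rw [h2 k hk hki] at hk0
      exact absurd hk0 (lt_irrefl _)
  rcases (show z i = 1 ∨ 2 ≤ z i by omega) with h4 | h4
  · exact Or.inl ⟨hz, h4, h2⟩
  · exact Or.inr ⟨hz, Or.inl h4⟩

theorem not_Lam_NS {J : Set I} {i : I} {z : I → ℤ} (h1 : z ∈ Lam cs h J i) (h2 : z ∈ NS cs h J i) : False := by
  rcases h2.2 with h3 | ⟨k, hk, hki, h3⟩
  · rw [h1.2.1] at h3; omega
  · rw [h1.2.2 k hk hki] at h3; omega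

variable (R : RGD cs h p T n X)

include R hI in
/-- `N` is normal in `P_J` -/
theorem PJ_le_normalizer {J : Set I} {i : I} (hi : i ∉ J) :
    PJ cs h T X J ≤ Subgroup.normalizer (NN' cs h X J i : Set Y) := by
  refine sup_le (sup_le (R.T_le_normalizer fun _ hx => hx.1.1) (RGD.Sup_le fun x hx => ?_))
    (RGD.Sup_le fun x hx => ?_)
  · refine int_normalizer hI hx.1 fun y hy => ⟨hy.1.1, Or.inr ⟨ne_neg_of_NotJ hx hy.1, fun c d hc hd hz => ?_⟩⟩
    exact NS_add_J hi hx hy hc hd hz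
  · refine int_normalizer hI hx.1 fun y hy => ⟨hy.1.1, ?_⟩
    by_cases hxy : x = y
    · exact Or.inl hxy
    refine Or.inr ⟨?_, fun c d hc hd hz => NS_add_V hi hx hy hc hd hz⟩
    intro he
    have h1 := hx.2.1
    rw [he] at h1
    exact hy.1.1.neg.not_pos_neg h1 (neg_nonpos.2 hy.1.2.1)

theorem NN'_le_VJ {J : Set I} {i : I} : NN' cs h X J i ≤ VJ cs h X J := RGD.Sup_mono fun _ hz => hz.1

theorem NS_PosNe {J : Set I} {i : I} {z : I → ℤ} (hz : z ∈ NS cs h J i) : z ∈ RGD.PosNe cs h i := by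
  refine ⟨hz.1.1, hz.1.2.1, ?_⟩
  rintro rfl
  rcases hz.2 with h1 | ⟨k, -, hki, h1⟩
  · rw [sr_self] at h1; omega
  · rw [sr_ne hki] at h1; omega

theorem NN'_le_PosNe {J : Set I} {i : I} : NN' cs h X J i ≤ RGD.Sup X (RGD.PosNe cs h i) :=
  RGD.Sup_mono fun _ hz => NS_PosNe hz

include R in
/-- `X α_i` meets the rest trivially. -/
theorem eq_one_of_PosNe [Finite W] {i : I} {u : Y} (hu : u ∈ X (sr i)) (h1 : u ∈ RGD.Sup X (RGD.PosNe cs h i)) :
    u = 1 := by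
  refine eq_one_of_conj_mem_B R hu (rp_simple cs R.nsys i) ?_
  have h2 : n i * u * (n i)⁻¹ ∈ RGD.Sup X (RGD.PosNe cs h i) := by
    rw [← R.cj_n_V i]
    exact conj_mem_cj.2 h1
  exact RGD.U_le_B (RGD.Sup_mono (S := RGD.PosNe cs h i) (S' := RGD.Pos cs h) (fun z hz => ⟨hz.1, hz.2.1⟩) h2)

/-! ### Working modulo `N` -/

section Mod

variable {J : Set I} {i : I}

/-- congruence modulo `N` -/
def Cg (cs : CoxeterSystem M W) (h : IsCartan M A) (X : (I → ℤ) → Subgroup Y) (J : Set I) (i : I) (a b : Y) : Prop :=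
  a⁻¹ * b ∈ NN' cs h X J i

theorem Cg.refl (a : Y) : Cg cs h X J i a a := by
  unfold Cg
  rw [inv_mul_cancel]
  exact one_mem _

theorem Cg.symm {a b : Y} (h1 : Cg cs h X J i a b) : Cg cs h X J i b a := by
  unfold Cg at *
  have := inv_mem h1
  rwa [mul_inv_rev, inv_inv] at this

theorem Cg.trans {a b c : Y} (h1 : Cg cs h X J i a b) (h2 : Cg cs h X J i b c) : Cg cs h X J i a c := by
  unfold Cg at *
  have := mul_mem h1 h2
  have e : a⁻¹ * b * (b⁻¹ * c) = a⁻¹ * c := by group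
  rwa [e] at this

variable (hi : i ∉ J)

include R hI hi

theorem conj_N {g : Y} (hg : g ∈ PJ cs h T X J) {a : Y} (ha : a ∈ NN' cs h X J i) : g * a * g⁻¹ ∈ NN' cs h X J i :=
  (Subgroup.mem_normalizer_iff.1 (PJ_le_normalizer hI R hi hg) a).1 ha

theorem conj_N' {g : Y} (hg : g ∈ PJ cs h T X J) {a : Y} (ha : a ∈ NN' cs h X J i) : g⁻¹ * a * g ∈ NN' cs h X J i := by
  have := conj_N hI R hi (inv_mem hg) ha
  rwa [inv_inv] at this

theorem Cg.mul {a a' b b' : Y} (hb : b ∈ PJ cs h T X J) (h1 : Cg cs h X J i a a') (h2 : Cg cs h X J i b b') :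
    Cg cs h X J i (a * b) (a' * b') := by
  unfold Cg at *
  have e : (a * b)⁻¹ * (a' * b') = (b⁻¹ * (a⁻¹ * a') * b) * (b⁻¹ * b') := by group
  rw [e]
  exact mul_mem (conj_N' hI R hi hb h1) h2

theorem Cg.conj {g : Y} (hg : g ∈ PJ cs h T X J) {a b : Y} (h1 : Cg cs h X J i a b) :
    Cg cs h X J i (g * a * g⁻¹) (g * b * g⁻¹) := by
  unfold Cg at *
  have e : (g * a * g⁻¹)⁻¹ * (g * b * g⁻¹) = g * (a⁻¹ * b) * g⁻¹ := by group
  rw [e]
  exact conj_N hI R hi hg h1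

/-- `V_J / N` is abelian. -/
theorem Lam_comm {z z' : I → ℤ} (hz : z ∈ Lam cs h J i) (hz' : z' ∈ Lam cs h J i) (hne : z ≠ z') {a b : Y}
    (ha : a ∈ X z) (hb : b ∈ X z') : Cg cs h X J i (a * b) (b * a) := by
  have h1 := hI z z' hz.1.1 hz'.1.1 hne (by
    intro he
    have h1 := hz.1.2.1
    rw [he] at h1
    exact hz'.1.1.neg.not_pos_neg h1 (neg_nonpos.2 hz'.1.2.1)) a⁻¹ (inv_mem ha) b⁻¹ (inv_mem hb)
  have h2 : ⁅a⁻¹, b⁻¹⁆ ∈ NN' cs h X J i := by
    refine RGD.Sup_le ?_ h1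
    rintro y ⟨hy, c, d, hc, hd, rfl⟩
    exact RGD.le_Sup (Lam_add hi hz hz' hc hd hy)
  unfold Cg
  have e2 : (a * b)⁻¹ * (b * a) = ⁅b⁻¹, a⁻¹⁆ := by
    rw [commutatorElement_def]; group
  rw [e2, ← commutatorElement_inv]
  exact inv_mem h2

omit R hI hi in
theorem X_le_PJ {z : I → ℤ} (hz : z ∈ NotJ cs h J) : X z ≤ PJ cs h T X J :=
  (RGD.le_Sup (X := X) hz).trans VJ_le_PJ

end Mod

/-! ### Pairs -/

/-- `z, z + α_j` of level one -/
structure Pair (cs : CoxeterSystem M W) (h : IsCartan M A) (X : (I → ℤ) → Subgroup Y) (J : Set I) (i j : I)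
    (z : I → ℤ) : Prop where
  jJ : j ∈ J
  mem : z ∈ Lam cs h J i
  zj : z j = 0
  act : rep cs h (cs.simple j) z = z + sr j
  disj : ∀ y ∈ X z, y ∈ X (z + sr j) ⊔ NN' cs h X J i → y = 1

section Act

variable {J : Set I} {i : I}

theorem Lam.act (hi : i ∉ J) {w : W} (hw : w ∈ WJ cs J) {z : I → ℤ} (hz : z ∈ Lam cs h J i) :
    rep cs h w z ∈ Lam cs h J i := by
  refine ⟨NotJ.act hw hz.1, ?_, fun k hk hki => ?_⟩
  · rw [rep_apply_of_mem cs h hw z hi]; exact hz.2.1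
  · rw [rep_apply_of_mem cs h hw z hk]; exact hz.2.2 k hk hki

include R hI in
/-- distinct root groups of level one are independent modulo `N`. -/
theorem disj_of [Finite W] (hi : i ∉ J) {w : W} (hw : w ∈ WJ cs J) {z' : I → ℤ} (hz' : z' ∈ Lam cs h J i)
    (hne : z' ≠ rep cs h w (sr i)) {y : Y} (hy : y ∈ X (rep cs h w (sr i))) (hy' : y ∈ X z' ⊔ NN' cs h X J i) :
    y = 1 := by
  obtain ⟨g, hg⟩ := exists_rp cs R.nsys w
  have hgL : g ∈ LJ cs h T X J := rp_mem_LJ R hw hg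
  have h1 : g⁻¹ * y * g ∈ X (sr i) := by
    have := R.conj_mem' hg ((isRoot_sr cs h i).act w) hy
    rwa [rep_inv_apply] at this
  have h2 : g⁻¹ * y * g ∈ RGD.Sup X (RGD.PosNe cs h i) := by
    have h3 : cj g⁻¹ (X z' ⊔ NN' cs h X J i) ≤ RGD.Sup X (RGD.PosNe cs h i) := by
      rw [cj_sup]
      refine sup_le ?_ ?_
      · rw [R.conj_rp hg.inv hz'.1.1]
        have h4 := Lam.act hi (inv_mem hw) hz'
        refine RGD.le_Sup ⟨h4.1.1, h4.1.2.1, ?_⟩
        intro he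
        apply hne
        rw [← he, rep_apply_inv]
      · have h5 := PJ_le_normalizer hI R hi (LJ_le_PJ (inv_mem hgL))
        rw [mem_normalizer_iff_cj] at h5
        rw [h5]
        exact NN'_le_PosNe
    have h6 := h3 (conj_mem_cj.2 hy')
    rwa [inv_inv] at h6
  have h7 := eq_one_of_PosNe R h1 h2
  have h8 : y = g * (g⁻¹ * y * g) * g⁻¹ := by group
  rw [h8, h7]; group

end Act

section PairSec

variable {J : Set I} {i j : I} {z : I → ℤ} (hi : i ∉ J) (P : Pair cs h X J i j z)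

include hi P

theorem Pair.mem' : z + sr j ∈ Lam cs h J i := by
  rw [← P.act]
  exact Lam.act hi (simple_mem_WJ cs P.jJ) P.mem

theorem Pair.ne : i ≠ j := fun h => hi (h ▸ P.jJ)

theorem Pair.root_cases {c d : ℤ} (hc : 0 < c) (hd : 0 < d) (hz : IsRoot cs h (c • sr j + d • z)) :
    c • sr j + d • z = z + sr j ∨ c • sr j + d • z ∈ NS cs h J i := by
  have hij := P.ne hi
  have e : (c • sr j + d • z) i = d := by
    rw [Pi.add_apply, Pi.smul_apply, Pi.smul_apply, sr_ne hij, P.mem.2.1, smul_zero, zero_add, smul_eq_mul, mul_one]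
  have hpos : 0 < (c • sr j + d • z) i := by rw [e]; exact hd
  rcases (show d = 1 ∨ 2 ≤ d by omega) with rfl | h2
  · left
    have h1 : IsRoot cs h (rep cs h (cs.simple j) (c • sr j + (1 : ℤ) • z)) := hz.act _
    rw [map_add, map_smul, map_smul, rep_simple_sr, P.act, one_smul] at h1
    have h3 : 0 ≤ c • -sr j + (z + sr j) := nonneg_of_pos_apply h1 (k := i) (by
      rw [Pi.add_apply, Pi.smul_apply, Pi.neg_apply, Pi.add_apply, sr_ne hij, P.mem.2.1]
      simp)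
    have h4 : (0 : ℤ) ≤ (c • -sr j + (z + sr j)) j := h3 j
    rw [Pi.add_apply, Pi.smul_apply, Pi.neg_apply, Pi.add_apply, sr_self, P.zj, smul_eq_mul, mul_neg_one] at h4
    have h5 : c = 1 := by omega
    rw [h5, one_smul, one_smul, add_comm]
  · right
    exact ⟨⟨hz, nonneg_of_pos_apply hz hpos, i, hi, hpos⟩, Or.inl (by rw [e]; exact h2)⟩

include R hI in
theorem Pair.comm_neg {x y : Y} (hx : x ∈ X (-sr j)) (hy : y ∈ X z) : x * y = y * x := by
  have hij := P.ne hi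
  have h1 := hI (-sr j) z (isRoot_sr cs h j).neg P.mem.1.1 (by
    intro he
    have := congrFun he i
    rw [Pi.neg_apply, sr_ne hij, P.mem.2.1] at this
    omega) (by
    intro he
    have := congrFun he i
    rw [Pi.neg_apply, Pi.neg_apply, sr_ne hij, P.mem.2.1] at this
    omega) x hx y hy
  have h2 : RGD.Sup X {w | IsRoot cs h w ∧ ∃ c d : ℤ, 0 < c ∧ 0 < d ∧ w = c • -sr j + d • z} ≤ ⊥ := by
    refine RGD.Sup_le ?_
    rintro w ⟨hw, c, d, hc, hd, rfl⟩
    exfalso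
    have h3 : 0 ≤ c • -sr j + d • z := nonneg_of_pos_apply hw (k := i) (by
      rw [Pi.add_apply, Pi.smul_apply, Pi.smul_apply, Pi.neg_apply, sr_ne hij, P.mem.2.1]
      simpa using hd)
    have h4 : (0 : ℤ) ≤ (c • -sr j + d • z) j := h3 j
    rw [Pi.add_apply, Pi.smul_apply, Pi.smul_apply, Pi.neg_apply, sr_self, P.zj, smul_eq_mul,
      smul_eq_mul, mul_neg_one, mul_zero] at h4
    omega
  have h3 := h2 h1
  rw [Subgroup.mem_bot, commutatorElement_eq_one_iff_mul_comm] at h3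
  exact h3

include R hI in
/-- **Injectivity.** -/
theorem Pair.inj {x y : Y} (hx : x ∈ X (sr j)) (hy : y ∈ X z) (hy1 : y ≠ 1)
    (hxy : Cg cs h X J i (x * y * x⁻¹) y) : x = 1 := by
  by_contra hx1
  have hu : (n j)⁻¹ * x * n j ∈ X (-sr j) := by
    have := R.conj_mem' (rp_simple cs R.nsys j) (isRoot_sr cs h j) hx
    rwa [inv_simple, rep_simple_sr] at this
  have hu1 : (n j)⁻¹ * x * n j ≠ 1 := by
    intro h1
    apply hx1
    have : x = n j * ((n j)⁻¹ * x * n j) * (n j)⁻¹ := by group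
    rw [this, h1]; group
  obtain ⟨a, ha, t, ht, b, hb, e⟩ := R.rk1 j _ hu hu1
  have hneg : ∀ c ∈ X (sr j), n j * c * (n j)⁻¹ ∈ X (-sr j) := by
    intro c hc
    have := R.conj_mem (rp_simple cs R.nsys j) (isRoot_sr cs h j) hc
    rwa [rep_simple_sr] at this
  have ha' := hneg a ha
  have hb' := hneg b hb
  have ht' : n j * t * (n j)⁻¹ ∈ T := (Subgroup.mem_normalizer_iff.1 (R.nsys.norm j) t).1 ht
  set a' := n j * a * (n j)⁻¹ with hadef
  set b' := n j * b * (n j)⁻¹ with hbdef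
  set t' := n j * t * (n j)⁻¹ with htdef
  have ex : x = a' * t' * n j * b' := by
    have h1 : x = n j * ((n j)⁻¹ * x * n j) * (n j)⁻¹ := by group
    rw [h1, e, hadef, hbdef, htdef]; group
  have hcb := P.comm_neg hI R hi hb' hy
  have hca := P.comm_neg hI R hi ha' hy
  -- `y' = t' n y n⁻¹ t'⁻¹`
  have hy' : t' * (n j * y * (n j)⁻¹) * t'⁻¹ ∈ X (z + sr j) := by
    have h1 := R.conj_mem (rp_simple cs R.nsys j) P.mem.1.1 hy
    rw [P.act] at h1
    have h2 : t' * (n j * y * (n j)⁻¹) * t'⁻¹ ∈ cj t' (X (z + sr j)) := conj_mem_cj.2 h1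
    rwa [R.tor _ (P.mem' hi).1.1 t' ht'] at h2
  set y' := t' * (n j * y * (n j)⁻¹) * t'⁻¹ with hy'def
  have e1 : x * y * x⁻¹ = a' * y' * a'⁻¹ := by
    have h1 : b' * y * b'⁻¹ = y := by rw [hcb, mul_inv_cancel_right]
    calc x * y * x⁻¹ = a' * t' * n j * (b' * y * b'⁻¹) * (n j)⁻¹ * t'⁻¹ * a'⁻¹ := by rw [ex]; group
      _ = _ := by rw [h1, hy'def]; group
  rw [e1] at hxy
  have haP : a' ∈ PJ cs h T X J := LJ_le_PJ (X_le_LJ (RootsJ.neg (PosJ_subset J (sr_mem_PosJ P.jJ))) ha')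
  have h2 := Cg.conj hI R hi (inv_mem haP) hxy
  have e2 : a'⁻¹ * (a' * y' * a'⁻¹) * a'⁻¹⁻¹ = y' := by group
  have e3 : a'⁻¹ * y * a'⁻¹⁻¹ = y := by
    rw [inv_inv, mul_assoc, ← hca, inv_mul_cancel_left]
  rw [e2, e3] at h2
  apply hy1
  refine P.disj y hy ?_
  have e4 : y = y' * (y'⁻¹ * y) := by group
  rw [e4]
  exact mul_mem (Subgroup.mem_sup_left hy') (Subgroup.mem_sup_right h2)

include R hI in
/-- **The commutator map.** -/
theorem Pair.exists_comm {x y : Y} (hx : x ∈ X (sr j)) (hy : y ∈ X z) :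
    ∃ c ∈ X (z + sr j), Cg cs h X J i (x * y * x⁻¹) (y * c) := by
  have hij := P.ne hi
  have h1 := hI (sr j) z (isRoot_sr cs h j) P.mem.1.1 (by
    intro he
    have := congrFun he i
    rw [sr_ne hij, P.mem.2.1] at this
    omega) (by
    intro he
    have := congrFun he i
    rw [Pi.neg_apply, sr_ne hij, P.mem.2.1] at this
    omega) x hx y hy
  have hXP := X_le_PJ (T := T) (X := X) (P.mem' hi).1
  have h2 : ⁅x, y⁆ ∈ ((X (z + sr j) ⊔ NN' cs h X J i : Subgroup Y) : Set Y) := by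
    refine RGD.Sup_le ?_ h1
    rintro w ⟨hw, c, d, hc, hd, rfl⟩
    rcases P.root_cases hi hc hd hw with h3 | h3
    · rw [h3]; exact le_sup_left
    · exact (RGD.le_Sup h3).trans le_sup_right
  rw [Subgroup.coe_mul_of_left_le_normalizer_right _ _ (hXP.trans (PJ_le_normalizer hI R hi)), Set.mem_mul] at h2
  obtain ⟨c, hc, ν, hν, e⟩ := h2
  refine ⟨c, hc, ?_⟩
  have hyP := X_le_PJ (T := T) (X := X) P.mem.1 hy
  have e1 : x * y * x⁻¹ = c * ν * y := by
    rw [e, commutatorElement_def]; group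
  rw [e1]
  have h3 : Cg cs h X J i (c * ν * y) (c * y) := by
    refine Cg.mul hI R hi hyP ?_ (Cg.refl y)
    unfold Cg
    have e2 : (c * ν)⁻¹ * c = ν⁻¹ := by group
    rw [e2]
    exact inv_mem hν
  refine h3.trans (Lam_comm hI R hi (P.mem' hi) P.mem ?_ hc hy)
  intro he
  have := congrFun he j
  rw [Pi.add_apply, sr_self] at this
  omega

include R hI in
/-- **Surjectivity.** -/
theorem Pair.surj [Finite Y] (hcard : Nat.card (X (sr j)) = Nat.card (X (z + sr j))) {y : Y} (hy : y ∈ X z)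
    (hy1 : y ≠ 1) {c : Y} (hc : c ∈ X (z + sr j)) : ∃ x ∈ X (sr j), Cg cs h X J i (x * y * x⁻¹) (y * c) := by
  have h1 : ∀ x : X (sr j), ∃ c : X (z + sr j), Cg cs h X J i ((x : Y) * y * (x : Y)⁻¹) (y * (c : Y)) := by
    rintro ⟨x, hx⟩
    obtain ⟨c, hc, h1⟩ := P.exists_comm hI R hi hx hy
    exact ⟨⟨c, hc⟩, h1⟩
  choose f hf using h1
  have hinj : Function.Injective f := by
    intro x x' hxx
    have h2 := hf x
    rw [hxx] at h2
    have h3 := h2.trans (hf x').symm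
    have hxP : ((x' : Y)) ∈ PJ cs h T X J := LJ_le_PJ (X_le_LJ (PosJ_subset J (sr_mem_PosJ P.jJ)) x'.2)
    have h4 := Cg.conj hI R hi (inv_mem hxP) h3
    have e1 : (x' : Y)⁻¹ * ((x' : Y) * y * (x' : Y)⁻¹) * (x' : Y)⁻¹⁻¹ = y := by group
    have e2 : (x' : Y)⁻¹ * ((x : Y) * y * (x : Y)⁻¹) * (x' : Y)⁻¹⁻¹ =
        ((x' : Y)⁻¹ * x) * y * ((x' : Y)⁻¹ * x)⁻¹ := by group
    rw [e1, e2] at h4
    have h5 := P.inj hI R hi (mul_mem (inv_mem x'.2) x.2) hy hy1 h4
    exact (Subtype.ext (inv_mul_eq_one.1 h5)).symm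
  have hbij := (Nat.bijective_iff_injective_and_card f).2 ⟨hinj, hcard⟩
  obtain ⟨x, hx⟩ := hbij.2 ⟨c, hc⟩
  have := hf x
  rw [hx] at this
  exact ⟨x, x.2, this⟩

end PairSec

end Int

end Cfsg.Agent.H330.ClassModule
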