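import Cfsg.Agent.H330.ClassLaced
import Cfsg.Agent.Nodes.TypeD

/-!
# The combinatorial hypothesis of `notA_sys` for `D_n` (helper330)
-/

set_option autoImplicit false

namespace Cfsg.Agent.H330.ClassTypeD

open Cfsg.Agent.H330.ClassLaced Cfsg.Agent.Nodes.TypeD

variable {n : ℕ}

theorem three {i j : Fin (n + 2)} (h : Adj i j ∨ Adj j i) : M n i j = 3 := by
  have hne : i ≠ j := by
    rintro rfl
    unfold Adj at h
    omega
  rw [M_apply, if_neg hne, if_pos h]

theorem two {i j : Fin (n + 2)} (hne : i ≠ j) (h : ¬ (Adj i j ∨ Adj j i)) : M n i j = 2 := by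
  rw [M_apply, if_neg hne, if_neg h]

/-- walks to the right -/
theorem walk_right (_hn : 1 ≤ n) : ∀ (k : ℕ) (c : Fin (n + 2)), (c : ℕ) + k + 1 = n → ∀ R : Finset (Fin (n + 2)),
    (∀ j ∈ R, (c : ℕ) < j) → (∃ j : Fin (n + 2), (c : ℕ) < j ∧ j ∉ R) → ∃ l, Walk (M n) c R l := by
  intro k
  induction k with
  | zero =>
    intro c hc R hR ⟨j0, hj0, hj0R⟩
    by_cases h : ∃ b, b ∈ R
    · obtain ⟨b, hb⟩ := h
      have hall : ∀ j ∈ R, j = b := by
        intro j hj
        by_contra hne
        have h1 := hR j hj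
        have h2 := hR b hb
        have h3 : (j0 : ℕ) ≠ j := fun h => hj0R (by rw [Fin.ext h]; exact hj)
        have h4 : (j0 : ℕ) ≠ b := fun h => hj0R (by rw [Fin.ext h]; exact hb)
        have h5 : (j : ℕ) ≠ b := fun h => hne (Fin.ext h)
        have := j0.2
        have := j.2
        have := b.2
        omega
      refine ⟨[b], Walk.cons hb (three ?_) (fun j hj hne => absurd (hall j hj) hne) (Walk.nil fun j hj => ?_)⟩
      · have h2 := hR b hb
        have := b.2
        unfold Adj
        omega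
      · rw [Finset.mem_erase] at hj
        exact absurd (hall j hj.2) hj.1
    · exact ⟨[], Walk.nil fun j hj => absurd ⟨j, hj⟩ h⟩
  | succ k ih =>
    intro c hc R hR ⟨j0, hj0, hj0R⟩
    set b : Fin (n + 2) := ⟨c + 1, by omega⟩ with hbdef
    have hbv : (b : ℕ) = c + 1 := rfl
    by_cases hb : b ∈ R
    · obtain ⟨l, hl⟩ := ih b (by omega) (R.erase b) (fun j hj => by
        rw [Finset.mem_erase] at hj
        have h1 := hR j hj.2
        have h2 : (j : ℕ) ≠ b := fun h => hj.1 (Fin.ext h)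
        omega) ⟨j0, by
          have h2 : (j0 : ℕ) ≠ b := fun h => hj0R (by rw [Fin.ext h]; exact hb)
          omega, fun h => hj0R (Finset.mem_of_mem_erase h)⟩
      refine ⟨b :: l, Walk.cons hb (three ?_) (fun j hj hne => two ?_ ?_) hl⟩
      · unfold Adj; omega
      · rintro rfl
        exact absurd (hR _ hj) (lt_irrefl _)
      · have h1 := hR j hj
        have h2 : (j : ℕ) ≠ b := fun h => hne (Fin.ext h)
        unfold Adj
        omega
    · refine ⟨[], Walk.nil fun j hj => two ?_ ?_⟩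
      · rintro rfl
        exact absurd (hR _ hj) (lt_irrefl _)
      · have h1 := hR j hj
        have h2 : (j : ℕ) ≠ b := fun h => hb (by rw [← Fin.ext h]; exact hj)
        unfold Adj
        omega

/-- walks to the left -/
theorem walk_left : ∀ (k : ℕ) (c : Fin (n + 2)), (c : ℕ) = k → k ≤ n → ∀ R : Finset (Fin (n + 2)),
    (∀ j ∈ R, (j : ℕ) < c) → ∃ l, Walk (M n) c R l := by
  intro k
  induction k with
  | zero =>
    intro c hc _ R hR
    exact ⟨[], Walk.nil fun j hj => absurd (hR j hj) (by omega)⟩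
  | succ k ih =>
    intro c hc hkn R hR
    set b : Fin (n + 2) := ⟨k, by omega⟩ with hbdef
    have hbv : (b : ℕ) = k := rfl
    by_cases hb : b ∈ R
    · obtain ⟨l, hl⟩ := ih b rfl (by omega) (R.erase b) (fun j hj => by
        rw [Finset.mem_erase] at hj
        have h1 := hR j hj.2
        have h2 : (j : ℕ) ≠ b := fun h => hj.1 (Fin.ext h)
        omega)
      refine ⟨b :: l, Walk.cons hb (three ?_) (fun j hj hne => two ?_ ?_) hl⟩
      · unfold Adj; omega
      · rintro rfl
        exact absurd (hR _ hj) (lt_irrefl _)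
      · have h1 := hR j hj
        have h2 : (j : ℕ) ≠ b := fun h => hne (Fin.ext h)
        unfold Adj
        omega
    · refine ⟨[], Walk.nil fun j hj => two ?_ ?_⟩
      · rintro rfl
        exact absurd (hR _ hj) (lt_irrefl _)
      · have h1 := hR j hj
        have h2 : (j : ℕ) ≠ b := fun h => hb (by rw [← Fin.ext h]; exact hj)
        unfold Adj
        omega

/-- `{a, …, n + 1}` -/
def Full (K : Finset (Fin (n + 2))) : Prop := ∃ a : ℕ, a ≤ n ∧ ∀ i : Fin (n + 2), i ∈ K ↔ a ≤ i

theorem ne_nil {c : Fin (n + 2)} {K : Finset (Fin (n + 2))} {l : List (Fin (n + 2))} (h : Walk (M n) c K l)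
    {b : Fin (n + 2)} (hb : b ∈ K) (hbc : Adj b c ∨ Adj c b) : l ≠ [] := by
  rintro rfl
  cases h with
  | nil h =>
    have h1 := h b hb
    rw [three hbc] at h1
    omega

theorem last_mem {c : Fin (n + 2)} {K : Finset (Fin (n + 2))} {l : List (Fin (n + 2))} (h : Walk (M n) c K l)
    (hl : l ≠ []) : l.getLastD c ∈ K := by
  rw [← pv_last]
  obtain ⟨t, ht⟩ : ∃ t, l.length = t + 1 := ⟨l.length - 1, by
    have := List.length_pos_iff.2 hl
    omega⟩
  have := h.mem t (by omega)
  rwa [ht]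

/-- **The sets which are not full reach the node `0`.** -/
theorem hit_zero (hn : 1 ≤ n) : ∀ (m : ℕ) (K : Finset (Fin (n + 2))), ¬ Full K → (∃ a ∈ K, (a : ℕ) ≤ m) →
    Hit (M n) K ⟨0, by omega⟩ := by
  intro m
  induction m with
  | zero =>
    rintro K - ⟨a, ha, ha0⟩
    refine Hit.of_mem ?_
    have : a = ⟨0, by omega⟩ := Fin.ext (by simpa using ha0)
    rwa [← this]
  | succ m ih =>
    rintro K hK ⟨a', ha', ha'm⟩
    -- the minimum
    obtain ⟨a, ha, hmin⟩ := K.exists_min_image (fun i => (i : ℕ)) ⟨a', ha'⟩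
    have ham : (a : ℕ) ≤ m + 1 := (hmin a' ha').trans ha'm
    by_cases ha0 : (a : ℕ) = 0
    · refine Hit.of_mem ?_
      have : a = ⟨0, by omega⟩ := Fin.ext ha0
      rwa [← this]
    have han := a.2
    -- the new node
    obtain ⟨c, hc1, hc2, hc3⟩ : ∃ c : Fin (n + 2), (c : ℕ) + 1 ≤ n ∧ (c : ℕ) < a ∧ (Adj a c ∨ Adj c a) := by
      by_cases h1 : (a : ℕ) = n + 1
      · exact ⟨⟨n - 1, by omega⟩, by simp only; omega, by simp only; omega, by unfold Adj; simp only; omega⟩
      · exact ⟨⟨a - 1, by omega⟩, by simp only; omega, by simp only; omega, by unfold Adj; simp only; omega⟩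
    have hcK : ∀ j ∈ K, (c : ℕ) < j := fun j hj => lt_of_lt_of_le hc2 (hmin j hj)
    have hex : ∃ j : Fin (n + 2), (c : ℕ) < j ∧ j ∉ K := by
      by_contra hcon
      push Not at hcon
      exact hK ⟨c + 1, hc1, fun i => ⟨fun hi => hcK i hi, fun hi => hcon i (by omega)⟩⟩
    obtain ⟨l, hl⟩ := walk_right hn (n - 1 - c) c (by omega) K hcK hex
    have hl0 := ne_nil hl ha hc3
    have hlast := last_mem hl hl0
    have hcn : c ∉ K := fun h => absurd (hcK c h) (lt_irrefl _)
    refine Hit.head (K' := insert c (K.erase (l.getLastD c))) ⟨c, l, hcn, hl, hl0, rfl⟩ (ih _ ?_ ?_)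
    · rintro ⟨a0, ha0n, ha0⟩
      have h1 := (ha0 c).1 (Finset.mem_insert_self _ _)
      have h2 := (ha0 (l.getLastD c)).2 (by have := hcK _ hlast; omega)
      rw [Finset.mem_insert, Finset.mem_erase] at h2
      rcases h2 with h2 | h2
      · rw [h2] at hlast
        exact hcn hlast
      · exact h2.1 rfl
    · exact ⟨c, Finset.mem_insert_self _ _, by omega⟩

/-- **All sets reach a spin node.** -/
theorem hit_spin : ∀ (m : ℕ) (K : Finset (Fin (n + 2))), (∃ b ∈ K, n ≤ (b : ℕ) + m) →
    Hit (M n) K ⟨n, by omega⟩ ∨ Hit (M n) K ⟨n + 1, by omega⟩ := by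
  intro m
  induction m with
  | zero =>
    rintro K ⟨b, hb, hbn⟩
    have := b.2
    rcases Nat.lt_or_ge n b with h | h
    · right
      refine Hit.of_mem ?_
      have : b = ⟨n + 1, by omega⟩ := Fin.ext (by simp only; omega)
      rwa [← this]
    · left
      refine Hit.of_mem ?_
      have : b = ⟨n, by omega⟩ := Fin.ext (by simp only; omega)
      rwa [← this]
  | succ m ih =>
    rintro K ⟨b', hb', hb'n⟩
    obtain ⟨b, hb, hmax⟩ := K.exists_max_image (fun i => (i : ℕ)) ⟨b', hb'⟩
    have hbm : n ≤ (b : ℕ) + (m + 1) := by have := hmax b' hb'; omega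
    by_cases hbn : n ≤ (b : ℕ)
    · exact ih K ⟨b, hb, by omega⟩
    set c : Fin (n + 2) := ⟨b + 1, by omega⟩ with hc
    have hcv : (c : ℕ) = b + 1 := rfl
    have hcK : ∀ j ∈ K, (j : ℕ) < c := fun j hj => by have := hmax j hj; omega
    obtain ⟨l, hl⟩ := walk_left (b + 1) c rfl (by omega) K hcK
    have hl0 := ne_nil hl hb (Or.inl (by unfold Adj; omega))
    have hcn : c ∉ K := fun h => absurd (hcK c h) (lt_irrefl _)
    have hstep : Step (M n) K (insert c (K.erase (l.getLastD c))) := ⟨c, l, hcn, hl, hl0, rfl⟩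
    rcases ih (insert c (K.erase (l.getLastD c))) ⟨c, Finset.mem_insert_self _ _, by omega⟩ with h | h
    · exact Or.inl (Hit.head hstep h)
    · exact Or.inr (Hit.head hstep h)

theorem Full.hit {K : Finset (Fin (n + 2))} (h : Full K) {i : Fin (n + 2)} (hi : n ≤ (i : ℕ)) : Hit (M n) K i := by
  obtain ⟨a, ha, h⟩ := h
  exact Hit.of_mem ((h i).2 (ha.trans hi))

/-- **The combinatorial hypothesis for `D_{n + 2}`.** -/
theorem comb (hn : 1 ≤ n) (K L : Finset (Fin (n + 2))) (hK : K.Nonempty) (hL : L.Nonempty) :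
    ∃ i, Hit (M n) K i ∧ Hit (M n) L i := by
  obtain ⟨a, ha⟩ := hK
  obtain ⟨b, hb⟩ := hL
  by_cases h1 : Full K
  · rcases hit_spin n L ⟨b, hb, by omega⟩ with h | h
    · exact ⟨_, h1.hit (le_refl _), h⟩
    · exact ⟨_, h1.hit (Nat.le_succ _), h⟩
  · by_cases h2 : Full L
    · rcases hit_spin n K ⟨a, ha, by omega⟩ with h | h
      · exact ⟨_, h, h2.hit (le_refl _)⟩
      · exact ⟨_, h, h2.hit (Nat.le_succ _)⟩
    · exact ⟨_, hit_zero hn a K h1 ⟨a, ha, le_rfl⟩, hit_zero hn b L h2 ⟨b, hb, le_rfl⟩⟩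

theorem conn (hn : 1 ≤ n) (i j : Fin (n + 2)) : Relation.ReflTransGen (fun a b => M n a b = 3) i j := by
  have h : ∀ (k : ℕ) (i : Fin (n + 2)), (i : ℕ) ≤ k →
      Relation.ReflTransGen (fun a b => M n a b = 3) i (⟨0, by omega⟩ : Fin (n + 2)) := by
    intro k
    induction k with
    | zero =>
      intro i hi
      have : i = ⟨0, by omega⟩ := Fin.ext (by simpa using hi)
      rw [this]
    | succ k ih =>
      intro i hi
      by_cases hi0 : (i : ℕ) = 0
      · have : i = ⟨0, by omega⟩ := Fin.ext hi0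
        rw [this]
      · have hin := i.2
        obtain ⟨c, hc2, hc3⟩ : ∃ c : Fin (n + 2), (c : ℕ) < i ∧ (Adj i c ∨ Adj c i) := by
          by_cases h1 : (i : ℕ) = n + 1
          · exact ⟨⟨n - 1, by omega⟩, by simp only; omega, by unfold Adj; simp only; omega⟩
          · exact ⟨⟨i - 1, by omega⟩, by simp only; omega, by unfold Adj; simp only; omega⟩
        exact Relation.ReflTransGen.head (three hc3) (ih c (by omega))
  refine (h i i le_rfl).trans ?_
  have h2 := Relation.reflTransGen_swap.2 (h j j le_rfl)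
  have hle : Function.swap (fun a b : Fin (n + 2) => M n a b = 3) ≤ fun a b => M n a b = 3 := by
    intro a b hab
    change M n b a = 3 at hab
    rw [CoxeterMatrix.symmetric]
    exact hab
  exact Relation.ReflTransGen.mono hle _ _ h2

end Cfsg.Agent.H330.ClassTypeD
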