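import Cfsg.Agent.H330.ClassLacedRGD
import Cfsg.Agent.H330.ClassTypeD
import Cfsg.Agent.Nodes.WittInst
import Cfsg.Agent.S0296

/-!
# Products of two `p`-regular classes: `PΩ⁺` (helper330)

`notA_plus`.
-/

set_option autoImplicit false
set_option linter.unusedSectionVars false

namespace Cfsg.Agent.H330.ClassRowPlus

open Cfsg
open Cfsg.Agent.ChevalleyStructure.CoxeterGeom Cfsg.Agent.Tits.Roots
open Cfsg.Agent.Nodes.Comb Cfsg.Agent.Nodes.Reps Cfsg.Agent.Nodes.WittRoot Cfsg.Agent.Nodes.BNOf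
open Cfsg.Agent.Nodes Cfsg.Agent.Nodes.RGDLib Cfsg.Agent.Nodes.WittAll Cfsg.Agent.Nodes.WittU
open Cfsg.Agent.Nodes.WittInst Cfsg.Agent.Nodes.TypeD
open Cfsg.Agent.Nodes.WittRGD (Tor mem_Tor b_ne_zero)
open Cfsg.Agent.TitsThree Cfsg.Agent.TitsThree.Siegel Cfsg.Agent.TitsThree.SiegelGen
  Cfsg.Agent.TitsThree.WittFrame Cfsg.Agent.TitsThree.WBridge Cfsg.Agent.TitsThree.WittWeyl
  Cfsg.Agent.TitsThree.FrameCN
open QuadraticMap
open Cfsg.Agent.LieClassical Cfsg.Agent.LieClassical.OrthCore Cfsg.Agent.LieClassical.OrthTrans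
open Cfsg.Agent.LieClassical.OrthSimple Cfsg.Agent.LieClassical.OrthFinite
open Cfsg.Agent.LieClassical.OrthForms
open Cfsg.Agent.TitsThree.KSideO Cfsg.Agent.TitsThree.StdData

section Frame

variable {F : Type*} [Field F] {V : Type*} [AddCommGroup V] [Module F V] {H : HForm F V} {n : ℕ}
  {Fr : Frame H (Fin (n + 2))}

theorem X_inj {a b : Fin (n + 2) × Bool} (hab : a.1 ≠ b.1) {s t : F} (h : Fr.X a b s = Fr.X a b t) : s = t := by
  have h1 := X_apply_neg Fr hab s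
  rw [h, X_apply_neg Fr hab t] at h1
  have h2 : (t - s) • Fr.b a = 0 := by
    rw [sub_smul, sub_eq_zero]
    exact add_left_cancel h1
  rcases smul_eq_zero.1 h2 with h3 | h3
  · exact (sub_eq_zero.1 h3).symm
  · exact absurd h3 (b_ne_zero a)

/-- the torus acts on the root groups by scalars -/
theorem conj_tor {g : V ≃ₗ[F] V} (hg : H.IsIso g) (hm : Mono Fr g id) {a b : Fin (n + 2) × Bool} (hab : a.1 ≠ b.1) :
    ∃ c : F, ∀ t, g * Fr.X a b t * g⁻¹ = Fr.X a b (c * t) := by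
  obtain ⟨l, -, hl⟩ := hm a
  obtain ⟨m, -, hm⟩ := hm b
  exact ⟨_, fun t => conj_X Fr hg hab hab hl hm t⟩

end Frame

section Plus

variable {ι : Type} {F : Type*} [Field F] [Finite F] [Fintype ι] [DecidableEq ι] {Q : QuadraticForm F (ι → F)}

variable {n : ℕ} (W : WFrame (PO Q) (n + 2))

/-- **Elements of the torus centralising a nontrivial element of a root group centralise the root group.** -/
theorem torus_root (p : ℕ) [Fact p.Prime] [CharP F p] (hG : Good Q) (hA : Amb (toFrame W) (E Q)) (h0 : ∀ p : (toFrame W).Adm, p = 1)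
    {G : Type*} [Group G] (cs : CoxeterSystem (M n) G) (i : Fin (n + 2))
    {t : POmega F Q} (ht : t ∈ ((Tor (toFrame W) (E Q)).subgroupOf (E Q)).map (toPOmega hG)) {u : POmega F Q}
    (hu : u ∈ XD W (toPOmega hG) (sr i)) (hu1 : u ≠ 1) (htu : t * u * t⁻¹ = u) {v : POmega F Q}
    (hv : v ∈ XD W (toPOmega hG) (sr i)) : t * v * t⁻¹ = v := by
  have : Finite ((ι → F) ≃ₗ[F] (ι → F)) :=
    Finite.of_injective (fun g : (ι → F) ≃ₗ[F] (ι → F) => (g : (ι → F) → (ι → F))) DFunLike.coe_injective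
  have : Finite G := finite_W cs
  have R0 := rgd_restrict (rgdD (p := p) hA h0 cs) (E Q) (fun x _ => rgD_le W hA x)
    (fun i => WittRGDD.nn_mem hA i)
  obtain ⟨t', ht', rfl⟩ := ht
  obtain ⟨u', hu', rfl⟩ := hu
  obtain ⟨v', hv', rfl⟩ := hv
  have hu0 := Subgroup.mem_subgroupOf.1 hu'
  have hv0 := Subgroup.mem_subgroupOf.1 hv'
  rw [WittRGDD.rg_sr] at hu0 hv0
  obtain ⟨a, ha⟩ := (mem_XG _).1 hu0
  obtain ⟨b, hb⟩ := (mem_XG _).1 hv0
  have ht0 := (mem_Tor _ _).1 (Subgroup.mem_subgroupOf.1 ht')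
  obtain ⟨c, hc⟩ := conj_tor (hA.iso _ ht0.1) ht0.2 (ok_nx i)
  have h1 : (t' * u' * t'⁻¹)⁻¹ * u' ∈ (toPOmega hG).ker := by
    rw [MonoidHom.mem_ker, map_mul, map_inv, map_mul, map_mul, map_inv, htu, inv_mul_cancel]
  have h2 := Subgroup.mem_center_iff.1 (ker_toPOmega hG h1)
  have e1 : ((t' * u' * t'⁻¹ : E Q) : (ι → F) ≃ₗ[F] (ι → F)) = (toFrame W).X (i, true) (nx i) (c * a) := by
    rw [← hc, ← ha]
    rfl
  have hX1 : t' * u' * t'⁻¹ ∈ (WittRGDD.rg (toFrame W) (sr i)).subgroupOf (E Q) := by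
    rw [Subgroup.mem_subgroupOf, WittRGDD.rg_sr, e1]
    exact ⟨_, rfl⟩
  have hX2 : (t' * u' * t'⁻¹)⁻¹ * u' ∈ (WittRGDD.rg (toFrame W) (sr i)).subgroupOf (E Q) := mul_mem (inv_mem hX1) hu'
  have h3 : (t' * u' * t'⁻¹)⁻¹ * u' = 1 := by
    refine ClassRGD.eq_one_of_conj_mem R0 i hX2 ?_
    have h4 := h2 (⟨WittRGDD.nn (toFrame W) i, WittRGDD.nn_mem hA i⟩ : E Q)
    have h5 : (⟨WittRGDD.nn (toFrame W) i, WittRGDD.nn_mem hA i⟩ : E Q)⁻¹ * ((t' * u' * t'⁻¹)⁻¹ * u') *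
        (⟨WittRGDD.nn (toFrame W) i, WittRGDD.nn_mem hA i⟩ : E Q) = (t' * u' * t'⁻¹)⁻¹ * u' := by
      rw [mul_assoc, ← h4, inv_mul_cancel_left]
    rw [h5]
    exact RGD.X_le_B (isRoot_sr cs (isCartan n) i) (sr_nonneg i) hX2
  rw [inv_mul_eq_one] at h3
  have h4 : (toFrame W).X (i, true) (nx i) (c * a) = (toFrame W).X (i, true) (nx i) a := by
    rw [← e1, h3, ← ha]
  have h5 := X_inj (ok_nx i) h4
  have ha0 : a ≠ 0 := by
    rintro rfl
    apply hu1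
    have : u' = 1 := Subtype.ext (by rw [ha, (toFrame W).X_zero]; rfl)
    rw [this, map_one]
  have hc1 : c = 1 := mul_right_cancel₀ ha0 (by rw [h5, one_mul])
  rw [← map_mul, ← map_inv, ← map_mul]
  congr 1
  apply Subtype.ext
  change (t' : (ι → F) ≃ₗ[F] (ι → F)) * (v' : (ι → F) ≃ₗ[F] (ι → F)) * (t' : (ι → F) ≃ₗ[F] (ι → F))⁻¹ = v'
  rw [hb, hc, hc1, one_mul]

end Plus

/-- **The groups `PΩ⁺`.** -/
theorem notA_plus (F : Type*) [Field F] [Fintype F] (p : ℕ) [CharP F p] {m : ℕ} (hm : 4 ≤ m) :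
    H27.AH.NotA p (Cfsg.POmega F (Cfsg.quadFormPlus m F)) := by
  have : Fact p.Prime := ⟨CharP.char_is_prime F p⟩
  have hs := Cfsg.Agent.S0296.result (F := F) m hm
  obtain ⟨n, rfl⟩ : ∃ n, m = n + 3 := ⟨m - 3, by omega⟩
  have hn : 1 ≤ n := by omega
  rw [← coe_plusForm] at hs ⊢
  have hG : Good (plusForm (n + 3) F) := by
    apply good_of_finite (nondeg_plusForm (n + 3) F)
    rw [Module.finrank_fintype_fun_eq_card, Fintype.card_sum, Fintype.card_fin]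
    omega
  have hW := TypeD.finite_W (TypeD.M (n + 1)).toCoxeterSystem
  have R := rgdD_model (p := p) (wplus (n + 3) F) hG (amb_plus _) (adm_plus _) (TypeD.M (n + 1)).toCoxeterSystem
  have hgen := G1D_eq_top (wplus (n + 3) F) (toPOmega hG) (toPOmega_surjective hG) (adm_plus _)
    (TypeD.M (n + 1)).toCoxeterSystem
  have hfin : Finite (POmega F (plusForm (n + 3) F)) := inferInstance
  exact ClassLacedRGD.notA_of_rgd R (RGDLib.rgd_gen_of_G1 R hgen)
    (fun i t ht u hu hu1 htu v hv => torus_root (wplus (n + 3) F) p hG (amb_plus _) (adm_plus _)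
      (TypeD.M (n + 1)).toCoxeterSystem i ht hu hu1 htu hv)
    (ClassTypeD.conn (by omega)) (ClassTypeD.comb (by omega))

end Cfsg.Agent.H330.ClassRowPlus
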