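import Cfsg.Agent.BpLieP.Big

/-!
# Local characteristic `p` goes up to overgroups of index prime to `p` (helper330)

* `fix_normalizer` : an automorphism of order prime to `p` of a group `N` of local characteristic `p` which fixes
  `O_p(N_N(S))` fixes `N_N(S)`;
* `exists_sylow` : if it fixes the normaliser of a nontrivial `p`-subgroup, it fixes a Sylow `p`-subgroup;
* `locChar_of_normal` : `G` has local characteristic `p` if a normal subgroup of index prime to `p` has and only the
  identity among the elements of order prime to `p` centralises a Sylow `p`-subgroup.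
-/

set_option autoImplicit false
set_option linter.unusedSectionVars false

namespace Cfsg.Agent.H330.GowLoc

open Subgroup Cfsg Cfsg.Agent.Lib
open Cfsg.Agent.BpLieP.Big (LocChar conj_mul_eq conj_injective)

section Aut

variable {N : Type*} [Group N] [Finite N] {p : ℕ} [hp : Fact p.Prime]

/-- `O_p(N_N(S))` as a subgroup of `N` -/
def OO (p : ℕ) (S : Subgroup N) : Subgroup N :=
  (pCore p ↥(normalizer (S : Set N))).map (normalizer (S : Set N)).subtype

theorem OO_isP (S : Subgroup N) : IsPGroup p ↥(OO p S) := (Cores.pCore_isPGroup p).map _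

theorem le_OO {S : Subgroup N} (hS : IsPGroup p S) : S ≤ OO p S := by
  intro s hs
  have h1 : (S.subgroupOf (normalizer (S : Set N))) ≤ pCore p ↥(normalizer (S : Set N)) := by
    refine Cores.le_pCore ?_ ?_
    · constructor
      intro a ha g
      have := (mem_normalizer_iff.1 g.2 a).1 (mem_subgroupOf.1 ha)
      exact mem_subgroupOf.2 this
    · exact IsPGroup.comap_subtype hS
  exact ⟨⟨s, le_normalizer hs⟩, h1 (mem_subgroupOf.2 hs), rfl⟩

theorem conj_OO {S : Subgroup N} {y o : N} (hy : y ∈ normalizer (S : Set N)) (ho : o ∈ OO p S) :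
    y * o * y⁻¹ ∈ OO p S := by
  obtain ⟨o', ho', rfl⟩ := ho
  have hn := Cores.pCore_normal (G := ↥(normalizer (S : Set N))) p
  exact ⟨⟨y, hy⟩ * o' * ⟨y, hy⟩⁻¹, hn.conj_mem _ ho' _, rfl⟩

theorem OO_le (S : Subgroup N) : OO p S ≤ normalizer (S : Set N) := map_subtype_le _

/-- the powers of `φ` at `y` if `φ y = y * c` and `φ c = c` -/
theorem pow_apply {φ : MulAut N} {y c : N} (h : φ y = y * c) (hc : φ c = c) (n : ℕ) : (φ ^ n) y = y * c ^ n := by
  induction n with
  | zero => simp
  | succ n ih =>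
    have h1 : ∀ k : ℕ, (φ ^ k) c = c := by
      intro k
      induction k with
      | zero => rfl
      | succ k ihk => rw [pow_succ, MulAut.mul_apply, hc, ihk]
    rw [pow_succ, MulAut.mul_apply, h, map_mul, ih, h1, pow_succ]
    group

theorem eq_of_pow {φ : MulAut N} (hφ : ¬ p ∣ orderOf φ) {y c : N} (h : φ y = y * c) (hc : φ c = c) {Q : Subgroup N}
    (hQ : IsPGroup p Q) (hcQ : c ∈ Q) : φ y = y := by
  have h1 := pow_apply h hc (orderOf φ)
  rw [pow_orderOf_eq_one, MulAut.one_apply, left_eq_mul] at h1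
  obtain ⟨k, hk⟩ := hQ ⟨c, hcQ⟩
  have hk' : c ^ p ^ k = 1 := by simpa using congrArg Subtype.val hk
  have h2 : c = 1 := by
    have h3 : orderOf c ∣ Nat.gcd (orderOf φ) (p ^ k) :=
      Nat.dvd_gcd (orderOf_dvd_of_pow_eq_one h1) (orderOf_dvd_of_pow_eq_one hk')
    have h4 : Nat.gcd (orderOf φ) (p ^ k) = 1 :=
      Nat.Coprime.pow_right k ((Nat.Prime.coprime_iff_not_dvd hp.out).2 hφ).symm
    rw [h4, Nat.dvd_one, orderOf_eq_one_iff] at h3
    exact h3
  rw [h, h2, mul_one]

theorem apply_normalizer {φ : MulAut N} {S : Subgroup N} (hS : ∀ s ∈ S, φ s = s) {y : N}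
    (hy : y ∈ normalizer (S : Set N)) : φ y ∈ normalizer (S : Set N) := by
  have hinv : ∀ s ∈ S, φ⁻¹ s = s := by
    intro s hs
    have h1 : φ⁻¹ (φ s) = s := MulAut.inv_apply_self N φ s
    rwa [hS s hs] at h1
  rw [mem_normalizer_iff] at hy ⊢
  intro s
  constructor
  · intro hs
    have h1 := (hy s).1 hs
    have h2 := hS _ h1
    rw [map_mul, map_mul, map_inv, hS s hs] at h2
    rw [h2]
    exact h1
  · intro hs
    have h1 := hinv _ hs
    rw [map_mul, map_mul, map_inv, MulAut.inv_apply_self] at h1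
    have h2 : y * φ⁻¹ s * y⁻¹ ∈ S := by rw [h1]; exact hs
    have h3 := (hy _).2 h2
    have h4 := hS _ h3
    have h5 : φ (φ⁻¹ s) = s := MulAut.apply_inv_self N φ s
    rw [h5] at h4
    rw [← h4] at h3
    exact h3

/-- An automorphism of order prime to `p` which fixes `O_p(N_N(S))` fixes `N_N(S)`. -/
theorem fix_normalizer (hloc : LocChar p N) {φ : MulAut N} (hφ : ¬ p ∣ orderOf φ) {S : Subgroup N}
    (hS : IsPGroup p S) (hS1 : S ≠ ⊥) (hO : ∀ o ∈ OO p S, φ o = o) : ∀ y ∈ normalizer (S : Set N), φ y = y := by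
  intro y hy
  have hSf : ∀ s ∈ S, φ s = s := fun s hs => hO s (le_OO hS hs)
  have hφy := apply_normalizer hSf hy
  set c : N := y⁻¹ * φ y with hc
  have hcN : c ∈ normalizer (S : Set N) := mul_mem (inv_mem hy) hφy
  have hcO : c ∈ OO p S := by
    have h1 : (⟨c, hcN⟩ : ↥(normalizer (S : Set N))) ∈
        centralizer (pCore p ↥(normalizer (S : Set N)) : Set ↥(normalizer (S : Set N))) := by
      rw [mem_centralizer_iff]
      intro o ho
      apply Subtype.ext
      show (o : N) * c = c * o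
      have ho' : (o : N) ∈ OO p S := ⟨o, ho, rfl⟩
      have h2 := hO _ (conj_OO hy ho')
      rw [map_mul, map_mul, map_inv, hO _ ho'] at h2
      rw [hc]
      have h3 : (o : N) = y⁻¹ * (φ y * o * (φ y)⁻¹) * y := by rw [h2]; group
      calc (o : N) * (y⁻¹ * φ y) = (y⁻¹ * (φ y * o * (φ y)⁻¹) * y) * (y⁻¹ * φ y) := by rw [← h3]
        _ = y⁻¹ * φ y * o := by group
    exact ⟨_, hloc S hS hS1 h1, rfl⟩
  exact eq_of_pow hφ (y := y) (c := c) (by rw [hc]; group) (hO c hcO) (OO_isP S) hcO

/-- `φ` stabilises `O_p(N_N(S))` if it fixes `S`. -/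
theorem map_OO {φ : MulAut N} {S : Subgroup N} (hS : ∀ s ∈ S, φ s = s) : (OO p S).map φ.toMonoidHom = OO p S := by
  have hxZ : S.map φ.toMonoidHom = S := by
    ext y
    constructor
    · rintro ⟨z, hz, rfl⟩
      have : φ z = z := hS z hz
      show φ z ∈ S
      rwa [this]
    · intro hy
      exact ⟨y, hy, hS y hy⟩
  obtain ⟨Z, hZ⟩ : ∃ Z : Subgroup N, Z = normalizer (S : Set N) := ⟨_, rfl⟩
  have hxN : Z.map φ.toMonoidHom = Z := by
    have h1 := Subgroup.map_normalizer_eq_of_bijective S (f := φ.toMonoidHom) φ.bijective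
    rw [hZ]
    refine Eq.trans h1 ?_
    rw [hxZ]
  let e : ↥Z ≃* ↥Z := (φ.subgroupMap Z).trans (MulEquiv.subgroupCongr hxN)
  have h1 : (pCore p ↥Z).map e.toMonoidHom = pCore p ↥Z := Cores.map_equiv_pCore e p
  have h3 : OO p S = (pCore p ↥Z).map Z.subtype := by subst hZ; rfl
  rw [h3, Subgroup.map_map]
  have h2 : φ.toMonoidHom.comp Z.subtype = Z.subtype.comp e.toMonoidHom := by
    ext y
    rfl
  rw [h2, ← Subgroup.map_map, h1]

/-- **An automorphism of order prime to `p` which fixes the normaliser of a nontrivial `p`-subgroup fixes a Sylow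
`p`-subgroup.** -/
theorem exists_sylow (hZ : center N = ⊥) (hloc : LocChar p N) {φ : MulAut N} (hφ : ¬ p ∣ orderOf φ) {K : Subgroup N}
    (hK : IsPGroup p K) (hK1 : K ≠ ⊥) (hfix : ∀ y ∈ normalizer (K : Set N), φ y = y) :
    ∃ P : Sylow p N, ∀ y ∈ P, φ y = y := by
  classical
  -- a maximal such `K`
  have hfin : Finite (Subgroup N) := inferInstance
  obtain ⟨K0, hK0⟩ := Set.Finite.exists_maximalFor (fun K : Subgroup N => Nat.card K)
    {K : Subgroup N | IsPGroup p K ∧ K ≠ ⊥ ∧ ∀ y ∈ normalizer (K : Set N), φ y = y} (Set.toFinite _) ⟨K, hK, hK1, hfix⟩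
  obtain ⟨⟨hK0p, hK01, hK0f⟩, hmax⟩ := hK0
  -- a Sylow subgroup of the normaliser
  obtain ⟨Q⟩ : Nonempty (Sylow p ↥(normalizer (K0 : Set N))) := inferInstance
  obtain ⟨S, hS⟩ : ∃ S : Subgroup N, S = (Q : Subgroup ↥(normalizer (K0 : Set N))).map
      (normalizer (K0 : Set N)).subtype := ⟨_, rfl⟩
  have hSp : IsPGroup p S := by rw [hS]; exact Q.isPGroup'.map _
  have hSN : S ≤ normalizer (K0 : Set N) := by rw [hS]; exact map_subtype_le _
  have hKS : K0 ≤ S := by
    have h1 : K0.subgroupOf (normalizer (K0 : Set N)) ≤ (Q : Subgroup _) := by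
      refine le_trans (Cores.le_pCore ?_ (IsPGroup.comap_subtype hK0p)) (Cores.pCore_le_sylow Q)
      constructor
      intro a ha g
      exact mem_subgroupOf.2 ((mem_normalizer_iff.1 g.2 a).1 (mem_subgroupOf.1 ha))
    intro k hk
    rw [hS]
    exact ⟨⟨k, le_normalizer hk⟩, h1 (mem_subgroupOf.2 hk), rfl⟩
  have hS1 : S ≠ ⊥ := fun h => hK01 (eq_bot_iff.2 (h ▸ hKS))
  have hSf : ∀ s ∈ S, φ s = s := fun s hs => hK0f s (hSN hs)
  -- the `P × Q` lemma
  have hinj := conj_injective (G := N) hZ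
  have hOf : ∀ o ∈ OO p S, φ o = o := by
    have key := ThompsonPQ.thompson_p_times_q p (S.map (MulAut.conj : N →* MulAut N)) (zpowers φ)
      ((OO p S).map (MulAut.conj : N →* MulAut N)) (hSp.map _) (by
        rw [Nat.card_zpowers]
        exact ((Nat.Prime.coprime_iff_not_dvd hp.out).2 hφ).symm) ((OO_isP S).map _) (by
        rintro _ ⟨s, hs, rfl⟩
        rw [mem_centralizer_iff]
        intro ψ hψ
        have h0 : Commute φ (MulAut.conj s) := by
          have h1 := conj_mul_eq φ s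
          rw [hSf s hs, mul_inv_eq_iff_eq_mul] at h1
          exact h1
        obtain ⟨k, rfl⟩ := mem_zpowers_iff.1 hψ
        exact (h0.zpow_left k).eq) (by
        refine (map_mono ?_).trans (le_normalizer_map _)
        intro s hs
        rw [mem_normalizer_iff]
        intro o
        refine ⟨fun ho => conj_OO (le_normalizer hs) ho, fun ho => ?_⟩
        have := conj_OO (inv_mem (le_normalizer hs : s ∈ normalizer (S : Set N))) ho
        have e : s⁻¹ * (s * o * s⁻¹) * s⁻¹⁻¹ = o := by group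
        rwa [e] at this) (by
        rw [zpowers_le, mem_normalizer_iff]
        intro α
        have hxO := map_OO (p := p) hSf
        constructor
        · rintro ⟨o, ho, rfl⟩
          rw [conj_mul_eq]
          refine ⟨φ o, ?_, rfl⟩
          rw [SetLike.mem_coe, ← hxO]
          exact ⟨o, ho, rfl⟩
        · rintro ⟨o, ho, e⟩
          rw [SetLike.mem_coe, ← hxO] at ho
          obtain ⟨o', ho', rfl⟩ := ho
          refine ⟨o', ho', ?_⟩
          have h1 := conj_mul_eq φ o'
          have h2 : φ * MulAut.conj o' * φ⁻¹ = φ * α * φ⁻¹ := h1.trans e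
          exact mul_left_cancel (mul_right_cancel h2)) (by
        rintro _ ⟨⟨o, ho, rfl⟩, hc⟩
        rw [mem_centralizer_iff]
        have h1 : o ∈ normalizer (K0 : Set N) := by
          refine centralizer_le_normalizer _ ?_
          rw [mem_centralizer_iff]
          intro k hk
          apply hinj
          rw [map_mul, map_mul]
          exact (mem_centralizer_iff.1 hc) _ ⟨k, hKS hk, rfl⟩
        have h0 : Commute φ (MulAut.conj o) := by
          have h2 := conj_mul_eq φ o
          rw [hK0f o h1, mul_inv_eq_iff_eq_mul] at h2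
          exact h2
        intro ψ hψ
        obtain ⟨k, rfl⟩ := mem_zpowers_iff.1 hψ
        exact (h0.zpow_left k).eq)
    intro o ho
    have h1 := (mem_centralizer_iff.1 (key (mem_zpowers φ))) (MulAut.conj o) ⟨o, ho, rfl⟩
    apply hinj
    rw [← conj_mul_eq, ← h1, mul_inv_cancel_right]
  have hSf' := fix_normalizer hloc hφ hSp hS1 hOf
  -- maximality
  have hcard := hmax (show S ∈ {K : Subgroup N | IsPGroup p K ∧ K ≠ ⊥ ∧ ∀ y ∈ normalizer (K : Set N), φ y = y} from
    ⟨hSp, hS1, hSf'⟩) (card_le_of_le hKS)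
  have hKS' : K0 = S := Subgroup.eq_of_le_of_card_ge hKS hcard
  -- `K0` is a Sylow subgroup of `N`
  obtain ⟨P, hP⟩ := hK0p.exists_le_sylow
  refine ⟨P, ?_⟩
  have hPK : (P : Subgroup N) = K0 := by
    by_contra hne
    have hlt : K0 < (P : Subgroup N) := lt_of_le_of_ne hP (Ne.symm hne)
    -- the normaliser grows
    obtain ⟨y, hyP, hyK, hyn⟩ : ∃ y ∈ (P : Subgroup N), y ∉ K0 ∧ y ∈ normalizer (K0 : Set N) := by
      have hnil : Group.IsNilpotent ↥(P : Subgroup N) := P.isPGroup'.isNilpotent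
      have h1 : K0.subgroupOf (P : Subgroup N) < ⊤ := by
        rw [lt_top_iff_ne_top, Ne, subgroupOf_eq_top]
        exact not_le_of_gt hlt
      have h2 := Group.normalizerCondition_of_isNilpotent (G := ↥(P : Subgroup N)) _ h1
      obtain ⟨y, hy1, hy2⟩ := SetLike.exists_of_lt h2
      refine ⟨y, y.2, fun h => hy2 (mem_subgroupOf.2 h), ?_⟩
      rw [mem_normalizer_iff] at hy1 ⊢
      intro k
      constructor
      · intro hk
        exact mem_subgroupOf.1 ((hy1 ⟨k, hP hk⟩).1 (mem_subgroupOf.2 hk))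
      · intro hk
        have hkP : k ∈ (P : Subgroup N) := by
          have h3 : k = (y : N)⁻¹ * ((y : N) * k * (y : N)⁻¹) * y := by group
          rw [h3]
          exact mul_mem (mul_mem (inv_mem y.2) (hP hk)) y.2
        exact mem_subgroupOf.1 ((hy1 ⟨k, hkP⟩).2 (mem_subgroupOf.2 hk))
    -- the Sylow subgroup of the normaliser is normal
    have hQ : ∀ q : ↥(normalizer (K0 : Set N)), q ∈ (Q : Subgroup _) ↔ (q : N) ∈ K0 := by
      intro q
      have hmemS : (q : N) ∈ K0 ↔ (q : N) ∈ S := by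
        have := SetLike.ext_iff.1 hKS' (q : N)
        exact this
      rw [hmemS, hS]
      constructor
      · intro h
        exact ⟨q, h, rfl⟩
      · rintro ⟨q', hq', e⟩
        have : q' = q := Subtype.ext e
        rwa [← this]
    apply hyK
    have hQn : (Q : Subgroup ↥(normalizer (K0 : Set N))).Normal := by
      constructor
      intro q hq g
      rw [hQ] at hq ⊢
      exact (mem_normalizer_iff.1 g.2 q).1 hq
    rw [← hQ ⟨y, hyn⟩]
    have hz : IsPGroup p ↥(zpowers (⟨y, hyn⟩ : ↥(normalizer (K0 : Set N)))) := by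
      obtain ⟨k, hk⟩ := P.isPGroup' ⟨y, hyP⟩
      have hk' : y ^ p ^ k = 1 := by simpa using congrArg Subtype.val hk
      have h3 : orderOf (⟨y, hyn⟩ : ↥(normalizer (K0 : Set N))) ∣ p ^ k := by
        apply orderOf_dvd_of_pow_eq_one
        exact Subtype.ext hk'
      obtain ⟨j, -, hj⟩ := (Nat.dvd_prime_pow hp.out).1 h3
      exact IsPGroup.of_card (n := j) (by rw [Nat.card_zpowers, hj])
    have hsup : IsPGroup p ↥(zpowers (⟨y, hyn⟩ : ↥(normalizer (K0 : Set N))) ⊔ (Q : Subgroup _)) :=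
      hz.to_sup_of_normal_right Q.isPGroup'
    have h4 := Q.is_maximal' hsup le_sup_right
    rw [← h4]
    exact mem_sup_left (mem_zpowers _)
  intro y hy
  have h1 : y ∈ K0 := by rw [← hPK]; exact hy
  exact hK0f y (le_normalizer h1)

end Aut

section Up

variable {G : Type*} [Group G] [Finite G] {p : ℕ} [hp : Fact p.Prime] (N : Subgroup G) [hN : N.Normal]

/-- `p`-subgroups lie in normal subgroups of index prime to `p` -/
theorem le_of_isP (hidx : ¬ p ∣ N.index) {K : Subgroup G} (hK : IsPGroup p K) : K ≤ N := by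
  intro k hk
  obtain ⟨j, hj⟩ := hK ⟨k, hk⟩
  have hj' : k ^ p ^ j = 1 := by simpa using congrArg Subtype.val hj
  have h1 : orderOf (QuotientGroup.mk k : G ⧸ N) ∣ p ^ j := by
    apply orderOf_dvd_of_pow_eq_one
    rw [← QuotientGroup.mk_pow, hj']
    rfl
  have h2 : orderOf (QuotientGroup.mk k : G ⧸ N) ∣ N.index := orderOf_dvd_natCard _
  have h3 : orderOf (QuotientGroup.mk k : G ⧸ N) ∣ Nat.gcd N.index (p ^ j) := Nat.dvd_gcd h2 h1
  rw [Nat.Coprime.pow_right j ((Nat.Prime.coprime_iff_not_dvd hp.out).2 hidx).symm, Nat.dvd_one,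
    orderOf_eq_one_iff, QuotientGroup.eq_one_iff] at h3
  exact h3

/-- **Local characteristic `p` goes up.** -/
theorem locChar_of_normal (hidx : ¬ p ∣ N.index) (hZ : center ↥N = ⊥) (hloc : LocChar p ↥N)
    (hS : ∀ x : G, ¬ p ∣ orderOf x → ∀ P : Sylow p ↥N, (∀ y ∈ P, x * (y : G) * x⁻¹ = y) → x = 1) : LocChar p G := by
  intro K hK hK1
  have hKN := le_of_isP N hidx hK
  set Mz := normalizer (K : Set G) with hMz
  have hn := Cores.pCore_normal (G := ↥Mz) p
  -- the normaliser in `N`
  set K' := K.subgroupOf N with hK'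
  have hK'p : IsPGroup p K' := IsPGroup.comap_subtype hK
  have hK'1 : K' ≠ ⊥ := by
    intro h
    apply hK1
    rw [eq_bot_iff]
    intro k hk
    have h1 : (⟨k, hKN hk⟩ : ↥N) ∈ K' := mem_subgroupOf.2 hk
    rw [h, mem_bot] at h1
    exact mem_bot.2 (congrArg Subtype.val h1)
  have hnor : ∀ y : ↥N, y ∈ normalizer (K' : Set ↥N) ↔ (y : G) ∈ Mz := by
    intro y
    rw [mem_normalizer_iff, hMz, mem_normalizer_iff]
    constructor
    · intro h k
      constructor
      · intro hk
        exact mem_subgroupOf.1 ((h ⟨k, hKN hk⟩).1 (mem_subgroupOf.2 hk))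
      · intro hk
        have hkN : k ∈ N := by
          have h3 : k = (y : G)⁻¹ * ((y : G) * k * (y : G)⁻¹) * y := by group
          rw [h3]
          exact mul_mem (mul_mem (inv_mem y.2) (hKN hk)) y.2
        exact mem_subgroupOf.1 ((h ⟨k, hkN⟩).2 (mem_subgroupOf.2 hk))
    · intro h k
      exact ⟨fun hk => mem_subgroupOf.2 ((h k).1 (mem_subgroupOf.1 hk)),
        fun hk => mem_subgroupOf.2 ((h k).2 (mem_subgroupOf.1 hk))⟩
  -- `O_p(N_N(K))` lies in `O_p(N_G(K))`
  obtain ⟨R, hR⟩ : ∃ R : Subgroup ↥Mz, ∀ m : ↥Mz, m ∈ R ↔ ∃ o ∈ OO p K', ((o : ↥N) : G) = m := by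
    refine ⟨((OO p K').map N.subtype).subgroupOf Mz, fun m => ?_⟩
    rw [mem_subgroupOf]
    constructor
    · rintro ⟨o, ho, e⟩
      exact ⟨o, ho, e⟩
    · rintro ⟨o, ho, e⟩
      exact ⟨o, ho, e⟩
  have hOmem : ∀ o ∈ OO p K', ((o : ↥N) : G) ∈ Mz := fun o ho => (hnor o).1 (OO_le K' ho)
  have hRp : IsPGroup p R := by
    intro m
    obtain ⟨o, ho, e⟩ := (hR m).1 m.2
    obtain ⟨k, hk⟩ := OO_isP (p := p) K' ⟨o, ho⟩
    refine ⟨k, ?_⟩
    have hk' : o ^ p ^ k = 1 := by simpa using congrArg Subtype.val hk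
    apply Subtype.ext
    apply Subtype.ext
    show (((m : ↥Mz) : G)) ^ p ^ k = 1
    rw [← e]
    exact_mod_cast congrArg Subtype.val hk'
  have hRn : R.Normal := by
    constructor
    intro m hm g
    rw [hR] at hm ⊢
    obtain ⟨o, ho, e⟩ := hm
    -- conjugation by `g`
    set ψ : MulAut ↥N := MulAut.conjNormal (g : G) with hψ
    have hψK : K'.map ψ.toMonoidHom = K' := by
      ext y
      constructor
      · rintro ⟨k, hk, rfl⟩
        exact mem_subgroupOf.2 ((mem_normalizer_iff.1 g.2 (k : G)).1 (mem_subgroupOf.1 hk))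
      · intro hy
        refine ⟨ψ⁻¹ y, ?_, MulAut.apply_inv_self _ ψ y⟩
        apply mem_subgroupOf.2
        have h1 : (mem_normalizer_iff.1 (inv_mem g.2) (y : G)) = (mem_normalizer_iff.1 (inv_mem g.2) (y : G)) := rfl
        have h2 := (mem_normalizer_iff.1 (inv_mem g.2) (y : G)).1 (mem_subgroupOf.1 hy)
        have h3 : ((ψ⁻¹ y : ↥N) : G) = (g : G)⁻¹ * y * (g : G)⁻¹⁻¹ := by
          rw [hψ, ← map_inv]
          simp
        rw [h3]
        exact h2
    obtain ⟨Z, hZd⟩ : ∃ Z : Subgroup ↥N, Z = normalizer (K' : Set ↥N) := ⟨_, rfl⟩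
    have hxN : Z.map ψ.toMonoidHom = Z := by
      have h1 := Subgroup.map_normalizer_eq_of_bijective K' (f := ψ.toMonoidHom) ψ.bijective
      rw [hZd]
      refine Eq.trans h1 ?_
      rw [hψK]
    let e' : ↥Z ≃* ↥Z := (ψ.subgroupMap Z).trans (MulEquiv.subgroupCongr hxN)
    have h1 : (pCore p ↥Z).map e'.toMonoidHom = pCore p ↥Z := Cores.map_equiv_pCore e' p
    have h3 : OO p K' = (pCore p ↥Z).map Z.subtype := by subst hZd; rfl
    have hxO : (OO p K').map ψ.toMonoidHom = OO p K' := by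
      rw [h3, Subgroup.map_map]
      have h2 : ψ.toMonoidHom.comp Z.subtype = Z.subtype.comp e'.toMonoidHom := by
        ext y
        rfl
      rw [h2, ← Subgroup.map_map, h1]
    refine ⟨ψ o, ?_, ?_⟩
    · rw [← hxO]
      exact ⟨o, ho, rfl⟩
    · show (g : G) * (o : G) * (g : G)⁻¹ = _
      rw [e]
      rfl
  have hRle : R ≤ pCore p ↥Mz := Cores.le_pCore hRn hRp
  -- the elements of order prime to `p`
  have key : ∀ x : ↥Mz, x ∈ centralizer (pCore p ↥Mz : Set ↥Mz) → ¬ p ∣ orderOf x → x = 1 := by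
    intro x hx hxp
    have hxp' : ¬ p ∣ orderOf (x : G) := by rwa [Subgroup.orderOf_coe]
    set φ : MulAut ↥N := MulAut.conjNormal (x : G) with hφd
    have hφ : ¬ p ∣ orderOf φ := fun h => hxp' (h.trans (orderOf_map_dvd MulAut.conjNormal (x : G)))
    have hO : ∀ o ∈ OO p K', φ o = o := by
      intro o ho
      have h1 : (⟨(o : G), hOmem o ho⟩ : ↥Mz) ∈ pCore p ↥Mz := hRle ((hR _).2 ⟨o, ho, rfl⟩)
      have h2 := congrArg (fun z : ↥Mz => (z : G)) ((mem_centralizer_iff.1 hx) _ h1)
      apply Subtype.ext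
      show (x : G) * (o : G) * (x : G)⁻¹ = o
      rw [mul_inv_eq_iff_eq_mul]
      exact h2.symm
    have h1 := fix_normalizer hloc hφ hK'p hK'1 hO
    obtain ⟨P, hP⟩ := exists_sylow hZ hloc hφ hK'p hK'1 h1
    have h2 := hS (x : G) hxp' P (fun y hy => by
      have h3 := congrArg Subtype.val (hP y hy)
      exact h3)
    exact Subtype.ext h2
  -- the centraliser is a `p`-group
  have hC : IsPGroup p ↥(centralizer (pCore p ↥Mz : Set ↥Mz)) := by
    rw [IsPGroup.iff_card]
    refine ⟨_, Nat.eq_prime_pow_of_unique_prime_dvd (p := p) Nat.card_pos.ne' ?_⟩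
    intro q hq hqm
    by_contra hne
    have : Fact q.Prime := ⟨hq⟩
    obtain ⟨x, hx⟩ := exists_prime_orderOf_dvd_card' q hqm
    have h1 : orderOf (x : ↥Mz) = q := by rw [Subgroup.orderOf_coe, hx]
    have h2 := key x x.2 (by
      rw [h1]
      intro h
      exact hne ((Nat.prime_dvd_prime_iff_eq hp.out hq).1 h).symm)
    rw [h2, orderOf_one] at h1
    exact hq.one_lt.ne h1
  exact Cores.le_pCore inferInstance hC

end Up

end Cfsg.Agent.H330.GowLoc
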