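import Cfsg.Agent.FixBN.TwOfBN
import Cfsg.Agent.H330.GowUniq
import Cfsg.Agent.H330.GowLoc

/-!
# Automorphisms of a group with a split (B,N)-pair act on the building (helper330)

* `θ` : the action of an automorphism on the chambers; `θ_one`, `θ_mul`, `θ_conj`;
* `δ_θ` : the effect on the Weyl distance; `tp_of_cube` : automorphisms with trivial cube preserve the types if the
  diagram has no symmetry of order three;
* `sys` : the system for a group of type preserving automorphisms containing the inner ones with index prime to `p`;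
* `eq_one_of_centralizes` : no `p`-regular automorphism centralises a Sylow `p`-subgroup.
-/

set_option autoImplicit false
set_option linter.unusedSectionVars false

namespace Cfsg.Agent.H330.GowAct

open Cfsg Cfsg.Agent.LieExceptional.BNPairCore Cfsg.Agent.Tits.Core Cfsg.Agent.Tits.Core.Bldg Cfsg.Agent.Tits.OfBN
  Cfsg.Agent.Schreier.BNSch Cfsg.Agent.Tits.OppRes Cfsg.Agent.FixBN Cfsg.Agent.FixBN.OfBN Cfsg.Agent.FixBN.TwOfBN

variable {K : Type*} [Group K] [Finite K] {P : Cfsg.BNPair K} {p : ℕ} [hp : Fact p.Prime] {U : Subgroup K}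
  (S : Split P p U)

section Theta

/-- `α B` is the conjugate of `B` by `gg α` -/
noncomputable def gg (α : MulAut K) : K := (exists_conj S α).choose

theorem gg_spec (α : MulAut K) (b : K) : (gg S α)⁻¹ * α b * gg S α ∈ P.B ↔ b ∈ P.B :=
  (exists_conj S α).choose_spec b

theorem coc_one : gg S (1 : MulAut K) ∈ P.B := by
  apply mem_of_conj S
  intro b hb
  exact (gg_spec S 1 b).2 hb

theorem coc_mul (α β : MulAut K) : (α (gg S β) * gg S α)⁻¹ * gg S (α * β) ∈ P.B := by
  apply mem_of_conj S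
  intro b hb
  obtain ⟨b', hb'⟩ : ∃ b' : K, (α * β) b' = (α (gg S β) * gg S α) * b * (α (gg S β) * gg S α)⁻¹ :=
    (α * β).surjective _
  have h1 : ((α (gg S β) * gg S α)⁻¹ * gg S (α * β))⁻¹ * b * ((α (gg S β) * gg S α)⁻¹ * gg S (α * β)) =
      (gg S (α * β))⁻¹ * (α * β) b' * gg S (α * β) := by
    rw [hb']; group
  rw [h1, gg_spec, ← gg_spec S β, ← gg_spec S α]
  have h2 : (gg S α)⁻¹ * α ((gg S β)⁻¹ * β b' * gg S β) * gg S α = b := by
    have h3 : α (β b') = (α (gg S β) * gg S α) * b * (α (gg S β) * gg S α)⁻¹ := hb'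
    rw [map_mul, map_mul, map_inv, h3]
    group
  rw [h2]
  exact hb

theorem θ_wd (α : MulAut K) (a b : K) (h : a⁻¹ * b ∈ P.B) :
    (QuotientGroup.mk (α a * gg S α) : K ⧸ P.B) = QuotientGroup.mk (α b * gg S α) := by
  rw [OfBN.mk_eq]
  have h1 : (α a * gg S α)⁻¹ * (α b * gg S α) = (gg S α)⁻¹ * α (a⁻¹ * b) * gg S α := by
    rw [map_mul, map_inv]; group
  rw [h1, gg_spec]
  exact h

/-- the action on the chambers -/
noncomputable def θ (α : MulAut K) : K ⧸ P.B → K ⧸ P.B :=
  Quotient.lift (fun a : K => (QuotientGroup.mk (α a * gg S α) : K ⧸ P.B))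
    (fun a b h => θ_wd S α a b (QuotientGroup.leftRel_apply.1 h))

theorem θ_mk (α : MulAut K) (a : K) : θ S α (QuotientGroup.mk a) = QuotientGroup.mk (α a * gg S α) := rfl

theorem θ_one (x : K ⧸ P.B) : θ S 1 x = x := by
  induction x using QuotientGroup.induction_on with
  | _ a =>
  rw [θ_mk, OfBN.mk_eq]
  have h1 : ((1 : MulAut K) a * gg S 1)⁻¹ * a = (gg S 1)⁻¹ := by
    rw [MulAut.one_apply]; group
  rw [h1]
  exact inv_mem (coc_one S)

theorem θ_mul (α β : MulAut K) (x : K ⧸ P.B) : θ S (α * β) x = θ S α (θ S β x) := by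
  induction x using QuotientGroup.induction_on with
  | _ a =>
  rw [θ_mk, θ_mk, θ_mk, eq_comm, OfBN.mk_eq]
  have h1 : (α (β a * gg S β) * gg S α)⁻¹ * ((α * β) a * gg S (α * β)) =
      (α (gg S β) * gg S α)⁻¹ * gg S (α * β) := by
    rw [map_mul, MulAut.mul_apply]; group
  rw [h1]
  exact coc_mul S α β

theorem θ_conj (g : K) (x : K ⧸ P.B) : θ S (MulAut.conj g) x = g • x := by
  induction x using QuotientGroup.induction_on with
  | _ a =>
  rw [θ_mk, OfBN.smul_mk, eq_comm, OfBN.mk_eq]
  have h1 : (g * a)⁻¹ * ((MulAut.conj g) a * gg S (MulAut.conj g)) = g⁻¹ * gg S (MulAut.conj g) := by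
    rw [MulAut.conj_apply]; group
  rw [h1]
  apply mem_of_conj S
  intro b hb
  have h2 := (gg_spec S (MulAut.conj g) b).2 hb
  rw [MulAut.conj_apply] at h2
  have h3 : (g⁻¹ * gg S (MulAut.conj g))⁻¹ * b * (g⁻¹ * gg S (MulAut.conj g)) =
      (gg S (MulAut.conj g))⁻¹ * (g * b * g⁻¹) * gg S (MulAut.conj g) := by group
  rw [h3]
  exact h2

/-- the automorphism `α` corrected to preserve `B` -/
noncomputable def al (α : MulAut K) : K ≃* K := MulEquiv.trans α (MulAut.conj (gg S α)⁻¹)

theorem al_apply (α : MulAut K) (b : K) : al S α b = (gg S α)⁻¹ * α b * gg S α := by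
  unfold al
  simp

theorem al_mem (α : MulAut K) (b : K) : al S α b ∈ P.B ↔ b ∈ P.B := by
  rw [al_apply]
  exact gg_spec S α b

variable [hN : ((P.B ⊓ P.N).subgroupOf P.N).Normal] {I : Type*} {M : CoxeterMatrix I} (e : I ≃ P.S)
  (cs : CoxeterSystem M (WP P))
  (hcs : ∀ i, cs.simple i = QuotientGroup.mk (⟨(e i : K), P.subset (e i).2⟩ : P.N))

/-- the effect on the Weyl distance -/
theorem δ_θ (α : MulAut K) (x y : K ⧸ P.B) :
    (bldg P e cs hcs).δ (θ S α x) (θ S α y) = fW P (al S α) ((bldg P e cs hcs).δ x y) := by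
  induction x using QuotientGroup.induction_on with
  | _ a =>
  induction y using QuotientGroup.induction_on with
  | _ b =>
  rw [θ_mk, θ_mk, bldg_δ_mk, bldg_δ_mk, fW_wt _ (al_mem S α)]
  congr 1
  rw [al_apply, map_mul, map_inv]; group

theorem exists_pair (w : WP P) : ∃ x y : K ⧸ P.B, (bldg P e cs hcs).δ x y = w := by
  obtain ⟨y, hy⟩ := (bldg P e cs hcs).exists_δ (QuotientGroup.mk 1) w
  exact ⟨_, y, hy⟩

include e hcs in
theorem φ_mul (α β : MulAut K) (w : WP P) :
    fW P (al S (α * β)) w = fW P (al S α) (fW P (al S β) w) := by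
  obtain ⟨x, y, rfl⟩ := exists_pair e cs hcs w
  rw [← δ_θ S e cs hcs, ← δ_θ S e cs hcs, ← δ_θ S e cs hcs, θ_mul, θ_mul]

include e hcs in
theorem φ_one (w : WP P) : fW P (al S 1) w = w := by
  obtain ⟨x, y, rfl⟩ := exists_pair e cs hcs w
  rw [← δ_θ S e cs hcs, θ_one, θ_one]

theorem tp_conj (g : K) (x y : K ⧸ P.B) :
    (bldg P e cs hcs).δ (θ S (MulAut.conj g) x) (θ S (MulAut.conj g) y) = (bldg P e cs hcs).δ x y := by
  rw [θ_conj, θ_conj]
  exact dist_smul P g x y

/-- **Automorphisms with trivial cube preserve the types**, if the diagram has no symmetry of order three. -/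
theorem tp_of_cube [hC : Cox cs]
    (hrig : ∀ σ : I → I, (∀ i j, cs.simple i * cs.simple j = cs.simple j * cs.simple i ↔
      cs.simple (σ i) * cs.simple (σ j) = cs.simple (σ j) * cs.simple (σ i)) → (∀ i, σ (σ (σ i)) = i) → ∀ i, σ i = i)
    (α : MulAut K) (hα : α ^ 3 = 1) (x y : K ⧸ P.B) :
    (bldg P e cs hcs).δ (θ S α x) (θ S α y) = (bldg P e cs hcs).δ x y := by
  have h3 : ∀ w : WP P, fW P (al S α) (fW P (al S α) (fW P (al S α) w)) = w := by
    intro w
    have h := φ_one S e cs hcs w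
    rw [← hα, pow_succ, pow_succ, pow_one, φ_mul S e cs hcs, φ_mul S e cs hcs] at h
    exact h
  have hmul := fW_mul (al S α) (al_mem S α) e cs hcs
  have hs := fW_simple (al S α) (al_mem S α) e cs hcs
  have hinj := fW_injective (al S α) (al_mem S α)
  have hσ := hrig (TwOfBN.sigma (al S α) (al_mem S α) e cs hcs) (by
    intro i j
    rw [← hs, ← hs, ← hmul, ← hmul]
    exact hinj.eq_iff.symm) (by
    intro i
    apply hC.inj
    rw [← hs, ← hs, ← hs, h3])
  have hid : ∀ w : WP P, fW P (al S α) w = w := by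
    intro w
    obtain ⟨ω, rfl⟩ := cs.wordProd_surjective w
    induction ω with
    | nil => rw [cs.wordProd_nil, fW_one _ (al_mem S α)]
    | cons i ω ih => rw [cs.wordProd_cons, hmul, ih, hs, hσ]
  rw [δ_θ, hid]

end Theta

section System

variable (G : Subgroup (MulAut K)) (hG : (MulAut.conj : K →* MulAut K).range ≤ G)

/-- the group acts on the chambers -/
@[reducible] noncomputable def gact : MulAction ↥G (K ⧸ P.B) where
  smul α x := θ S (α : MulAut K) x
  one_smul x := θ_one S x
  mul_smul α β x := θ_mul S α β x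

/-- the embedding of the group -/
def jj : K →* ↥G := (MulAut.conj : K →* MulAut K).codRestrict G fun g => hG ⟨g, rfl⟩

theorem jj_coe (g : K) : ((jj G hG g : ↥G) : MulAut K) = MulAut.conj g := rfl

theorem jj_injective (hZ : Subgroup.center K = ⊥) : Function.Injective (jj G hG) := by
  intro a b h
  exact BpLieP.Big.conj_injective hZ (congrArg Subtype.val h)

theorem jj_conj (α : ↥G) (g : K) : α * jj G hG g * α⁻¹ = jj G hG ((α : MulAut K) g) := by
  apply Subtype.ext
  exact BpLieP.Big.conj_mul_eq (α : MulAut K) g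

instance jj_normal : (jj G hG).range.Normal := by
  constructor
  rintro _ ⟨g, rfl⟩ α
  rw [jj_conj]
  exact ⟨_, rfl⟩

theorem jj_smul (g : K) (x : K ⧸ P.B) : letI := gact S G; (jj G hG g) • x = g • x := θ_conj S g x

/-- `p`-subgroups lie in the image of `K` -/
theorem le_range (hidx : ¬ p ∣ (jj G hG).range.index) {V : Subgroup ↥G} (hV : IsPGroup p V) : V ≤ (jj G hG).range :=
  GowLoc.le_of_isP _ hidx hV

variable [hN : ((P.B ⊓ P.N).subgroupOf P.N).Normal] {I : Type*} {M : CoxeterMatrix I} (e : I ≃ P.S)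
  (cs : CoxeterSystem M (WP P))
  (hcs : ∀ i, cs.simple i = QuotientGroup.mk (⟨(e i : K), P.subset (e i).2⟩ : P.N))

/-- **The system of a group of type preserving automorphisms.** -/
noncomputable def sys (hZ : Subgroup.center K = ⊥) (hidx : ¬ p ∣ (jj G hG).range.index)
    (htp : ∀ α ∈ G, ∀ x y, (bldg P e cs hcs).δ (θ S α x) (θ S α y) = (bldg P e cs hcs).δ x y) :
    letI := gact S G
    FixBN.Sys (bldg P e cs hcs) ↥G p :=
  letI := gact S G
  { iso := fun g x y => htp g g.2 x y
    U := fun x => (UU P U x).map (jj G hG)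
    fix := by
      rintro x _ ⟨u, hu, rfl⟩
      exact (jj_smul S G hG u x).trans (OfBN.fix S hu)
    isP := fun x => (OfBN.isP S x).map _
    max := by
      intro x V hV hfix
      have hle := le_range G hG hidx hV
      have h1 := OfBN.max S x (V.comap (jj G hG)) (hV.comap_of_injective _ (jj_injective G hG hZ)) (by
        intro v hv
        exact (jj_smul S G hG v x).symm.trans (hfix _ hv))
      intro v hv
      obtain ⟨g, rfl⟩ := hle hv
      exact ⟨g, h1 hv, rfl⟩
    trans := by
      intro x y z h1 h2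
      obtain ⟨u, hu, huy⟩ := (OfBN.sys e cs hcs S).trans x y z h1 h2
      exact ⟨jj G hG u, ⟨u, hu, rfl⟩, (jj_smul S G hG u y).trans huy⟩
    free := by
      rintro x y h _ ⟨u, hu, rfl⟩ huy
      have h1 := (OfBN.sys e cs hcs S).free x y h u hu ((jj_smul S G hG u y).symm.trans huy)
      rw [h1, map_one]
    pan := by
      rintro x y i h _ ⟨u, hu, rfl⟩ huy z hz
      have h1 := (OfBN.sys e cs hcs S).pan x y i h u hu ((jj_smul S G hG u y).symm.trans huy) z hz
      exact (jj_smul S G hG u z).trans h1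
    exists_fix := by
      intro V hV
      have hle := le_range G hG hidx hV
      obtain ⟨x, hx⟩ := OfBN.exists_fix S (V.comap (jj G hG)) (hV.comap_of_injective _ (jj_injective G hG hZ))
      refine ⟨x, fun v hv => ?_⟩
      obtain ⟨g, rfl⟩ := hle hv
      exact (jj_smul S G hG g x).trans (hx g hv) }

include hG in
/-- transitivity -/
theorem trans_G (x y : K ⧸ P.B) : letI := gact S G; ∃ g : ↥G, g • x = y := by
  obtain ⟨g, rfl⟩ := MulAction.exists_smul_eq K x y
  exact ⟨jj G hG g, jj_smul S G hG g x⟩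

end System

end Cfsg.Agent.H330.GowAct

namespace Cfsg.Agent.H330.GowCent

open Cfsg Cfsg.Agent.Tits.Core Cfsg.Agent.Tits.Core.Bldg Cfsg.Agent.Tits.Exchange Cfsg.Agent.FixBN
  Cfsg.Agent.Tits Cfsg.Agent.H330.GowSt

section Cent

variable {I : Type*} {M : CoxeterMatrix I} {W : Type*} [Group W] {cs : CoxeterSystem M W} {C : Type*} {p : ℕ}
  [hp : Fact p.Prime] {Δ : Bldg cs C} {G : Type*} [Group G] [MulAction G C] (T : FixBN.Sys Δ G p) [Fintype I] [DecidableEq I] [Finite W] [F : OppRes.Cox cs] [Finite G] [Fintype C]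

/-- **An element of order prime to `p` which centralises `U c` fixes all chambers.** -/
theorem smul_eq_of_centralizes (hth : Δ.Thick) (ht : ∀ x y : C, ∃ g : G, g • x = y) {c : C} {x : G}
    (hx : ¬ p ∣ orderOf x) (hc : ∀ u ∈ T.U c, x * u = u * x) (e : C) : x • e = e := by
  classical
  -- `x` fixes `c`
  have hxc : x • c = c := by
    by_contra hne
    have hw : Δ.δ c (x • c) ≠ 1 := fun h => hne (Δ.eq_of_δ_eq_one h).symm
    have h2 := GowUniq.two_le_sph (S := T) hth ht c hw
    have h3 : ∀ z, Δ.δ c z = Δ.δ c (x • c) → z = x • c := by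
      intro z hz
      obtain ⟨u, hu, huz⟩ := T.exists_move (x := c) (z := x • c) (z' := z) hz.symm
      rw [← huz, ← mul_smul, ← hc u hu, mul_smul, T.fix c u hu]
    have h4 : Nat.card {z // Δ.δ c z = Δ.δ c (x • c)} ≤ 1 := by
      have : Subsingleton {z // Δ.δ c z = Δ.δ c (x • c)} :=
        ⟨fun a b => Subtype.ext ((h3 _ a.2).trans (h3 _ b.2).symm)⟩
      exact Finite.card_le_one_iff_subsingleton.2 this
    unfold GowSt.sph at h2
    omega
  have hpow : ∀ (k : ℕ) (d : C) (u : G), u ∈ T.U c → x • d = u • d → x ^ k • d = u ^ k • d := by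
    intro k d u hu hd
    have hcm : Commute x u := hc u hu
    induction k with
    | zero => rw [pow_zero, pow_zero]
    | succ k ih =>
      rw [pow_succ', mul_smul, ih, ← mul_smul, (hcm.pow_right k).eq, mul_smul, hd, ← mul_smul, ← pow_succ]
  -- `x` fixes the chambers opposite to `c`
  have hopp : ∀ d, Δ.Opp c d → x • d = d := by
    intro d hd
    have h1 : Δ.Opp c (x • d) := by
      have h := T.iso x c d
      rw [hxc] at h
      exact h.trans hd
    obtain ⟨u, hu, hud⟩ := T.trans c d (x • d) hd h1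
    have h2 := hpow (orderOf x) d u hu hud.symm
    rw [pow_orderOf_eq_one, one_smul] at h2
    have h3 := T.free c d hd (u ^ orderOf x) (pow_mem hu _) h2.symm
    have h4 : u = 1 := by
      obtain ⟨k, hk⟩ := T.isP c ⟨u, hu⟩
      have hk' : u ^ p ^ k = 1 := by simpa using congrArg Subtype.val hk
      have h5 : orderOf u ∣ Nat.gcd (orderOf x) (p ^ k) :=
        Nat.dvd_gcd (orderOf_dvd_of_pow_eq_one h3) (orderOf_dvd_of_pow_eq_one hk')
      have h6 : Nat.gcd (orderOf x) (p ^ k) = 1 :=
        Nat.Coprime.pow_right k ((Nat.Prime.coprime_iff_not_dvd hp.out).2 hx).symm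
      rw [h6, Nat.dvd_one, orderOf_eq_one_iff] at h5
      exact h5
    rw [← hud, h4, one_smul]
  -- every chamber is between `c` and a chamber opposite to `c`
  obtain ⟨d, hd⟩ := Δ.exists_δ e ((Δ.δ c e)⁻¹ * w0 cs)
  have hl : cs.length (Δ.δ c e * ((Δ.δ c e)⁻¹ * w0 cs)) =
      cs.length (Δ.δ c e) + cs.length ((Δ.δ c e)⁻¹ * w0 cs) := by
    rw [mul_inv_cancel_left]
    have h1 := F.len_mul_w0 (Δ.δ c e)⁻¹
    rw [cs.length_inv] at h1
    omega
  have hcd : Δ.Opp c d := by
    have h1 := Δ.δ_mul_of rfl hd hl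
    rw [mul_inv_cancel_left] at h1
    exact h1
  have h1 := hopp d hcd
  refine Δ.between_unique hl (x := c) (z := d) ?_ ?_ rfl hd
  · have := T.iso x c e
    rwa [hxc] at this
  · have := T.iso x e d
    rw [h1, hd] at this
    exact this

end Cent

end Cfsg.Agent.H330.GowCent
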