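import Cfsg.Agent.H330.GowBlock

/-!
# The characters of positive defect of a group of local characteristic `p` (helper330)

If `G` has local characteristic `p`, trivial centre, order divisible by `p`, every irreducible character which is not of
defect zero lies in the principal block; its central character vanishes modulo `p` at the nontrivial `p`-regular elements.
-/

set_option autoImplicit false

namespace Cfsg.Agent.H330.GowBlk

open Cfsg
open Cfsg.Agent.BpLieP.Big (LocChar)
open Cfsg.Agent.H143.ChevBlocks (eq_one_of_pow not_dvd_iff)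
open Cfsg.Agent.H330.GowBlock

variable {G : Type*} [Group G] [Finite G] {p : ℕ} [Fact p.Prime] {M : Ideal AlgInt}

theorem blockDefect_ne {ψ : IrrCharacter G} (hM : IsPModular p M) (hψ : p ∣ Nat.card G / charDegree (ψ : G → ℂ)) :
    blockDefect p (blockOf M (ψ : G → ℂ)) ≠ 0 := by
  intro h0
  have hmem := self_mem hM ψ
  have h3 : sInf ((fun χ : IrrCharacter G => (charDegree (χ : G → ℂ)).factorization p) ''
      blockOf M (ψ : G → ℂ)) ≤ (charDegree (ψ : G → ℂ)).factorization p :=
    Nat.sInf_le ⟨ψ, hmem, rfl⟩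
  have h4 : ¬ (Nat.card G).factorization p ≤ (charDegree (ψ : G → ℂ)).factorization p := by
    rw [← not_dvd_iff ψ.2]
    exact not_not.2 hψ
  unfold blockDefect at h0
  omega

/-- the `p`-regular elements centralising a Sylow `p`-subgroup -/
theorem eq_one_of_cent (hdvd : p ∣ Nat.card G) (hloc : LocChar p G) (P : Sylow p G) {c : G} (hc : ¬ p ∣ orderOf c)
    (hcP : c ∈ Subgroup.centralizer ((P : Subgroup G) : Set G)) : c = 1 := by
  by_contra hc1
  have h1 := dvd_index hdvd hloc hc hc1
  have h2 : (P : Subgroup G) ≤ Subgroup.centralizer ({c} : Set G) := by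
    intro y hy
    rw [Subgroup.mem_centralizer_singleton_iff]
    exact Subgroup.mem_centralizer_iff.1 hcP y hy
  exact P.not_dvd_index (h1.trans (Subgroup.index_dvd_of_le h2))

/-- **The characters of positive defect lie in the principal block.** -/
theorem mem_principal (hM : IsPModular p M) (hdvd : p ∣ Nat.card G) (hloc : LocChar p G)
    (hcen : Subgroup.center G = ⊥) (ψ : IrrCharacter G) (hψ : p ∣ Nat.card G / charDegree (ψ : G → ℂ)) :
    ψ ∈ principalBlock M G := by
  have hp : p.Prime := Fact.out
  obtain ⟨P⟩ : Nonempty (Sylow p G) := inferInstance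
  have hfull := H142.FullBlocks.card_full hM P (fun c hc hcP => by
    rw [eq_one_of_cent hdvd hloc P hc hcP]
    exact one_mem _) (fun z hz => by
    rw [hcen, Subgroup.mem_bot] at hz
    rw [hz, orderOf_one]
    exact hp.one_lt.ne' ∘ Nat.dvd_one.1)
  rw [hcen, Subgroup.card_bot, Nat.card_eq_one_iff_unique] at hfull
  obtain ⟨⟨hu⟩, -⟩ := hfull
  have key : ∀ χ : IrrCharacter G, p ∣ Nat.card G / charDegree (χ : G → ℂ) →
      IsDefectGroup p M (blockOf M (χ : G → ℂ)) (P : Subgroup G) := by
    intro χ hχ
    have hB : IsPBlock M (blockOf M (χ : G → ℂ)) := ⟨χ, rfl⟩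
    rw [← H142.FullBlocks.blockDefect_eq_iff hM P hB]
    exact (H400.BlockDefect.defect_of_local hloc hM hB).resolve_left (blockDefect_ne hM hχ)
  have htriv : p ∣ Nat.card G / charDegree ((triv G : IrrCharacter G) : G → ℂ) := by
    have h6 : charDegree ((triv G : IrrCharacter G) : G → ℂ) = 1 :=
      Blocks.Basic.charDegree_of_eq (by simp [triv])
    rw [h6, Nat.div_one]
    exact hdvd
  have h1 := hu ⟨blockOf M (ψ : G → ℂ), ⟨ψ, rfl⟩, key ψ hψ⟩
    ⟨blockOf M ((triv G : IrrCharacter G) : G → ℂ), ⟨triv G, rfl⟩, key _ htriv⟩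
  have h2 : blockOf M (ψ : G → ℂ) = principalBlock M G := congrArg Subtype.val h1
  rw [← h2]
  exact self_mem hM ψ

/-- **The central characters of the characters of positive defect vanish modulo `p` at the nontrivial `p`-regular
elements.** -/
theorem centralChar_mem (hM : IsPModular p M) (hdvd : p ∣ Nat.card G) (hloc : LocChar p G)
    (hcen : Subgroup.center G = ⊥) (ψ : IrrCharacter G) (hψ : p ∣ Nat.card G / charDegree (ψ : G → ℂ)) {z : G}
    (hz : z ≠ 1) (hzr : ¬ p ∣ orderOf z) : MemLocalIdeal M (centralChar (ψ : G → ℂ) z) := by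
  have := Blocks.Local.isPrime_of_isPModular hM
  have h1 := mem_principal hM hdvd hloc hcen ψ hψ z
  have h2 : MemLocalIdeal M (centralChar (fun _ : G => (1 : ℂ)) z) := by
    unfold centralChar
    rw [mul_one, div_one]
    exact (Blocks.Local.memLocalIdeal_natCast_iff hM _).2 (dvd_index hdvd hloc hzr hz)
  have h3 := Blocks.Local.memLocalIdeal_sub h2 h1
  rwa [sub_sub_cancel] at h3

end Cfsg.Agent.H330.GowBlk
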