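import Cfsg.Agent.H330.GowBlk
import Cfsg.Agent.H330.GowLoc
import Cfsg.Agent.CharactersDeep.ExtUnique
import Cfsg.Agent.CharactersDeep.AbelianQuotient
import Cfsg.Agent.CharactersDeep.PrimeIndex
import Cfsg.Agent.S0887
import Cfsg.Agent.Characters.ClassMul
import Cfsg.Agent.CharactersDeep.ModCongr
import Cfsg.Agent.Blocks.CyclicUpper

/-!
# Gow's theorem in a coset (helper330)

`N` a normal subgroup of prime index `ℓ ≠ p` of `G`, `G` of local characteristic `p` with trivial centre, `N` with only one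
irreducible character of defect zero, `χ` a character of `G` with the values `± |C(g)|_p` at the `p`-regular elements.
If `x ∈ N` and `y ∉ N` have centralisers (in `G`) of order prime to `p` and `z` is a `p`-regular element of the coset `y N`
then `z` is the product of a conjugate of `x` and a conjugate of `y`.
-/

set_option autoImplicit false
set_option linter.unusedSectionVars false

namespace Cfsg.Agent.H330.GowCoset

open Cfsg Subgroup
open Cfsg.Agent.BpLieP.Big (LocChar)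
open Cfsg.Agent.H143.ChevBlocks (not_dvd_iff)
open Cfsg.Agent.Characters.Core
open scoped ComplexConjugate

section Clifford

variable {G : Type*} [Group G] [Finite G] {p : ℕ} [hp : Fact p.Prime] (N : Subgroup G) [hN : N.Normal]

theorem factorization_eq (hidx : ¬ p ∣ N.index) :
    (Nat.card G).factorization p = (Nat.card ↥N).factorization p := by
  rw [← N.card_mul_index, Nat.factorization_mul Nat.card_pos.ne' Subgroup.index_ne_zero_of_finite]
  simp [Nat.factorization_eq_zero_of_not_dvd hidx]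

theorem constituent (hidx : ¬ p ∣ N.index) (ψ : IrrCharacter G) (hψ : ¬ p ∣ Nat.card G / charDegree (ψ : G → ℂ))
    [Fintype ↥N] (η : IrrCharacter ↥N) (h : classInner (fun n : N => (ψ : G → ℂ) n) (η : N → ℂ) ≠ 0) :
    ¬ p ∣ Nat.card ↥N / charDegree (η : N → ℂ) := by
  have := Fintype.ofFinite G
  rw [not_dvd_iff ψ.2, factorization_eq N hidx] at hψ
  rw [not_dvd_iff η.2]
  obtain ⟨hd, hi⟩ := Cfsg.Agent.S0887.result N (ψ : G → ℂ) ψ.2 (η : N → ℂ) η.2 h (charDegree (ψ : G → ℂ))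
    (charDegree (η : N → ℂ)) (Blocks.Basic.irr_one_eq_charDegree ψ.2) (Blocks.Basic.irr_one_eq_charDegree η.2)
  obtain ⟨k, hk⟩ := hd
  have hη0 : 0 < charDegree (η : N → ℂ) := (Cfsg.Agent.S0914.degree_spec η).2.1
  have hψ0 : 0 < charDegree (ψ : G → ℂ) := (Cfsg.Agent.S0914.degree_spec ψ).2.1
  rw [hk, Nat.mul_div_cancel_left _ hη0] at hi
  have hk0 : k ≠ 0 := by
    rintro rfl
    rw [mul_zero] at hk
    omega
  have h1 : k.factorization p = 0 := Nat.factorization_eq_zero_of_not_dvd fun h => hidx (h.trans hi)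
  rw [hk, Nat.factorization_mul hη0.ne' hk0, Finsupp.add_apply, h1, add_zero] at hψ
  exact hψ

/-- **The restriction of a character of defect zero.** -/
theorem restrict_eq {ℓ : ℕ} (hℓ : ℓ.Prime) (hNℓ : N.index = ℓ) (hpℓ : p ≠ ℓ)
    (huniq : ∀ θ θ' : IrrCharacter ↥N, ¬ p ∣ Nat.card ↥N / charDegree (θ : N → ℂ) →
      ¬ p ∣ Nat.card ↥N / charDegree (θ' : N → ℂ) → θ = θ')
    (ψ : IrrCharacter G) (hψ : ¬ p ∣ Nat.card G / charDegree (ψ : G → ℂ)) :
    ∃ θ : IrrCharacter ↥N, ¬ p ∣ Nat.card ↥N / charDegree (θ : N → ℂ) ∧ ∀ n : N, (ψ : G → ℂ) n = (θ : N → ℂ) n := by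
  classical
  have := Fintype.ofFinite G
  have : Fintype ↥N := Fintype.ofFinite _
  have : Fintype (IrrCharacter ↥N) := @Fintype.ofFinite _ finite_irr
  have hidx : ¬ p ∣ N.index := by
    rw [hNℓ]
    exact fun h => hpℓ ((Nat.prime_dvd_prime_iff_eq hp.out hℓ).1 h)
  set f : ↥N → ℂ := fun n : N => (ψ : G → ℂ) n with hf
  have hfc : IsCharacter ↥N f := isCharacter_comp N.subtype (isIrr_isCharacter ψ.2)
  have hcf := isCharacter_isClassFunction hfc
  have hsum := classFunction_eq_sum hcf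
  -- there is a constituent
  obtain ⟨θ, hθ⟩ : ∃ θ : IrrCharacter ↥N, classInner f (θ : N → ℂ) ≠ 0 := by
    by_contra hcon
    push Not at hcon
    have h1 : f = 0 := classFunction_eq_zero hcf fun χ hχ => hcon ⟨χ, hχ⟩
    have h2 : f 1 = 0 := by rw [h1]; rfl
    exact isIrr_apply_one_ne_zero ψ.2 h2
  have hθz := constituent N hidx ψ hψ θ hθ
  have hfθ : f = classInner f (θ : N → ℂ) • (θ : N → ℂ) := by
    have h0 : ∑ χ : IrrCharacter ↥N, classInner f (χ : N → ℂ) • (χ : N → ℂ) = classInner f (θ : N → ℂ) • (θ : N → ℂ) := by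
      refine Finset.sum_eq_single θ (fun η _ hη => ?_) (fun h => absurd (Finset.mem_univ _) h)
      by_contra hne
      have h1 : classInner f (η : N → ℂ) ≠ 0 := fun h => hne (by rw [h, zero_smul])
      exact hη (huniq _ _ (constituent N hidx ψ hψ η h1) hθz)
    exact hsum.trans h0
  obtain ⟨m, hm⟩ := classInner_isNat hfc (isIrr_isCharacter θ.2)
  have hnorm : classInner f f = (m : ℂ) ^ 2 := by
    rw [hfθ, hm, classInner_smul_left, classInner_smul_right, classInner_irr_self θ.2]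
    simp
    ring
  have hm1 : m = 1 := by
    rcases CharactersDeep.PrimeIndex.norm_restrict_prime_index N hℓ hNℓ ψ.2 with h | h
    · have h1 : (m : ℂ) ^ 2 = 1 := by rw [← hnorm]; exact h
      have h2 : m ^ 2 = 1 := by exact_mod_cast h1
      exact (pow_eq_one_iff.1 h2).resolve_right (by norm_num)
    · exfalso
      have h1 : (m : ℂ) ^ 2 = ℓ := by rw [← hnorm]; exact h
      have h2 : m ^ 2 = ℓ := by exact_mod_cast h1
      rw [← h2] at hℓ
      exact Nat.Prime.not_prime_pow (le_refl 2) hℓ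
  refine ⟨θ, hθz, fun n => ?_⟩
  have h1 := congrFun hfθ n
  rw [hm, hm1, Nat.cast_one, one_smul] at h1
  exact h1

end Clifford

section Gow

variable {G : Type*} [Group G] [Finite G] {p : ℕ} [hp : Fact p.Prime] (N : Subgroup G) [hN : N.Normal]

/-- **Gow's theorem in a coset.** -/
theorem coset {ℓ : ℕ} (hℓ : ℓ.Prime) (hNℓ : N.index = ℓ) (hpℓ : p ≠ ℓ) (hdvd : p ∣ Nat.card G)
    (hloc : LocChar p G) (hcen : center G = ⊥)
    (huniq : ∀ θ θ' : IrrCharacter ↥N, ¬ p ∣ Nat.card ↥N / charDegree (θ : N → ℂ) →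
      ¬ p ∣ Nat.card ↥N / charDegree (θ' : N → ℂ) → θ = θ')
    {χ : G → ℂ} (hχ : IsIrrCharacter G χ) (hχ1 : χ 1 = ((p ^ (Nat.card G).factorization p : ℕ) : ℂ))
    (hχv : ∀ g : G, ¬ p ∣ orderOf g →
        χ g = ((p ^ (Nat.card ↥(Subgroup.centralizer ({g} : Set G))).factorization p : ℕ) : ℂ) ∨
        χ g = -((p ^ (Nat.card ↥(Subgroup.centralizer ({g} : Set G))).factorization p : ℕ) : ℂ))
    {x y z : G} (hxN : x ∈ N) (hyN : y ∉ N) (hyz : y * z⁻¹ ∈ N)
    (hx : ¬ p ∣ Nat.card ↥(centralizer ({x} : Set G))) (hy : ¬ p ∣ Nat.card ↥(centralizer ({y} : Set G)))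
    (hz : z ≠ 1) (hzr : ¬ p ∣ orderOf z) : ∃ g h : G, g * x * g⁻¹ * (h * y * h⁻¹) = z := by
  classical
  have hpp : p.Prime := Fact.out
  have : Fintype (IrrCharacter G) := @Fintype.ofFinite _ finite_irr
  have : Fintype G := Fintype.ofFinite G
  obtain ⟨M, hM⟩ := Blocks.ExistsModular.exists_isPModular hpp
  have hMp := Blocks.Local.isPrime_of_isPModular hM
  have hidx : ¬ p ∣ N.index := by
    rw [hNℓ]
    exact fun h => hpℓ ((Nat.prime_dvd_prime_iff_eq hp.out hℓ).1 h)
  let st : IrrCharacter G := ⟨χ, hχ⟩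
  have hdeg : charDegree χ = p ^ (Nat.card G).factorization p := Blocks.Basic.charDegree_of_eq hχ1
  have hst : ¬ p ∣ Nat.card G / charDegree (st : G → ℂ) := by
    rw [not_dvd_iff st.2]
    show _ ≤ (charDegree χ).factorization p
    rw [hdeg, hpp.factorization_pow]
    simp
  by_contra hcon
  push Not at hcon
  have hcount : Nat.card {q : G × G // q.1 * x * q.1⁻¹ * (q.2 * y * q.2⁻¹) = z} = 0 := by
    have : IsEmpty {q : G × G // q.1 * x * q.1⁻¹ * (q.2 * y * q.2⁻¹) = z} := ⟨fun q => hcon _ _ q.2⟩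
    exact Nat.card_of_isEmpty
  have hsum := Characters.ClassMul.card_conj_mul_conj x y z
  rw [hcount, Nat.cast_zero] at hsum
  have hc0 : (Nat.card G : ℂ) ≠ 0 := by exact_mod_cast Nat.card_pos.ne'
  have hsum0 := (mul_eq_zero.1 hsum.symm).resolve_left hc0
  have hsum1 : ∑ ψ : IrrCharacter G, (ψ : G → ℂ) x * (ψ : G → ℂ) y * centralChar (ψ : G → ℂ) z⁻¹ = 0 := by
    have h1 : ∀ ψ : IrrCharacter G, (ψ : G → ℂ) x * (ψ : G → ℂ) y * centralChar (ψ : G → ℂ) z⁻¹ =
        ((centralizer ({z⁻¹} : Set G)).index : ℂ) *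
          ((ψ : G → ℂ) x * (ψ : G → ℂ) y * conj ((ψ : G → ℂ) z) / (ψ : G → ℂ) 1) := by
      intro ψ
      unfold centralChar
      rw [Blocks.CyclicUpper.conj_irr ψ z]
      ring
    rw [Finset.sum_congr rfl fun ψ _ => h1 ψ, ← Finset.mul_sum, hsum0, mul_zero]
  have hzi : z⁻¹ ≠ 1 := inv_ne_one.2 hz
  have hzri : ¬ p ∣ orderOf z⁻¹ := by rwa [orderOf_inv]
  have hmem : ∀ ψ : IrrCharacter G, p ∣ Nat.card G / charDegree (ψ : G → ℂ) →
      MemLocalIdeal M ((ψ : G → ℂ) x * (ψ : G → ℂ) y * centralChar (ψ : G → ℂ) z⁻¹) := by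
    intro ψ hψ
    refine Blocks.Local.memLocalIdeal_mul_left ?_
      (GowBlk.centralChar_mem hM hdvd hloc hcen ψ hψ hzi hzri)
    exact Blocks.Local.memLocalRing_of_isIntegral
      ((CharactersDeep.ModCongr.isIntegral_irr ψ.2 x).mul (CharactersDeep.ModCongr.isIntegral_irr ψ.2 y))
  -- the value at the elements with centraliser of order prime to `p`
  have hval : ∀ w : G, ¬ p ∣ Nat.card ↥(centralizer ({w} : Set G)) → χ w = 1 ∨ χ w = -1 := by
    intro w hw
    have h1 : ¬ p ∣ orderOf w := by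
      intro h
      apply hw
      refine h.trans ?_
      have h2 : w ∈ centralizer ({w} : Set G) := mem_centralizer_singleton_iff.2 rfl
      rw [← orderOf_mk w h2]
      exact orderOf_dvd_natCard _
    have h3 := hχv w h1
    rw [Nat.factorization_eq_zero_of_not_dvd hw, pow_zero, Nat.cast_one] at h3
    exact h3
  have hy0 : χ y ≠ 0 := by
    rcases hval y hy with h | h <;> rw [h] <;> norm_num
  -- the characters of defect zero
  have hab : ∀ a b : G, a * b * a⁻¹ * b⁻¹ ∈ N := by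
    intro a b
    have hfact : Fact (Nat.card (G ⧸ N)).Prime := ⟨by
      have : Nat.card (G ⧸ N) = ℓ := hNℓ
      rwa [this]⟩
    have hcyc : IsCyclic (G ⧸ N) := isCyclic_of_prime_card rfl
    have h1 : (QuotientGroup.mk (a * b * a⁻¹ * b⁻¹) : G ⧸ N) = 1 := by
      have h2 := hcyc.isMulCommutative.is_comm.comm (QuotientGroup.mk a : G ⧸ N) (QuotientGroup.mk b)
      rw [QuotientGroup.mk_mul, QuotientGroup.mk_mul, QuotientGroup.mk_mul, QuotientGroup.mk_inv,
        QuotientGroup.mk_inv, h2]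
      group
    exact (QuotientGroup.eq_one_iff _).1 h1
  obtain ⟨Λ, hΛ, hΛc, -, -⟩ := CharactersDeep.AbelianQuotient.exists_linear_dual N hab
  obtain ⟨θ, hθz, hθ⟩ := restrict_eq N hℓ hNℓ hpℓ huniq st hst
  -- the twists
  let tw : (G →* ℂˣ) → IrrCharacter G := fun l => ⟨_, CharactersDeep.AbelianQuotient.isIrr_linear_mul l hχ⟩
  have htw : ∀ (l : G →* ℂˣ) (g : G), (tw l : G → ℂ) g = (l g : ℂ) * χ g := fun l g => rfl
  set D0 : Finset (IrrCharacter G) := Finset.univ.filter (fun ψ : IrrCharacter G =>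
    ¬ p ∣ Nat.card G / charDegree (ψ : G → ℂ)) with hD0
  have hD0eq : D0 = Λ.image tw := by
    ext ψ
    rw [hD0, Finset.mem_filter, Finset.mem_image]
    constructor
    · rintro ⟨-, hψ⟩
      obtain ⟨θ', hθz', hθ'⟩ := restrict_eq N hℓ hNℓ hpℓ huniq ψ hψ
      obtain rfl := huniq θ θ' hθz hθz'
      obtain ⟨β, hβ, hβ'⟩ := CharactersDeep.ExtUnique.exists_hom_mul_of_restrict_eq N (isIrr_isCharacter st.2)
        (isIrr_isCharacter ψ.2) θ.2 hθ hθ'
      refine ⟨β, (hΛ β).2 hβ, ?_⟩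
      apply Subtype.ext
      funext g
      rw [htw, mul_comm]
      exact (hβ' g).symm
    · rintro ⟨l, -, rfl⟩
      refine ⟨Finset.mem_univ _, ?_⟩
      have h1 : charDegree (tw l : G → ℂ) = charDegree χ := by
        unfold charDegree
        rw [htw, map_one, Units.val_one, one_mul]
      rw [h1]
      exact hst
  have hinj : Set.InjOn tw (Λ : Set (G →* ℂˣ)) := by
    intro l hl l' hl' h
    have h1 : (l y : ℂ) = l' y := by
      have h2 := congrFun (congrArg Subtype.val h) y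
      have h3 : (l y : ℂ) * χ y = (l' y : ℂ) * χ y := h2
      exact mul_right_cancel₀ hy0 h3
    have hly : l y = l' y := Units.ext h1
    -- `N` and `y` generate
    have hgen : ∀ g : G, g ∈ (l * l'⁻¹).ker := by
      have h4 : N ≤ (l * l'⁻¹).ker := by
        intro n hn
        rw [MonoidHom.mem_ker, MonoidHom.mul_apply, MonoidHom.inv_apply, (hΛ l).1 hl n hn, (hΛ l').1 hl' n hn]
        simp
      have h5 : y ∈ (l * l'⁻¹).ker := by
        rw [MonoidHom.mem_ker, MonoidHom.mul_apply, MonoidHom.inv_apply, hly, mul_inv_cancel]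
      have h6 : (l * l'⁻¹).ker.index ∣ ℓ := by
        rw [← hNℓ]
        exact Subgroup.index_dvd_of_le h4
      rcases (Nat.dvd_prime hℓ).1 h6 with h7 | h7
      · intro g
        rw [Subgroup.index_eq_one.1 h7]
        exact mem_top g
      · exfalso
        have h8 : N = (l * l'⁻¹).ker := by
          have h9 := Subgroup.relIndex_mul_index h4
          rw [h7, hNℓ] at h9
          have h10 : N.relIndex (l * l'⁻¹).ker = 1 := by
            have := hℓ.pos
            nlinarith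
          exact le_antisymm h4 (Subgroup.relIndex_eq_one.1 h10)
        rw [← h8] at h5
        exact hyN h5
    ext g
    have h4 := MonoidHom.mem_ker.1 (hgen g)
    rw [MonoidHom.mul_apply, MonoidHom.inv_apply, mul_inv_eq_one] at h4
    rw [h4]
  have hD0c : D0.card = ℓ := by
    rw [hD0eq, Finset.card_image_of_injOn hinj, hΛc, hNℓ]
  -- all contribute the same
  set cst : ℂ := χ x * χ y * centralChar χ z⁻¹ with hcst
  have hsame : ∀ ψ ∈ D0, (ψ : G → ℂ) x * (ψ : G → ℂ) y * centralChar (ψ : G → ℂ) z⁻¹ = cst := by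
    intro ψ hψ
    rw [hD0eq, Finset.mem_image] at hψ
    obtain ⟨l, hl, rfl⟩ := hψ
    have h1 : l x = 1 := (hΛ l).1 hl x hxN
    have h2 : l y * l z⁻¹ = 1 := by rw [← map_mul]; exact (hΛ l).1 hl _ hyz
    have h2' : (l y : ℂ) * (l z⁻¹ : ℂ) = 1 := by rw [← Units.val_mul, h2, Units.val_one]
    unfold centralChar at hcst ⊢
    rw [htw, htw, htw, htw, h1, map_one, Units.val_one, one_mul, one_mul, hcst]
    calc χ x * ((l y : ℂ) * χ y) * (((centralizer ({z⁻¹} : Set G)).index : ℂ) * ((l z⁻¹ : ℂ) * χ z⁻¹) / χ 1)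
        = ((l y : ℂ) * (l z⁻¹ : ℂ)) * (χ x * χ y * (((centralizer ({z⁻¹} : Set G)).index : ℂ) * χ z⁻¹ / χ 1)) := by
          ring
      _ = _ := by rw [h2', one_mul]
  have hstm : MemLocalIdeal M ((ℓ : ℂ) * cst) := by
    have h1 : (ℓ : ℂ) * cst =
        - ∑ ψ ∈ Finset.univ.filter (fun ψ : IrrCharacter G => ¬ ¬ p ∣ Nat.card G / charDegree (ψ : G → ℂ)),
          (ψ : G → ℂ) x * (ψ : G → ℂ) y * centralChar (ψ : G → ℂ) z⁻¹ := by
      rw [eq_neg_iff_add_eq_zero, ← hsum1, ← Finset.sum_filter_add_sum_filter_not Finset.univ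
        (fun ψ : IrrCharacter G => ¬ p ∣ Nat.card G / charDegree (ψ : G → ℂ))]
      congr 1
      rw [Finset.sum_congr rfl hsame, Finset.sum_const, hD0c, nsmul_eq_mul]
    rw [h1]
    refine Blocks.Local.memLocalIdeal_neg (Blocks.Local.memLocalIdeal_sum fun ψ hψ => ?_)
    exact hmem ψ (not_not.1 (Finset.mem_filter.1 hψ).2)
  obtain ⟨m, hm, hω⟩ : ∃ m : ℕ, ¬ p ∣ m ∧ (centralChar χ z⁻¹ = (m : ℂ) ∨ centralChar χ z⁻¹ = -(m : ℂ)) := by
    have h1 := (centralizer ({z⁻¹} : Set G)).card_mul_index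
    have hi0 : (centralizer ({z⁻¹} : Set G)).index ≠ 0 := Subgroup.index_ne_zero_of_finite
    have hfac : (Nat.card G).factorization p = (Nat.card ↥(centralizer ({z⁻¹} : Set G))).factorization p +
        (centralizer ({z⁻¹} : Set G)).index.factorization p := by
      rw [← h1, Nat.factorization_mul Nat.card_pos.ne' hi0]
      rfl
    refine ⟨ordCompl[p] (centralizer ({z⁻¹} : Set G)).index, Nat.not_dvd_ordCompl hpp hi0, ?_⟩
    have h2 : ((centralizer ({z⁻¹} : Set G)).index : ℂ) =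
        (p : ℂ) ^ (centralizer ({z⁻¹} : Set G)).index.factorization p *
          ((ordCompl[p] (centralizer ({z⁻¹} : Set G)).index : ℕ) : ℂ) := by
      rw [← Nat.cast_pow, ← Nat.cast_mul, Nat.ordProj_mul_ordCompl_eq_self]
    have hp0 : (p : ℂ) ≠ 0 := by exact_mod_cast hpp.ne_zero
    unfold centralChar
    rcases hχv z⁻¹ hzri with h3 | h3
    · left
      rw [h3, hχ1, hfac, h2, pow_add, Nat.cast_mul, Nat.cast_pow, Nat.cast_pow]
      field_simp
    · right
      rw [h3, hχ1, hfac, h2, pow_add, Nat.cast_mul, Nat.cast_pow, Nat.cast_pow]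
      field_simp
  have hmm : MemLocalIdeal M ((ℓ * m : ℕ) : ℂ) := by
    have h1 : MemLocalIdeal M ((ℓ : ℂ) * (χ x * χ y * centralChar χ z⁻¹)) := hstm
    push_cast
    rcases hval x hx with h2 | h2 <;> rcases hval y hy with h3 | h3 <;> rcases hω with h4 | h4 <;>
      rw [h2, h3, h4] at h1 <;> simpa [Blocks.Local.memLocalIdeal_neg_iff] using h1
  have h1 := (Blocks.Local.memLocalIdeal_natCast_iff hM _).1 hmm
  rcases hpp.dvd_mul.1 h1 with h | h
  · exact hpℓ ((Nat.prime_dvd_prime_iff_eq hpp hℓ).1 h)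
  · exact hm h

end Gow

end Cfsg.Agent.H330.GowCoset
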