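import Cfsg.Agent.H330.GowThree
import Cfsg.Agent.Mrg.Omega.ML.Ex.Typ.List
import Cfsg.Agent.H862.Spr.ULTwo

/-!
# Outer automorphisms of order three and two primes which generate (helper330, S3938)

`K` as in `GowThree`, `r`, `s` primes such that the elements of order `r`, `s` have centralisers of order `r`, `s`, the only
subgroup of order divisible by `r` and `s` is `K`, and the normaliser of a Sylow `s`-subgroup induces a group of
automorphisms of index `2`. Then for every outer automorphism `a` with `a ^ 3 = 1` there is `x` such that `K` is the only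
`a`-invariant subgroup containing `x`.
-/

set_option autoImplicit false
set_option linter.unusedSectionVars false

namespace Cfsg.Agent.H330.GowOut

open Cfsg Cfsg.Agent.LieExceptional.BNPairCore Cfsg.Agent.Tits.Core Cfsg.Agent.Tits.Core.Bldg Cfsg.Agent.Tits.OfBN
  Cfsg.Agent.Schreier.BNSch Cfsg.Agent.Tits.OppRes Cfsg.Agent.FixBN Cfsg.Agent.FixBN.OfBN Cfsg.Agent.FixBN.TwOfBN
open Cfsg.Agent.H330.GowAct Cfsg.Agent.H330.GowThree
open Cfsg.Agent.BpLieP.Big (LocChar)

variable {K : Type*} [Group K] [Finite K]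

theorem range_normal : ((MulAut.conj : K →* MulAut K).range).Normal := by
  constructor
  rintro _ ⟨g, rfl⟩ α
  exact ⟨α g, (BpLieP.Big.conj_mul_eq α g).symm⟩

/-- **An element of the coset of `a` which centralises `x`.** -/
theorem exists_cent {a : MulAut K} (ha : a ^ 3 = 1) {s : ℕ} (hs : s.Prime) (hs2 : ¬ s ^ 2 ∣ Nat.card K) {x : K}
    (hx : orderOf x = s) (hidx : (Subgroup.zpowers x).normalizerMonoidHom.range.index = 2) :
    ∃ c : MulAut K, c * a⁻¹ ∈ (MulAut.conj : K →* MulAut K).range ∧ c x = x := by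
  classical
  have := Fact.mk hs
  have key : ∀ x : K, orderOf x = s → ∃ P : Sylow s K, (P : Subgroup K) = Subgroup.zpowers x := by
    intro x hx
    have hPG : IsPGroup s (Subgroup.zpowers x) := IsPGroup.of_card (n := 1) (by rw [Nat.card_zpowers, hx, pow_one])
    obtain ⟨P, hP'⟩ := hPG.exists_le_sylow
    refine ⟨P, (Subgroup.eq_of_le_of_card_ge hP' ?_).symm⟩
    obtain ⟨k, hk⟩ := IsPGroup.iff_card.1 P.2
    have h1 : k ≤ 1 := by
      by_contra hk1
      exact hs2 (((pow_dvd_pow s (by omega : 2 ≤ k)).trans (by rw [← hk])).trans (Subgroup.card_subgroup_dvd_card _))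
    rw [hk, Nat.card_zpowers, hx]
    exact (Nat.pow_le_pow_right hs.pos h1).trans (by rw [pow_one])
  have hax : orderOf (a x) = s := by rw [← hx]; exact MulEquiv.orderOf_eq a x
  obtain ⟨P, hP⟩ := key x hx
  obtain ⟨Q, hQ⟩ := key (a x) hax
  obtain ⟨k, hk⟩ := MulAction.exists_smul_eq K Q P
  obtain ⟨g, hg⟩ : ∃ g : MulAut K, g = MulAut.conj k * a := ⟨_, rfl⟩
  have hgx : g x ∈ Subgroup.zpowers x := by
    rw [← hP, ← hk, Sylow.coe_subgroup_smul, hQ, hg]
    exact ⟨a x, Subgroup.mem_zpowers _, rfl⟩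
  have hmap : (Subgroup.zpowers x).map g.toMonoidHom = Subgroup.zpowers x := by
    refine Subgroup.eq_of_le_of_card_ge ?_ ?_
    · rw [MonoidHom.map_zpowers, Subgroup.zpowers_le]
      exact hgx
    · rw [MonoidHom.map_zpowers, Nat.card_zpowers, Nat.card_zpowers]
      exact (MulEquiv.orderOf_eq g x).ge
  let φ : MulAut ↥(Subgroup.zpowers x) := (g.subgroupMap (Subgroup.zpowers x)).trans (MulEquiv.subgroupCongr hmap)
  have hφ : ∀ y : ↥(Subgroup.zpowers x), ((φ y : ↥(Subgroup.zpowers x)) : K) = g y := fun y => rfl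
  obtain ⟨n, hn⟩ := Subgroup.sq_mem_of_index_two hidx φ
  have h1 : (n : K) * x * (n : K)⁻¹ = g (g x) := by
    have h2 := congrArg (fun ψ : MulAut ↥(Subgroup.zpowers x) => ((ψ ⟨x, Subgroup.mem_zpowers x⟩ :
      ↥(Subgroup.zpowers x)) : K)) hn
    simp only [pow_two, MulAut.mul_apply, hφ] at h2
    rw [← h2]
    rfl
  refine ⟨(g * g)⁻¹ * MulAut.conj (n : K), ?_, ?_⟩
  · have := range_normal (K := K)
    rw [← QuotientGroup.eq_one_iff]
    have h3 : ∀ w : K, (QuotientGroup.mk (MulAut.conj w) : MulAut K ⧸ (MulAut.conj : K →* MulAut K).range) = 1 :=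
      fun w => (QuotientGroup.eq_one_iff _).2 ⟨w, rfl⟩
    have h4 : (QuotientGroup.mk a : MulAut K ⧸ (MulAut.conj : K →* MulAut K).range) ^ 3 = 1 := by
      rw [← QuotientGroup.mk_pow, ha]; rfl
    rw [hg]
    simp only [QuotientGroup.mk_mul, QuotientGroup.mk_inv, h3, one_mul, mul_one]
    rw [← inv_inj, inv_one, ← h4]
    group
  · rw [MulAut.mul_apply, MulAut.conj_apply, h1]
    exact MulAut.inv_apply_self K (g * g) x

/-- an element of the coset of `a` whose cube is inner of order `s` -/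
theorem exists_y (hZ : Subgroup.center K = ⊥) {a : MulAut K} (ha : a ^ 3 = 1) {s : ℕ} (hs : s.Prime) (hs3 : s ≠ 3)
    {x : K} (hx : orderOf x = s) (hC : Nat.card ↥(Subgroup.centralizer ({x} : Set K)) ∣ s) {c : MulAut K}
    (hca : c * a⁻¹ ∈ (MulAut.conj : K →* MulAut K).range) (hc : c x = x) :
    ∃ (y : MulAut K) (w : K), y * a⁻¹ ∈ (MulAut.conj : K →* MulAut K).range ∧ y ^ 3 = MulAut.conj w ∧ orderOf w = s := by
  have hn := range_normal (K := K)
  have hinj := BpLieP.Big.conj_injective hZ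
  have hcx : c * MulAut.conj x = MulAut.conj x * c := by
    have h1 := BpLieP.Big.conj_mul_eq c x
    rw [hc, mul_inv_eq_iff_eq_mul] at h1
    exact h1
  have h3 : c ^ 3 ∈ (MulAut.conj : K →* MulAut K).range := by
    rw [← QuotientGroup.eq_one_iff] at hca ⊢
    rw [QuotientGroup.mk_mul, QuotientGroup.mk_inv, mul_inv_eq_one] at hca
    rw [QuotientGroup.mk_pow, hca, ← QuotientGroup.mk_pow, ha]
    rfl
  obtain ⟨w0, hw0⟩ := h3
  by_cases h1 : w0 = 1
  · refine ⟨MulAut.conj x * c, x ^ 3, ?_, ?_, ?_⟩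
    · rw [mul_assoc]
      exact mul_mem ⟨x, rfl⟩ hca
    · have h4 : Commute (MulAut.conj x) c := hcx.symm
      rw [h4.mul_pow, ← hw0, h1, map_one, mul_one, map_pow]
    · rw [Nat.Coprime.orderOf_pow, hx]
      rw [hx]
      exact (Nat.coprime_primes hs Nat.prime_three).2 hs3
  · refine ⟨c, w0, hca, hw0.symm, ?_⟩
    have h4 : x * w0 = w0 * x := by
      apply hinj
      rw [map_mul, map_mul, hw0]
      exact (Commute.pow_right (show Commute (MulAut.conj x) c from hcx.symm) 3).eq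
    have h5 : w0 ∈ Subgroup.centralizer ({x} : Set K) := by
      rw [Subgroup.mem_centralizer_singleton_iff]
      exact h4.symm
    have h6 := (orderOf_dvd_natCard (⟨w0, h5⟩ : ↥(Subgroup.centralizer ({x} : Set K)))).trans hC
    rw [Subgroup.orderOf_mk] at h6
    rcases (Nat.dvd_prime hs).1 h6 with h7 | h7
    · exact absurd (orderOf_eq_one_iff.1 h7) h1
    · exact h7

section Cent

variable {p : ℕ} [hp : Fact p.Prime]

/-- centralisers of order prime to `p` in the bigger group -/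
theorem not_dvd_cent (hZ : Subgroup.center K = ⊥) (G : Subgroup (MulAut K))
    (hG : (MulAut.conj : K →* MulAut K).range ≤ G) (hidx : ¬ p ∣ (jj G hG).range.index) {y : ↥G} {n : ℕ} {w : K}
    (hy : y ^ n = jj G hG w) (hw : ¬ p ∣ Nat.card ↥(Subgroup.centralizer ({w} : Set K))) :
    ¬ p ∣ Nat.card ↥(Subgroup.centralizer ({y} : Set ↥G)) := by
  intro hdvd
  apply hw
  have hinj := jj_injective G hG hZ
  obtain ⟨g, hg⟩ := exists_prime_orderOf_dvd_card' p hdvd
  have hgo : orderOf (g : ↥G) = p := by rw [Subgroup.orderOf_coe, hg]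
  have hgp : IsPGroup p (Subgroup.zpowers (g : ↥G)) := IsPGroup.of_card (n := 1) (by
    rw [Nat.card_zpowers, hgo, pow_one])
  obtain ⟨k, hk⟩ := GowLoc.le_of_isP (jj G hG).range hidx hgp (Subgroup.mem_zpowers _)
  have h1 : Commute (g : ↥G) y := Subgroup.mem_centralizer_singleton_iff.1 g.2
  have h2 : k * w = w * k := by
    apply hinj
    rw [map_mul, map_mul, hk, ← hy]
    exact (h1.pow_right n).eq
  have h3 : k ∈ Subgroup.centralizer ({w} : Set K) := Subgroup.mem_centralizer_singleton_iff.2 h2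
  have h4 : orderOf k = p := by
    rw [← orderOf_injective (jj G hG) hinj, hk, hgo]
  have h5 := orderOf_dvd_natCard (⟨k, h3⟩ : ↥(Subgroup.centralizer ({w} : Set K)))
  rwa [Subgroup.orderOf_mk, h4] at h5

end Cent

section Main

variable {P : Cfsg.BNPair K} {p : ℕ} [hp : Fact p.Prime] {U : Subgroup K} (S : Split P p U)

include S in
/-- **Outer automorphisms of order three.** -/
theorem body (hp3 : p ≠ 3) (hdvd : p ∣ Nat.card K) (hZ : Subgroup.center K = ⊥) (hloc : LocChar p K)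
    (huniq : ∀ θ θ' : IrrCharacter K, ¬ p ∣ Nat.card K / charDegree (θ : K → ℂ) →
      ¬ p ∣ Nat.card K / charDegree (θ' : K → ℂ) → θ = θ')
    [hN : ((P.B ⊓ P.N).subgroupOf P.N).Normal] (hrig : Rigid P) {r s : ℕ} (hr : r.Prime) (hs : s.Prime) (hpr : p ≠ r)
    (hps : p ≠ s) (hs3 : s ≠ 3) (hCr : ∀ x : K, orderOf x = r → Nat.card ↥(Subgroup.centralizer ({x} : Set K)) ∣ r)
    (hCs : ∀ x : K, orderOf x = s → Nat.card ↥(Subgroup.centralizer ({x} : Set K)) ∣ s) (hrK : r ∣ Nat.card K)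
    (hsK : s ∣ Nat.card K) (hs2 : ¬ s ^ 2 ∣ Nat.card K)
    (hidx : ∀ x : K, orderOf x = s → (Subgroup.zpowers x).normalizerMonoidHom.range.index = 2)
    (hK : ∀ H : Subgroup K, r ∣ Nat.card H → s ∣ Nat.card H → H = ⊤) {a : MulAut K} (ha : a ^ 3 = 1)
    (hna : a ∉ (MulAut.conj : K →* MulAut K).range) : H862.Spr.Body a := by
  classical
  have hfr := Fact.mk hr
  have hfs := Fact.mk hs
  obtain ⟨x, hx⟩ := exists_prime_orderOf_dvd_card' r hrK
  obtain ⟨t, ht⟩ := exists_prime_orderOf_dvd_card' s hsK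
  obtain ⟨c, hca, hc⟩ := exists_cent ha hs hs2 ht (hidx t ht)
  obtain ⟨y, w, hya, hyw, hw⟩ := exists_y hZ ha hs hs3 ht (hCs t ht) hca hc
  have hle := le_GG a
  have hidx3 := index_GG ha hna
  have hidxp : ¬ p ∣ (jj (GG a) (le_GG a)).range.index := by
    rw [hidx3]
    exact fun h => hp3 ((Nat.prime_dvd_prime_iff_eq hp.out Nat.prime_three).1 h)
  have hyG : y ∈ GG a := by
    have h1 := mul_mem (le_GG a hya) (mem_GG a)
    rwa [inv_mul_cancel_right] at h1
  obtain ⟨g, h, hgh⟩ := coset3 S hp3 hdvd hZ hloc huniq hrig ha hna (GG a) rfl (x := jj (GG a) (le_GG a) x)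
    (y := ⟨y, hyG⟩) (z := ⟨a, mem_GG a⟩) rfl ⟨x, rfl⟩ hya
    (not_dvd_cent hZ (GG a) (le_GG a) hidxp (n := 1) (w := x) (pow_one _) (by
      intro h1
      exact hpr ((Nat.prime_dvd_prime_iff_eq hp.out hr).1 (h1.trans (hCr x hx)))))
    (not_dvd_cent hZ (GG a) (le_GG a) hidxp (n := 3) (w := w) (Subtype.ext hyw) (by
      intro h1
      exact hps ((Nat.prime_dvd_prime_iff_eq hp.out hs).1 (h1.trans (hCs w hw)))))
  rw [jj_conj] at hgh
  obtain ⟨k, hk⟩ : ∃ k : K, k = (g : MulAut K) x := ⟨_, rfl⟩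
  rw [← hk] at hgh
  have hko : orderOf k = r := by rw [hk, ← hx]; exact MulEquiv.orderOf_eq (g : MulAut K) x
  refine ⟨k, fun H hkH hinv => hK H ?_ ?_⟩
  · have h1 := orderOf_dvd_natCard (⟨k, hkH⟩ : ↥H)
    rwa [Subgroup.orderOf_mk, hko] at h1
  -- the cube of the second factor
  · have h1 : MulAut.conj k * ((h : MulAut K) * y * (h : MulAut K)⁻¹) = a := congrArg Subtype.val hgh
    have h2 : (h : MulAut K) * y * (h : MulAut K)⁻¹ = MulAut.conj k⁻¹ * a := by
      rw [map_inv, eq_inv_mul_iff_mul_eq]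
      exact h1
    have h3 : (MulAut.conj k⁻¹ * a) ^ 3 = MulAut.conj (k⁻¹ * a k⁻¹ * a (a k⁻¹)) * a ^ 3 := by
      rw [map_mul, map_mul, ← BpLieP.Big.conj_mul_eq a (a k⁻¹), ← BpLieP.Big.conj_mul_eq a k⁻¹]
      generalize MulAut.conj k⁻¹ = κ
      simp only [pow_succ, pow_zero, one_mul, mul_assoc, inv_mul_cancel_left]
    have h4 : MulAut.conj ((h : MulAut K) w) = MulAut.conj (k⁻¹ * a k⁻¹ * a (a k⁻¹)) := by
      rw [← BpLieP.Big.conj_mul_eq, ← hyw, ← conj_pow, h2, h3, ha, mul_one]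
    have h5 := BpLieP.Big.conj_injective hZ h4
    have h6 : (h : MulAut K) w ∈ H := by
      rw [h5]
      have h7 := inv_mem hkH
      exact mul_mem (mul_mem h7 (hinv _ h7)) (hinv _ (hinv _ h7))
    have h8 := orderOf_dvd_natCard (⟨(h : MulAut K) w, h6⟩ : ↥H)
    rwa [Subgroup.orderOf_mk, MulEquiv.orderOf_eq, hw] at h8

end Main

section Rigid4

open CoxeterSystem Cfsg.Agent.ChevalleyStructure.CoxeterGeom

/-- commuting simple reflections -/
theorem comm_iff {I W : Type*} [Fintype I] [DecidableEq I] [Group W] {M : CoxeterMatrix I} (cs : CoxeterSystem M W)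
    {A : I → I → ℤ} (h : IsCartan M A) (i j : I) :
    cs.simple i * cs.simple j = cs.simple j * cs.simple i ↔ i = j ∨ M i j = 2 := by
  constructor
  · intro hc
    by_contra hcon
    push Not at hcon
    apply Cfsg.Agent.Nodes.BNOf.RGD.comm_ne (cs := cs) (h := h) hcon.1 hcon.2
    rw [hc]
    group
  · rintro (rfl | h2)
    · rfl
    · have h1 := cs.simple_mul_simple_pow i j
      rw [h2, pow_two] at h1
      have h3 : cs.simple i * cs.simple j = (cs.simple i * cs.simple j)⁻¹ := eq_inv_of_mul_eq_one_left h1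
      rw [mul_inv_rev, inv_simple, inv_simple] at h3
      exact h3

/-- equal or not joined nodes of `F₄` -/
def Cm (i j : Fin 4) : Prop := i = j ∨ CoxeterMatrix.F₄ i j = 2

instance (i j : Fin 4) : Decidable (Cm i j) := inferInstanceAs (Decidable (i = j ∨ CoxeterMatrix.F₄ i j = 2))

theorem rigid_dec : ∀ τ : Fin 4 → Fin 4, (∀ i j : Fin 4, Cm i j ↔ Cm (τ i) (τ j)) → (∀ i, τ (τ (τ i)) = i) →
    ∀ i, τ i = i := by
  decide +kernel

/-- **The diagram `F₄` has no symmetry of order three.** -/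
theorem rigid_F4 {K : Type*} [Group K] {P : Cfsg.BNPair K} {e : Fin 4 ≃ P.S} (hT : BNType P CoxeterMatrix.F₄ e)
    [hN : ((P.B ⊓ P.N).subgroupOf P.N).Normal] : Rigid P := by
  obtain ⟨hn, cs, hcs⟩ := hT
  intro σ h1 h2 i
  have h0 : ∀ i j : P.S, rf P i * rf P j = rf P j * rf P i ↔ Cm (e.symm i) (e.symm j) := by
    intro i j
    obtain ⟨i, rfl⟩ := e.surjective i
    obtain ⟨j, rfl⟩ := e.surjective j
    rw [e.symm_apply_apply, e.symm_apply_apply]
    have h4 := comm_iff cs Nodes.RGDTwE6.isCartan i j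
    rw [hcs, hcs] at h4
    exact h4
  have h3 := rigid_dec (fun i => e.symm (σ (e i))) (by
    intro i j
    have h4 := h1 (e i) (e j)
    rw [h0, h0, e.symm_apply_apply, e.symm_apply_apply] at h4
    exact h4) (by
    intro i
    simp only [e.apply_symm_apply]
    rw [h2, e.symm_apply_apply]) (e.symm i)
  simp only [e.apply_symm_apply] at h3
  exact e.symm.injective h3

end Rigid4

end Cfsg.Agent.H330.GowOut
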