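import Cfsg.Agent.H330.GowOut
import Cfsg.Agent.H330.Gow
import Cfsg.Agent.H190.Odd.TwExact
import Cfsg.Agent.H56.Exc.BigRows
import Cfsg.Agent.H290.ElReg
import Cfsg.Agent.H436.Names
import Cfsg.Agent.S1066

/-!
# The outer automorphisms of order three of `²E₆(2)` (helper330, S3938)

If `²E₆(2)` has no proper subgroup of order divisible by `13` and `19` then for every outer automorphism `a` with
`a ^ 3 = 1` there is an element `x` such that `²E₆(2)` is the only `a`-invariant subgroup containing `x`.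
-/

set_option autoImplicit false
set_option linter.unusedSectionVars false

namespace Cfsg.Agent.H330.GowTe6

open Cfsg Cfsg.Agent.H56.Exc
open Cfsg.Agent.H436 (Prim IsNamed)

theorem prim_of_order {q e r : ℕ} (hr : r.Prime) (hq : 1 ≤ q) (hrq : ¬ r ∣ q) (h : orderOf ((q : ℕ) : ZMod r) = e) :
    Prim q e r := by
  refine ⟨hr, fun m => ?_, hrq⟩
  rw [← h, orderOf_dvd_iff_pow_eq_one, ← ZMod.natCast_eq_zero_iff, Nat.cast_sub (Nat.one_le_pow _ _ hq),
    Nat.cast_pow, Nat.cast_one, sub_eq_zero]

theorem prim19 : Prim 2 18 19 := by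
  refine prim_of_order (by norm_num) (by norm_num) (by norm_num) ?_
  rw [orderOf_eq_iff (by norm_num)]
  refine ⟨by decide, fun m hm hm0 => ?_⟩
  interval_cases m <;> decide

theorem prim13 : Prim 2 12 13 := by
  refine prim_of_order (by norm_num) (by norm_num) (by norm_num) ?_
  rw [orderOf_eq_iff (by norm_num)]
  refine ⟨by decide, fun m hm hm0 => ?_⟩
  interval_cases m <;> decide

theorem pp2 : IsPrimePow 2 := Nat.prime_two.isPrimePow

/-- the automorphisms induced on a Sylow subgroup of prime order -/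
theorem exists_index {K : Type*} [Group K] [Finite K] {s : ℕ} (hs : s.Prime) (hs2 : ¬ s ^ 2 ∣ Nat.card K) {x : K}
    (hx : orderOf x = s) (hC : Nat.card ↥(Subgroup.centralizer ({x} : Set K)) ∣ s) :
    ∃ j i : ℕ, Nat.card K = s * j * i ∧ i % s = 1 % s ∧
      (Subgroup.zpowers x).normalizerMonoidHom.range.index * j = s - 1 := by
  classical
  have := Fact.mk hs
  have key : ∃ P : Sylow s K, (P : Subgroup K) = Subgroup.zpowers x := by
    have hPG : IsPGroup s (Subgroup.zpowers x) := IsPGroup.of_card (n := 1) (by rw [Nat.card_zpowers, hx, pow_one])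
    obtain ⟨P, hP'⟩ := hPG.exists_le_sylow
    refine ⟨P, (Subgroup.eq_of_le_of_card_ge hP' ?_).symm⟩
    obtain ⟨k, hk⟩ := IsPGroup.iff_card.1 P.2
    have h1 : k ≤ 1 := by
      by_contra hk1
      exact hs2 (((pow_dvd_pow s (by omega : 2 ≤ k)).trans (by rw [← hk])).trans (Subgroup.card_subgroup_dvd_card _))
    rw [hk, Nat.card_zpowers, hx]
    exact (Nat.pow_le_pow_right hs.pos h1).trans (by rw [pow_one])
  obtain ⟨P, hP⟩ := key
  have h1 := card_sylow_modEq_one s K
  have h2 : Nat.card (Sylow s K) = (Subgroup.normalizer ((P : Subgroup K) : Set K)).index := P.card_eq_index_normalizer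
  rw [hP] at h2
  set f := (Subgroup.zpowers x).normalizerMonoidHom with hf
  have hker : Nat.card ↥f.ker = s := by
    have h3 : Nat.card ↥(Subgroup.centralizer ({x} : Set K)) = s := by
      rcases (Nat.dvd_prime hs).1 hC with h4 | h4
      · exfalso
        have h5 := (orderOf_dvd_natCard (⟨x, Subgroup.mem_centralizer_singleton_iff.2 rfl⟩ :
          ↥(Subgroup.centralizer ({x} : Set K))))
        rw [h4, Subgroup.orderOf_mk, hx, Nat.dvd_one] at h5
        exact hs.one_lt.ne' h5
      · exact h4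
    have h4 : Subgroup.centralizer ((Subgroup.zpowers x : Subgroup K) : Set K) = Subgroup.centralizer ({x} : Set K) := by
      rw [Subgroup.zpowers_eq_closure, Subgroup.centralizer_closure]
    have h5 : Subgroup.centralizer ((Subgroup.zpowers x : Subgroup K) : Set K) ≤
        Subgroup.normalizer ((Subgroup.zpowers x : Subgroup K) : Set K) := Subgroup.centralizer_le_normalizer _
    rw [hf, Subgroup.normalizerMonoidHom_ker, Nat.card_congr (Subgroup.subgroupOfEquivOfLe h5).toEquiv, h4, h3]
  have hfr : Nat.card ↥(Subgroup.normalizer ((Subgroup.zpowers x : Subgroup K) : Set K)) =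
      Nat.card ↥f.range * Nat.card ↥f.ker := by
    rw [Subgroup.card_eq_card_quotient_mul_card_subgroup f.ker,
      Nat.card_congr (QuotientGroup.quotientKerEquivRange f).toEquiv]
  refine ⟨Nat.card ↥f.range, Nat.card (Sylow s K), ?_, h1, ?_⟩
  · rw [h2, ← Subgroup.card_mul_index (Subgroup.normalizer ((Subgroup.zpowers x : Subgroup K) : Set K)), hfr, hker,
      mul_comm (Nat.card ↥f.range) s]
  · rw [Subgroup.index_mul_card, IsCyclic.card_mulAut, Nat.card_zpowers, hx, Nat.totient_prime hs]

section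

variable {F : Type} [Field F] [Fintype F] (hF : Fintype.card F = 2 ^ 2)

include hF

theorem card_eq : Nat.card ↥(Lie.twistedE6 F 2) = 76532479683774853939200 := by
  have h := S1066.result pp2 hF
  have h2 : Nat.gcd 3 (2 + 1) = 3 := by norm_num
  rw [h2] at h
  norm_num at h
  omega

theorem big19 : Big ↥(Lie.twistedE6 F 2) 19 19 9 := by
  have hb := big_TE6_18 pp2 hF (m := 57) (by norm_num) prim19
  exact ⟨hb.prime, hb.cyc, fun x hx => by
    have := (Cfsg.Agent.H190.Exc.te6_18 pp2 hF prim19).2 x hx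
    exact this.trans (by norm_num), hb.aut, hb.ndvd⟩

theorem big13 : Big ↥(Lie.twistedE6 F 2) 13 13 12 := by
  have hb := big_TE6_12 pp2 hF (m := 39) (by norm_num) prim13
  refine ⟨hb.prime, hb.cyc, fun x hx => ?_, hb.aut, hb.ndvd⟩
  have := (Cfsg.Agent.H190.Odd.exact_te6_12 pp2 hF (by norm_num) prim13 hx).1
  exact Nat.dvd_of_mul_dvd_mul_left (k := 3) (by norm_num) (this.trans (by norm_num))

theorem charP2 : CharP F 2 := H290.ElReg.charP_of_pow (a := 2) Nat.prime_two hF

theorem lie2 : IsLieTypeChar 2 ↥(Lie.twistedE6 F 2) :=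
  Or.inr (Or.inr (Or.inr (Or.inr (Or.inr (Or.inr (Or.inr (Or.inl
    ⟨F, inferInstance, inferInstance, charP2 hF, 2, pp2, Or.inl ⟨hF, ⟨MulEquiv.refl _⟩⟩⟩)))))))

/-- **Outer automorphisms of order three of `²E₆(2)`.** -/
theorem body_te6 (hK : ∀ H : Subgroup ↥(Lie.twistedE6 F 2), 13 ∣ Nat.card H → 19 ∣ Nat.card H → H = ⊤)
    {a : MulAut ↥(Lie.twistedE6 F 2)} (ha : a ^ 3 = 1)
    (hna : a ∉ (MulAut.conj : ↥(Lie.twistedE6 F 2) →* MulAut ↥(Lie.twistedE6 F 2)).range) : H862.Spr.Body a := by
  have : Fact (Nat.Prime 2) := ⟨Nat.prime_two⟩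
  have : CharP F 2 := charP2 hF
  have hG := lie2 hF
  have hcard := card_eq hF
  have : Finite ↥(Lie.twistedE6 F 2) := Nat.finite_of_card_ne_zero (by rw [hcard]; norm_num)
  have : IsSimpleGroup ↥(Lie.twistedE6 F 2) := H400.LieSimple.isSimple_of_lie hG
  have hSab := H716.SplitAb.hasSplitAb_of_lie Nat.prime_two hG
  have hS := Gow.hasSplit_of_ab hSab
  obtain ⟨P, U, e, S, hT⟩ := (Omega.ML.Ex.Typ.typ_twE6 pp2 hF 2).hasSplitT Nat.prime_two (by norm_num)
  have hN : ((P.B ⊓ P.N).subgroupOf P.N).Normal := Tits.OfBN.normal_subgroupOf P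
  refine GowOut.body S (p := 2) (r := 13) (s := 19) (by norm_num) (Gow.dvd_card hS) (H400.LieLocal.center_eq_bot hS)
    (Gow.locChar_of_lie hG) (GowOne.unique_of_hasSplitAb hSab (Gow.perfect_of_split hS)) (GowOut.rigid_F4 hT)
    (by norm_num) (by norm_num) (by norm_num) (by norm_num) (by norm_num) (big13 hF).card (big19 hF).card
    (by rw [hcard]; norm_num) (by rw [hcard]; norm_num) (by rw [hcard]; norm_num) ?_ hK ha hna
  intro x hx
  obtain ⟨j, i, h1, h2, h3⟩ := exists_index (s := 19) (by norm_num) (by rw [hcard]; norm_num) hx ((big19 hF).card x hx)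
  rw [hcard] at h1
  have hj : j ≤ 18 := Nat.le_of_dvd (by norm_num) (by
    rw [show (19 - 1 : ℕ) = 18 from rfl] at h3
    exact ⟨_, h3.symm.trans (mul_comm _ _)⟩)
  interval_cases j <;> omega

end

/-- transport of `Body` along an isomorphism -/
theorem body_congr {T L : Type*} [Group T] [Group L] (e : T ≃* L) {a : MulAut T}
    (h : H862.Spr.Body (MulAut.congr e a)) : H862.Spr.Body a := by
  obtain ⟨x, hx⟩ := h
  refine ⟨e.symm x, fun H hxH hinv => ?_⟩
  have h1 := hx (H.comap e.symm.toMonoidHom) hxH (by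
    intro k hk
    show e.symm (e (a (e.symm k))) ∈ H
    rw [e.symm_apply_apply]
    exact hinv _ hk)
  rw [eq_top_iff]
  intro t _
  have h2 : e t ∈ H.comap e.symm.toMonoidHom := by rw [h1]; trivial
  have h3 : e.symm (e t) ∈ H := h2
  rwa [e.symm_apply_apply] at h3

/-- the statement for a group isomorphic to `²E₆(2)` -/
theorem body_equiv {F : Type} [Field F] [Fintype F] (hF : Fintype.card F = 2 ^ 2) {T : Type*} [Group T]
    (e : T ≃* ↥(Lie.twistedE6 F 2)) (hK : ∀ H : Subgroup T, 13 ∣ Nat.card H → 19 ∣ Nat.card H → H = ⊤)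
    {a : MulAut T} (ha : a ^ 3 = 1) (hna : a ∉ (MulAut.conj : T →* MulAut T).range) : H862.Spr.Body a := by
  refine body_congr e (body_te6 hF ?_ ?_ ?_)
  · intro H h13 h19
    have hc : Nat.card ↥(H.comap e.toMonoidHom) = Nat.card H :=
      Nat.card_congr
        { toFun := fun t => ⟨e t, t.2⟩
          invFun := fun h => ⟨e.symm h, by
            show e (e.symm (h : ↥(Lie.twistedE6 F 2))) ∈ H
            rw [e.apply_symm_apply]
            exact h.2⟩
          left_inv := fun t => Subtype.ext (e.symm_apply_apply _)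
          right_inv := fun h => Subtype.ext (e.apply_symm_apply _) }
    have h1 := hK (H.comap e.toMonoidHom) (by rw [hc]; exact h13) (by rw [hc]; exact h19)
    rw [eq_top_iff]
    intro t _
    have h2 : e.symm t ∈ H.comap e.toMonoidHom := by rw [h1]; trivial
    have h3 : e (e.symm t) ∈ H := h2
    rwa [e.apply_symm_apply] at h3
  · rw [← map_pow, ha, map_one]
  · rintro ⟨g, hg⟩
    apply hna
    refine ⟨e.symm g, ?_⟩
    apply MulEquiv.ext
    intro t
    have h1 := DFunLike.congr_fun hg (e t)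
    have h2 : g * e t * g⁻¹ = e (a (e.symm (e t))) := h1
    rw [e.symm_apply_apply] at h2
    apply e.injective
    rw [MulAut.conj_apply, map_mul, map_mul, map_inv, e.apply_symm_apply, h2]

/-- **The statement for the group with the name `²E₆(2)`.** -/
theorem body_named {T : Type*} [Group T] (hT : IsNamed (.te6 2) T)
    (hK : ∀ H : Subgroup T, 13 ∣ Nat.card H → 19 ∣ Nat.card H → H = ⊤) (a : MulAut T) (ha : orderOf a = 3)
    (hna : a ∉ (MulAut.conj : T →* MulAut T).range) : H862.Spr.Body a := by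
  obtain ⟨F, _, _, hF, ⟨e⟩⟩ := hT.real
  exact body_equiv hF e hK (by rw [← ha, pow_orderOf_eq_one]) hna

end Cfsg.Agent.H330.GowTe6
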