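import Cfsg.Agent.H330.GowAct
import Cfsg.Agent.H330.GowCoset
import Cfsg.Agent.H330.GowOne
import Cfsg.Agent.H400.LieLocal
import Cfsg.Agent.Blocks.CliffordCentral

/-!
# Gow's theorem in a coset of an automorphism of order three (helper330)

`K` with a split (B,N)-pair of characteristic `p ≠ 3`, of local characteristic `p`, with trivial centre, and with only one
irreducible character of `p`-defect zero; the diagram has no symmetry of order three. `a` an automorphism with `a ^ 3 = 1`,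
not inner; `G = Inn(K) ⟨a⟩`. If `x ∈ K` and `y ∈ G ∖ Inn(K)`, `y` in the coset of `a`, have centralisers in `G` of order
prime to `p`, then `a` is a product of a conjugate of `x` and a conjugate of `y`.
-/

set_option autoImplicit false
set_option linter.unusedSectionVars false

namespace Cfsg.Agent.H330.GowThree

open Cfsg Cfsg.Agent.LieExceptional.BNPairCore Cfsg.Agent.Tits.Core Cfsg.Agent.Tits.Core.Bldg Cfsg.Agent.Tits.OfBN
  Cfsg.Agent.Schreier.BNSch Cfsg.Agent.Tits.OppRes Cfsg.Agent.FixBN Cfsg.Agent.FixBN.OfBN Cfsg.Agent.FixBN.TwOfBN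
open Cfsg.Agent.H330.GowAct
open Cfsg.Agent.BpLieP.Big (LocChar)

/-- the reflection of `s` -/
def rf {K : Type*} [Group K] (P : Cfsg.BNPair K) (s : P.S) : WP P :=
  (QuotientGroup.mk (⟨(s : K), P.subset s.2⟩ : P.N) : P.N ⧸ (P.B ⊓ P.N).subgroupOf P.N)

/-- the diagram has no symmetry of order three -/
def Rigid {K : Type*} [Group K] (P : Cfsg.BNPair K) [hN : ((P.B ⊓ P.N).subgroupOf P.N).Normal] : Prop :=
  ∀ σ : P.S → P.S, (∀ i j : P.S, rf P i * rf P j = rf P j * rf P i ↔
    rf P (σ i) * rf P (σ j) = rf P (σ j) * rf P (σ i)) → (∀ i, σ (σ (σ i)) = i) → ∀ i, σ i = i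

section Uniq

/-- uniqueness of the character of defect zero along an isomorphism -/
theorem uniq_congr {K L : Type*} [Group K] [Group L] (e : K ≃* L) {p : ℕ}
    (h : ∀ θ θ' : IrrCharacter K, ¬ p ∣ Nat.card K / charDegree (θ : K → ℂ) →
      ¬ p ∣ Nat.card K / charDegree (θ' : K → ℂ) → θ = θ') (θ θ' : IrrCharacter L)
    (h1 : ¬ p ∣ Nat.card L / charDegree (θ : L → ℂ)) (h2 : ¬ p ∣ Nat.card L / charDegree (θ' : L → ℂ)) : θ = θ' := by
  have key : ∀ θ : IrrCharacter L, charDegree (fun g => (θ : L → ℂ) (e g)) = charDegree (θ : L → ℂ) := by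
    intro θ
    unfold charDegree
    simp only [map_one]
  have h3 := h ⟨_, Cfsg.Agent.Blocks.CliffordCentral.isIrrCharacter_comp θ.2 e.toMonoidHom e.surjective⟩
    ⟨_, Cfsg.Agent.Blocks.CliffordCentral.isIrrCharacter_comp θ'.2 e.toMonoidHom e.surjective⟩
    (by
      show ¬ p ∣ Nat.card K / charDegree (fun g => (θ : L → ℂ) (e g))
      rw [key, Nat.card_congr e.toEquiv]; exact h1)
    (by
      show ¬ p ∣ Nat.card K / charDegree (fun g => (θ' : L → ℂ) (e g))
      rw [key, Nat.card_congr e.toEquiv]; exact h2)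
  apply Subtype.ext
  funext g
  have h4 := congrFun (congrArg Subtype.val h3) (e.symm g)
  have h5 : (θ : L → ℂ) (e (e.symm g)) = (θ' : L → ℂ) (e (e.symm g)) := h4
  rwa [e.apply_symm_apply] at h5

end Uniq

variable {K : Type*} [Group K] [Finite K] {P : Cfsg.BNPair K} {p : ℕ} [hp : Fact p.Prime] {U : Subgroup K}
  (S : Split P p U)

section Types

variable [hN : ((P.B ⊓ P.N).subgroupOf P.N).Normal] {M : CoxeterMatrix P.S}
  (cs : CoxeterSystem M (WP P))
  (hcs : ∀ i, cs.simple i = QuotientGroup.mk (⟨((Equiv.refl P.S i : P.S) : K), P.subset (Equiv.refl P.S i).2⟩ : P.N))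

/-- the group `Inn(K) ⟨a⟩` -/
def GG (a : MulAut K) : Subgroup (MulAut K) := (MulAut.conj : K →* MulAut K).range ⊔ Subgroup.zpowers a

omit [Finite K] in
theorem le_GG (a : MulAut K) : (MulAut.conj : K →* MulAut K).range ≤ GG a := le_sup_left

omit [Finite K] in
theorem mem_GG (a : MulAut K) : a ∈ GG a := (le_sup_right : Subgroup.zpowers a ≤ GG a) (Subgroup.mem_zpowers a)

/-- all elements of `Inn(K) ⟨a⟩` preserve the types -/
theorem tp_GG (hrig : Rigid P) {a : MulAut K} (ha : a ^ 3 = 1) :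
    ∀ α ∈ GG a, ∀ x y, (bldg P (Equiv.refl P.S) cs hcs).δ (θ S α x) (θ S α y) =
      (bldg P (Equiv.refl P.S) cs hcs).δ x y := by
  have : Cox cs := inferInstance
  let T : Subgroup (MulAut K) :=
    { carrier := {α | ∀ x y, (bldg P (Equiv.refl P.S) cs hcs).δ (θ S α x) (θ S α y) =
        (bldg P (Equiv.refl P.S) cs hcs).δ x y}
      one_mem' := fun x y => by rw [θ_one, θ_one]
      mul_mem' := fun {α β} hα hβ x y => by
        rw [θ_mul, θ_mul]
        exact (hα _ _).trans (hβ _ _)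
      inv_mem' := fun {α} hα x y => by
        rw [← hα, ← θ_mul, ← θ_mul, mul_inv_cancel, θ_one, θ_one] }
  have h1 : GG a ≤ T := by
    unfold GG
    rw [sup_le_iff]
    refine ⟨?_, ?_⟩
    · rintro _ ⟨g, rfl⟩ x y
      exact tp_conj S (Equiv.refl P.S) cs hcs g x y
    · rw [Subgroup.zpowers_le]
      intro x y
      refine tp_of_cube S (Equiv.refl P.S) cs hcs (fun σ h1 h2 => hrig σ ?_ h2) a ha x y
      intro i j
      have h3 := h1 i j
      rw [hcs, hcs, hcs, hcs] at h3
      exact h3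
  intro α hα
  exact h1 hα

end Types

section Group3

variable {a : MulAut K}

/-- every element of `Inn(K) ⟨a⟩` is a product -/
theorem mem_GG_iff (a g : MulAut K) (hg : g ∈ GG a) : ∃ (k : K) (n : ℤ), MulAut.conj k * a ^ n = g := by
  have hn : ((MulAut.conj : K →* MulAut K).range).Normal := by
    constructor
    rintro _ ⟨g, rfl⟩ α
    exact ⟨α g, (BpLieP.Big.conj_mul_eq α g).symm⟩
  obtain ⟨_, ⟨k, rfl⟩, _, ⟨n, rfl⟩, h⟩ := Subgroup.mem_sup_of_normal_left.1 hg
  exact ⟨k, n, h⟩

/-- the index is three -/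
theorem index_GG (ha : a ^ 3 = 1) (hna : a ∉ (MulAut.conj : K →* MulAut K).range) :
    (jj (GG a) (le_GG a)).range.index = 3 := by
  have : Finite (MulAut K) := inferInstance
  have h1 : (jj (GG a) (le_GG a)).range.index ∣ 3 := by
    let f : ↥(Subgroup.zpowers a) →* ↥(GG a) ⧸ (jj (GG a) (le_GG a)).range :=
      (QuotientGroup.mk' _).comp (Subgroup.inclusion (le_sup_right : Subgroup.zpowers a ≤ GG a))
    have hf : Function.Surjective f := by
      intro q
      induction q using QuotientGroup.induction_on with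
      | _ g =>
      obtain ⟨k, n, hkn⟩ := mem_GG_iff a g g.2
      refine ⟨⟨a ^ n, n, rfl⟩, ?_⟩
      have h2 : g = jj (GG a) (le_GG a) k * (⟨a ^ n, (GG a).zpow_mem (mem_GG a) n⟩ : ↥(GG a)) := by
        apply Subtype.ext
        exact hkn.symm
      have h3 : (QuotientGroup.mk g : ↥(GG a) ⧸ (jj (GG a) (le_GG a)).range) =
          QuotientGroup.mk (⟨a ^ n, (GG a).zpow_mem (mem_GG a) n⟩ : ↥(GG a)) := by
        rw [h2, QuotientGroup.mk_mul, (QuotientGroup.eq_one_iff _).2 (show jj (GG a) (le_GG a) k ∈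
          (jj (GG a) (le_GG a)).range from ⟨k, rfl⟩), one_mul]
      exact h3.symm
    have h4 := Subgroup.card_dvd_of_surjective f hf
    rw [Nat.card_zpowers] at h4
    exact h4.trans (orderOf_dvd_of_pow_eq_one ha)
  rcases (Nat.dvd_prime Nat.prime_three).1 h1 with h2 | h2
  · exfalso
    rw [Subgroup.index_eq_one] at h2
    have h3 : (⟨a, mem_GG a⟩ : ↥(GG a)) ∈ (jj (GG a) (le_GG a)).range := by rw [h2]; exact Subgroup.mem_top _
    obtain ⟨k, hk⟩ := h3
    exact hna ⟨k, congrArg Subtype.val hk⟩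
  · exact h2

/-- the centre is trivial -/
theorem center_GG (G : Subgroup (MulAut K)) (hG : (MulAut.conj : K →* MulAut K).range ≤ G)
    (hZ : Subgroup.center K = ⊥) : Subgroup.center ↥G = ⊥ := by
  rw [eq_bot_iff]
  intro z hz
  rw [Subgroup.mem_center_iff] at hz
  rw [Subgroup.mem_bot]
  apply Subtype.ext
  apply MulEquiv.ext
  intro g
  have h1 := hz (jj G hG g)
  have h2 : jj G hG ((z : MulAut K) g) = jj G hG g := by
    rw [← jj_conj, ← h1, mul_inv_cancel_right]
  exact jj_injective G hG hZ h2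

end Group3

section Main

variable {a : MulAut K}

include S in
/-- `Inn(K) ⟨a⟩` has local characteristic `p` -/
theorem locChar_GG [hN : ((P.B ⊓ P.N).subgroupOf P.N).Normal] {M : CoxeterMatrix P.S}
    (cs : CoxeterSystem M (WP P))
    (hcs : ∀ i, cs.simple i =
      QuotientGroup.mk (⟨((Equiv.refl P.S i : P.S) : K), P.subset (Equiv.refl P.S i).2⟩ : P.N))
    (G : Subgroup (MulAut K)) (hG : (MulAut.conj : K →* MulAut K).range ≤ G)
    (hZ : Subgroup.center K = ⊥) (hloc : LocChar p K) (hidx : ¬ p ∣ (jj G hG).range.index)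
    (htp : ∀ α ∈ G, ∀ x y, (bldg P (Equiv.refl P.S) cs hcs).δ (θ S α x) (θ S α y) =
      (bldg P (Equiv.refl P.S) cs hcs).δ x y) : LocChar p ↥G := by
  classical
  have hinj := jj_injective G hG hZ
  let e : K ≃* ↥(jj G hG).range := MonoidHom.ofInjective hinj
  have hZN : Subgroup.center ↥(jj G hG).range = ⊥ := by
    rw [eq_bot_iff]
    intro z hz
    have h1 : e.symm z ∈ Subgroup.center K := by
      rw [Subgroup.mem_center_iff] at hz ⊢
      intro g
      apply e.injective
      rw [map_mul, map_mul, e.apply_symm_apply]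
      exact hz _
    rw [hZ, Subgroup.mem_bot] at h1
    rw [Subgroup.mem_bot, ← e.apply_symm_apply z, h1, map_one]
  refine GowLoc.locChar_of_normal (jj G hG).range hidx hZN (H400.LieLocal.locChar_congr e.symm hloc) ?_
  intro x hx Q hQ
  letI := gact S G
  set T := sys S G hG (Equiv.refl P.S) cs hcs hZ hidx htp with hT
  have hQp : IsPGroup p ↥((Q : Subgroup ↥(jj G hG).range).map (jj G hG).range.subtype) := Q.2.map _
  obtain ⟨c, hc⟩ := T.exists_fix _ hQp
  have hle := T.max c _ hQp hc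
  -- equality
  have heq : ∀ u ∈ T.U c, ∃ y ∈ Q, (y : ↥G) = u := by
    intro u hu
    have hUN := GowLoc.le_of_isP (jj G hG).range hidx (T.isP c)
    have h1 : (Q : Subgroup ↥(jj G hG).range) = (T.U c).subgroupOf (jj G hG).range := by
      symm
      refine Q.3 (IsPGroup.comap_subtype (T.isP c)) ?_
      intro y hy
      exact Subgroup.mem_subgroupOf.2 (hle ⟨y, hy, rfl⟩)
    refine ⟨⟨u, hUN hu⟩, ?_, rfl⟩
    have h2 : (⟨u, hUN hu⟩ : ↥(jj G hG).range) ∈ (Q : Subgroup ↥(jj G hG).range) := by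
      rw [h1]
      exact Subgroup.mem_subgroupOf.2 hu
    exact h2
  have hcomm : ∀ u ∈ T.U c, x * u = u * x := by
    intro u hu
    obtain ⟨y, hy, rfl⟩ := heq u hu
    have h1 := hQ y hy
    rwa [mul_inv_eq_iff_eq_mul] at h1
  have : Fintype (K ⧸ P.B) := Fintype.ofFinite _
  have : Finite P.S := inferInstance
  have : Fintype P.S := Fintype.ofFinite _
  have : Cox cs := inferInstance
  have htriv := GowCent.smul_eq_of_centralizes T (Tits.OfBN.thick P (Equiv.refl P.S) cs hcs)
    (trans_G S G hG) hx hcomm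
  have hfaith := Tits.OfBN.faithful P S.core
  apply Subtype.ext
  apply MulEquiv.ext
  intro g
  show (x : MulAut K) g = g
  refine hfaith.eq_of_smul_eq_smul fun d => ?_
  rw [← jj_smul S G hG, ← jj_smul S G hG, ← jj_conj, mul_smul, mul_smul]
  have h1 := htriv (x⁻¹ • d)
  rw [smul_inv_smul] at h1
  rw [htriv, ← h1]

include S in
/-- **Gow's theorem in the coset of an automorphism of order three.** -/
theorem coset3 (hp3 : p ≠ 3) (hdvd : p ∣ Nat.card K) (hZ : Subgroup.center K = ⊥) (hloc : LocChar p K)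
    (huniq : ∀ θ θ' : IrrCharacter K, ¬ p ∣ Nat.card K / charDegree (θ : K → ℂ) →
      ¬ p ∣ Nat.card K / charDegree (θ' : K → ℂ) → θ = θ')
    [hN : ((P.B ⊓ P.N).subgroupOf P.N).Normal] (hrig : Rigid P)
    (ha : a ^ 3 = 1) (hna : a ∉ (MulAut.conj : K →* MulAut K).range)
    (G : Subgroup (MulAut K)) (hG : G = GG a) {x y z : ↥G} (hzd : (z : MulAut K) = a)
    (hx1 : (x : MulAut K) ∈ (MulAut.conj : K →* MulAut K).range)
    (hy1 : (y : MulAut K) * a⁻¹ ∈ (MulAut.conj : K →* MulAut K).range)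
    (hx : ¬ p ∣ Nat.card ↥(Subgroup.centralizer ({x} : Set ↥G)))
    (hy : ¬ p ∣ Nat.card ↥(Subgroup.centralizer ({y} : Set ↥G))) :
    ∃ g h : ↥G, g * x * g⁻¹ * (h * y * h⁻¹) = z := by
  classical
  subst hG
  have hle := le_GG a
  obtain ⟨M, cs, hcs⟩ := S0320.result P
  have hidx3 := index_GG ha hna
  have hidx : ¬ p ∣ (jj (GG a) (le_GG a)).range.index := by
    rw [hidx3]
    exact fun h => hp3 ((Nat.prime_dvd_prime_iff_eq hp.out Nat.prime_three).1 h)
  have htp := tp_GG S cs hcs hrig ha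
  have hlocG := locChar_GG S cs hcs (GG a) (le_GG a) hZ hloc hidx htp
  have hinj := jj_injective (GG a) (le_GG a) hZ
  let e : K ≃* ↥(jj (GG a) (le_GG a)).range := MonoidHom.ofInjective hinj
  have : Fintype (K ⧸ P.B) := Fintype.ofFinite _
  have : Finite P.S := inferInstance
  have : Fintype P.S := Fintype.ofFinite _
  have : Cox cs := inferInstance
  letI := gact S (GG a)
  obtain ⟨χ, hχ, hχ1, hχv⟩ := GowSt.exists_st (sys S (GG a) (le_GG a) (Equiv.refl P.S) cs hcs hZ hidx htp)
    (Tits.OfBN.thick P (Equiv.refl P.S) cs hcs) (trans_G S (GG a) (le_GG a)) (QuotientGroup.mk 1)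
  have hmem : ∀ w : ↥(GG a), w ∈ (jj (GG a) (le_GG a)).range ↔ (w : MulAut K) ∈ (MulAut.conj : K →* MulAut K).range := by
    intro w
    constructor
    · rintro ⟨k, rfl⟩
      exact ⟨k, rfl⟩
    · rintro ⟨k, hk⟩
      exact ⟨k, Subtype.ext hk⟩
  have hyz : y * z⁻¹ ∈ (jj (GG a) (le_GG a)).range := by
    rw [hmem]
    show (y : MulAut K) * (z : MulAut K)⁻¹ ∈ _
    rw [hzd]
    exact hy1
  have hz3 : z ^ 3 = 1 := by
    apply Subtype.ext
    show (z : MulAut K) ^ 3 = 1
    rw [hzd, ha]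
  have hzN : z ∉ (jj (GG a) (le_GG a)).range := by
    rw [hmem, hzd]
    exact hna
  have hyN : y ∉ (jj (GG a) (le_GG a)).range := by
    intro h
    apply hzN
    have h1 := mul_mem (inv_mem hyz) h
    rwa [mul_inv_rev, inv_inv, inv_mul_cancel_right] at h1
  have hz1 : z ≠ 1 := by
    rintro rfl
    exact hzN (one_mem _)
  have hzr : ¬ p ∣ orderOf z := by
    intro h
    have h1 := h.trans (orderOf_dvd_of_pow_eq_one hz3)
    exact hp3 ((Nat.prime_dvd_prime_iff_eq hp.out Nat.prime_three).1 h1)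
  refine GowCoset.coset (jj (GG a) (le_GG a)).range Nat.prime_three hidx3 hp3 ?_ hlocG
    (center_GG (GG a) (le_GG a) hZ) (uniq_congr e huniq) hχ hχ1 hχv ((hmem x).2 hx1) hyN hyz hx hy hz1 hzr
  refine (hdvd.trans ?_)
  rw [Nat.card_congr e.toEquiv]
  exact Subgroup.card_subgroup_dvd_card _

end Main

end Cfsg.Agent.H330.GowThree
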